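import Mathlib
import Cfsg.Agent.Lib.Gross.TheoremU
import Cfsg.Agent.Lib.HallHigman.Layer
import Cfsg.Agent.Lib.Solvable.PSeries

/-!
# The `2`-length of a solvable group with Sylow `2`-subgroups of exponent `2 ^ e`
-/

set_option autoImplicit false
set_option linter.unusedSectionVars false
set_option linter.style.haveILetI false

namespace Cfsg.Agent.Lib.Gross.TwoLength

open Module Cfsg Cfsg.Agent.Lib.Basic.PCore Cfsg.Agent.Lib.Solvable.PSeries
open Cfsg.Agent.Lib.HallHigman.Layer Cfsg.Agent.Lib.Gross.TheoremU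

universe u

section abstractOdd

variable {H : Type u} [Group H] [Finite H]

/-- The elements of odd order of `D` generate a group of odd order, when `O_2 = 1`. -/
theorem oddD_le_core (hsol : Group.IsSolvable H) {𝒜 : Set H} (hconj : ∀ g, ∀ a ∈ 𝒜, g * a * g⁻¹ ∈ 𝒜)
    (hO2 : pCore 2 H = ⊥)
    (hU : ∀ q : ℕ, q.Prime → q ≠ 2 → ∀ z ∈ oddD 𝒜, (orderOf z).Coprime q → ∀ x ∈ pCore q H, z * x * z⁻¹ = x) :
    oddD 𝒜 ≤ pPrimeCore 2 H := by
  classical
  haveI : Fact (Nat.Prime 2) := ⟨Nat.prime_two⟩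
  have hn : (oddD 𝒜).Normal := ⟨fun y hy g => oddD_conj hconj g hy⟩
  refine le_pPrimeCore hn ?_
  rw [Nat.coprime_two_right]
  by_contra hcon
  have h2dvd : 2 ∣ Nat.card (oddD 𝒜) := by
    rw [Nat.not_odd_iff_even] at hcon
    exact hcon.two_dvd
  obtain ⟨z, hz⟩ := exists_prime_orderOf_dvd_card' (G := oddD 𝒜) 2 h2dvd
  have hz2 : orderOf (z : H) = 2 := by
    rw [Subgroup.orderOf_coe]; exact hz
  -- `z` centralises the Fitting subgroup
  have hFc : ∀ x ∈ fittingSubgroup H, (z : H) * x = x * z := by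
    intro x hx
    have hle : fittingSubgroup H ≤ Subgroup.centralizer ({(z : H)} : Set H) := by
      rw [fittingSubgroup_eq_iSup_pCore]
      refine iSup_le ?_
      rintro ⟨t, ht⟩ u hu
      rw [Subgroup.mem_centralizer_iff]
      intro w hw
      rw [Set.mem_singleton_iff.mp hw]
      have htp := Nat.prime_of_mem_primeFactors ht
      by_cases ht2 : t = 2
      · subst ht2
        rw [hO2, Subgroup.mem_bot] at hu
        rw [hu]
        simp
      · have hc : (orderOf (z : H)).Coprime t := by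
          rw [hz2]
          exact (Nat.coprime_primes Nat.prime_two htp).mpr (Ne.symm ht2)
        have h1 := hU t htp ht2 z z.2 hc u hu
        calc (z : H) * u = ((z : H) * u * (z : H)⁻¹) * z := by group
          _ = u * z := by rw [h1]
    exact Subgroup.mem_centralizer_iff.mp (hle hx) z rfl
  have hzF : (z : H) ∈ fittingSubgroup H := by
    set C := Subgroup.centralizer (fittingSubgroup H : Set H) with hC
    haveI : C.Normal := inferInstance
    have hsolC : Group.IsSolvable C := inferInstance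
    have h1 : C ≤ fittingSubgroup H :=
      Cfsg.Agent.Lib.Components.Fitting.le_fitting_of_solvable_of_le_centralizer C le_rfl
        (by
          rw [Subgroup.normalizer_eq_top_iff.mpr ‹C.Normal›]
          exact le_top) hsolC
    apply h1
    rw [Subgroup.mem_centralizer_iff]
    intro x hx
    exact (hFc x hx).symm
  have hz1 := mem_pCore_of_normal_nilpotent (fittingSubgroup_normal H) fittingSubgroup_isNilpotent hzF
    Nat.prime_two (k := 1) (by rw [hz2, pow_one])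
  rw [hO2, Subgroup.mem_bot] at hz1
  rw [hz1, orderOf_one] at hz2
  omega

/-- The image of `D` modulo `O_{2'}` is a `2`-group. -/
theorem lastD_map_le {𝒜 : Set H} (hconj : ∀ g, ∀ a ∈ 𝒜, g * a * g⁻¹ ∈ 𝒜) (hodd : oddD 𝒜 ≤ pPrimeCore 2 H) {y : H}
    (hy : y ∈ lastD 𝒜) : (y : H ⧸ pPrimeCore 2 H) ∈ pCore 2 (H ⧸ pPrimeCore 2 H) := by
  classical
  haveI : Fact (Nat.Prime 2) := ⟨Nat.prime_two⟩
  have hLn : (lastD 𝒜).Normal := ⟨fun y hy g => lastD_conj hconj g hy⟩
  let f := QuotientGroup.mk' (pPrimeCore 2 H)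
  have hmapn : ((lastD 𝒜).map f).Normal := hLn.map f (QuotientGroup.mk'_surjective _)
  have hp : IsPGroup 2 ((lastD 𝒜).map f) := by
    rintro ⟨_, ℓ, hℓ, rfl⟩
    obtain ⟨k, m, hm, hord⟩ := Nat.exists_eq_two_pow_mul_odd (orderOf_pos ℓ).ne'
    refine ⟨k, Subtype.ext ?_⟩
    have e : orderOf (ℓ ^ 2 ^ k) = m := by
      rw [orderOf_pow' ℓ (by positivity), hord, Nat.gcd_eq_right (Dvd.intro _ rfl)]
      exact Nat.mul_div_cancel_left _ (by positivity)
    have h1 : ℓ ^ 2 ^ k ∈ oddD 𝒜 := Subgroup.subset_closure ⟨pow_mem hℓ _, by rw [e]; exact hm⟩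
    have h2 : f (ℓ ^ 2 ^ k) = 1 := (QuotientGroup.eq_one_iff _).mpr (hodd h1)
    simpa using h2
  exact le_pCore hmapn hp ⟨y, hy, rfl⟩

end abstractOdd

/-- The layer with the sum condition. -/
theorem layer_setup {G : Type u} [Group G] [Finite G] (hsol : Group.IsSolvable G) (e : ℕ)
    (hexp : ∀ x : G, (∃ k, x ^ 2 ^ k = 1) → x ^ 2 ^ e = 1) :
    ∃ (V : Type u) (_ : AddCommGroup V) (_ : Module (ZMod 2) V) (_ : Finite V)
      (ρ : (G ⧸ pPrimeCore 2 G) ⧸ pCore 2 (G ⧸ pPrimeCore 2 G) →* End (ZMod 2) V),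
      Function.Injective ρ ∧ ∀ a, (∃ k, a ^ 2 ^ k = 1) → a ^ 2 ^ e = 1 ∧
        ∑ i ∈ Finset.range (2 ^ e), (ρ a) ^ i = 0 := by
  classical
  haveI : Fact (Nat.Prime 2) := ⟨Nat.prime_two⟩
  have hps : IsPSolvable 2 G := isPSolvable_of_solvable
  have hcore := pPrimeCore_quotient (G := G) 2
  have hsol₁ := isPSolvable_quotient hps (pPrimeCore 2 G)
  have hexp₁ : ∀ y : G ⧸ pPrimeCore 2 G, (∃ k, y ^ 2 ^ k = 1) → y ^ 2 ^ e = 1 := by
    rintro y ⟨k, hk⟩
    obtain ⟨x, rfl, hx⟩ := exists_pow_lift _ (pPrimeCore_coprime 2) y k hk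
    rw [← QuotientGroup.mk_pow, hexp x ⟨k, hx⟩]
    rfl
  obtain ⟨V, iV, mV, hfinV, ρ, π, hπ, hρ, hact⟩ := exists_layer hsol₁ hcore
  refine ⟨V, iV, mV, hfinV, ρ, hρ, ?_⟩
  rintro a ⟨k, hk⟩
  have hPp : IsPGroup 2 (pCore 2 (G ⧸ pPrimeCore 2 G)) := pCore_isPGroup 2
  obtain ⟨g', rfl⟩ := QuotientGroup.mk_surjective a
  have hlift : ∀ h : G ⧸ pPrimeCore 2 G, (h : (G ⧸ pPrimeCore 2 G) ⧸ pCore 2 (G ⧸ pPrimeCore 2 G)) = g' ∨
      (h : (G ⧸ pPrimeCore 2 G) ⧸ pCore 2 (G ⧸ pPrimeCore 2 G)) = ((g'⁻¹ : G ⧸ pPrimeCore 2 G) :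
        (G ⧸ pPrimeCore 2 G) ⧸ pCore 2 (G ⧸ pPrimeCore 2 G)) → h ^ 2 ^ e = 1 := by
    intro h hh
    apply hexp₁
    have h1 : ((h ^ 2 ^ k : G ⧸ pPrimeCore 2 G) : (G ⧸ pPrimeCore 2 G) ⧸ pCore 2 (G ⧸ pPrimeCore 2 G)) = 1 := by
      rw [QuotientGroup.mk_pow]
      rcases hh with hh | hh
      · rw [hh, hk]
      · rw [hh, QuotientGroup.mk_inv, inv_pow, hk, inv_one]
    have h2 : h ^ 2 ^ k ∈ pCore 2 (G ⧸ pPrimeCore 2 G) := (QuotientGroup.eq_one_iff _).1 h1
    obtain ⟨j, hj⟩ := hPp ⟨_, h2⟩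
    refine ⟨k + j, ?_⟩
    have h3 : (h ^ 2 ^ k) ^ 2 ^ j = 1 := by
      have := congrArg Subtype.val hj
      simpa using this
    rw [pow_add, pow_mul, h3]
  have hg : ∀ u ∈ pCore 2 (G ⧸ pPrimeCore 2 G), (g'⁻¹ * u) ^ (2 ^ e) = 1 := by
    intro u hu
    apply hlift
    right
    rw [QuotientGroup.mk_mul]
    have : ((u : G ⧸ pPrimeCore 2 G) : (G ⧸ pPrimeCore 2 G) ⧸ pCore 2 (G ⧸ pPrimeCore 2 G)) = 1 :=
      (QuotientGroup.eq_one_iff _).2 hu
    rw [this, mul_one]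
  have hs := gain_lemma ρ π hπ hact g'⁻¹ e hg
  rw [inv_inv] at hs
  refine ⟨?_, ?_⟩
  · rw [← QuotientGroup.mk_pow, hlift g' (Or.inl rfl)]
    rfl
  · rw [← Cfsg.Agent.Lib.HallHigman.Block.sub_one_pow_eq_sum (p := 2)]
    exact hs

/-- The linear representation over the algebraic closure, with Theorem U. -/
theorem centralizes_of_layer {H : Type u} [Group H] [Finite H] (hsol : Group.IsSolvable H)
    {V : Type u} [AddCommGroup V] [Module (ZMod 2) V] [Finite V] (ρ : H →* End (ZMod 2) V)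
    (hρ : Function.Injective ρ) (e : ℕ)
    (hs : ∀ a : H, orderOf a = 2 ^ e → ∑ i ∈ Finset.range (2 ^ e), (ρ a) ^ i = 0) :
    ∀ q : ℕ, q.Prime → q ≠ 2 → ∀ z ∈ oddD {a : H | orderOf a = 2 ^ e}, (orderOf z).Coprime q →
      ∀ x ∈ pCore q H, z * x * z⁻¹ = x := by
  classical
  intro q hq hq2
  haveI : Fact q.Prime := ⟨hq⟩
  haveI : Module.Finite (ZMod 2) V := Module.Finite.of_finite
  haveI : Fact (Nat.Prime 2) := ⟨Nat.prime_two⟩
  let K := AlgebraicClosure (ZMod 2)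
  let W := TensorProduct (ZMod 2) K V
  let ρ' : H →* End K W := ((Module.End.baseChangeHom (ZMod 2) K V).toMonoidHom).comp ρ
  have hρ' : Function.Injective ρ' := by
    intro a b hab
    apply hρ
    exact LinearMap.baseChangeHom_injective (ZMod 2) V K hab
  have hqK : (q : K) ≠ 0 := by
    have h2K : ((2 : ℕ) : K) = 0 := CharP.cast_eq_zero K 2
    exact Cfsg.Agent.Lib.Gross.LemmaZ.cast_ne_zero_of_ne Nat.prime_two hq hq2 h2K
  refine theorem_u (K := K) (V := W) hsol ρ' hρ' hq2 hqK _ ?_ ?_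
  · intro g a ha
    have h : g * a * g⁻¹ = MulAut.conj g a := rfl
    show orderOf (g * a * g⁻¹) = 2 ^ e
    rw [h, MulEquiv.orderOf_eq]
    exact ha
  · intro a ha m hm hord v
    have hme : m = e := by
      have h1 : 2 ^ m = 2 ^ e := by
        rw [← hord]
        exact ha
      exact Nat.pow_right_injective (le_refl 2) h1
    subst hme
    have h1 := hs a ha
    have h2 : ∑ i ∈ Finset.range (2 ^ m), ρ' (a ^ i) = 0 := by
      have e1 : ∀ i, ρ' (a ^ i) = Module.End.baseChangeHom (ZMod 2) K V ((ρ a) ^ i) := by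
        intro i
        rw [← map_pow]
        rfl
      simp only [e1]
      rw [← map_sum, h1, map_zero]
    have h3 := LinearMap.congr_fun h2 v
    simpa [LinearMap.sum_apply] using h3

/-- **Gross's theorem on the `2`-length.** -/
theorem two_length : ∀ (f : ℕ) (G : Type u) [Group G] [Finite G], Group.IsSolvable G →
    (∀ x : G, (∃ k, x ^ 2 ^ k = 1) → x ^ 2 ^ (f + 1) = 1) → PLengthLE 2 (2 * f + 1) G := by
  intro f
  induction f with
  | zero =>
    intro G _ _ hsol hexp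
    haveI : Fact (Nat.Prime 2) := ⟨Nat.prime_two⟩
    obtain ⟨V, _, _, _, ρ, hρ, hlay⟩ := layer_setup hsol 1 hexp
    apply pLengthLE_succ_of_layer (k := 0)
    rw [pLengthLE_zero_iff]
    by_contra hcop
    have hd : 2 ∣ Nat.card ((G ⧸ pPrimeCore 2 G) ⧸ pCore 2 (G ⧸ pPrimeCore 2 G)) := by
      rw [Nat.coprime_comm] at hcop
      exact not_not.1 ((Nat.Prime.coprime_iff_not_dvd Nat.prime_two).not.1 hcop)
    obtain ⟨x, hx⟩ := exists_prime_orderOf_dvd_card' 2 hd
    have h1 : x ^ 2 ^ 1 = 1 := by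
      have h0 : x ^ orderOf x = 1 := pow_orderOf_eq_one x
      rw [hx] at h0
      simpa using h0
    obtain ⟨-, h2⟩ := hlay x ⟨1, h1⟩
    simp only [pow_one, Finset.sum_range_succ, Finset.sum_range_zero, zero_add, pow_zero] at h2
    -- `1 + ρ x = 0`, so `ρ x = 1`
    have h3 : ρ x = 1 := by
      have h4 : ρ x = - 1 := by
        rw [eq_neg_iff_add_eq_zero, add_comm]
        exact h2
      rw [h4]
      ext v
      simp only [LinearMap.neg_apply, Module.End.one_apply]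
      have h2v : (2 : ZMod 2) • v = 0 := by
        have : (2 : ZMod 2) = 0 := rfl
        rw [this, zero_smul]
      rw [two_smul] at h2v
      exact neg_eq_of_add_eq_zero_left h2v
    have h5 : x = 1 := hρ (by rw [h3, map_one])
    rw [h5, orderOf_one] at hx
    omega
  | succ f ih =>
    intro G _ _ hsol hexp
    haveI : Fact (Nat.Prime 2) := ⟨Nat.prime_two⟩
    obtain ⟨V, _, _, _, ρ, hρ, hlay⟩ := layer_setup hsol (f + 1 + 1) hexp
    have e2 : 2 * (f + 1) + 1 = (2 * f + 1 + 1) + 1 := by ring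
    rw [e2]
    apply pLengthLE_succ_of_layer
    apply pLengthLE_succ_of_layer
    apply ih
    · exact inferInstance
    set H := (G ⧸ pPrimeCore 2 G) ⧸ pCore 2 (G ⧸ pPrimeCore 2 G) with hH
    have hsolH : Group.IsSolvable H := inferInstance
    have hO2 : pCore 2 H = ⊥ := pCore_quotient_eq_bot
    set 𝒜 : Set H := {a : H | orderOf a = 2 ^ (f + 1 + 1)} with h𝒜
    have hconj : ∀ g, ∀ a ∈ 𝒜, g * a * g⁻¹ ∈ 𝒜 := by
      intro g a ha
      have h : g * a * g⁻¹ = MulAut.conj g a := rfl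
      show orderOf (g * a * g⁻¹) = 2 ^ (f + 1 + 1)
      rw [h, MulEquiv.orderOf_eq]
      exact ha
    have hs : ∀ a : H, orderOf a = 2 ^ (f + 1 + 1) → ∑ i ∈ Finset.range (2 ^ (f + 1 + 1)), (ρ a) ^ i = 0 := by
      intro a ha
      refine (hlay a ⟨f + 1 + 1, ?_⟩).2
      rw [← ha]
      exact pow_orderOf_eq_one a
    have hU := centralizes_of_layer hsolH ρ hρ (f + 1 + 1) hs
    have hodd := oddD_le_core hsolH hconj hO2 hU
    -- the exponent of the next quotient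
    rintro z ⟨k, hk⟩
    obtain ⟨z₁, rfl⟩ := QuotientGroup.mk_surjective z
    have hk₁ : z₁ ^ 2 ^ k ∈ pCore 2 (H ⧸ pPrimeCore 2 H) := by
      rw [← QuotientGroup.eq_one_iff, QuotientGroup.mk_pow]
      exact hk
    obtain ⟨j, hj⟩ := (pCore_isPGroup 2 (G := H ⧸ pPrimeCore 2 H)) ⟨_, hk₁⟩
    have hj' : z₁ ^ 2 ^ (k + j) = 1 := by
      have h3 : (z₁ ^ 2 ^ k) ^ 2 ^ j = 1 := by
        have := congrArg Subtype.val hj
        simpa using this
      rw [pow_add, pow_mul, h3]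
    obtain ⟨a, rfl, ha⟩ := exists_pow_lift (p := 2) _ (pPrimeCore_coprime 2) z₁ (k + j) hj'
    have ha1 := (hlay a ⟨k + j, ha⟩).1
    obtain ⟨t, ht, hord⟩ := (Nat.dvd_prime_pow Nat.prime_two).1 (orderOf_dvd_of_pow_eq_one ha1)
    rcases Nat.lt_or_ge t (f + 1 + 1) with hlt | hge
    · have h5 : a ^ 2 ^ (f + 1) = 1 := by
        apply orderOf_dvd_iff_pow_eq_one.1
        rw [hord]
        exact pow_dvd_pow 2 (by omega)
      rw [← QuotientGroup.mk_pow, ← QuotientGroup.mk_pow, h5]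
      rfl
    · have ht' : t = f + 1 + 1 := le_antisymm ht hge
      subst ht'
      have hy : a ^ 2 ^ (f + 1) ∈ lastD 𝒜 := Subgroup.subset_closure
        ⟨a, hord, f + 1 + 1, by omega, hord, by simp⟩
      have h6 := lastD_map_le hconj hodd hy
      rw [← QuotientGroup.mk_pow, ← QuotientGroup.mk_pow]
      exact (QuotientGroup.eq_one_iff _).mpr h6

end Cfsg.Agent.Lib.Gross.TwoLength
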