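import Mathlib

set_option autoImplicit false

/-!
# Arithmetic of the character table behind a simple group with `C(t) ≃ GL(2,3)`

Purely numerical lemmas (no groups).
-/

namespace Cfsg.Agent.Lib.Gross.GL23Num

lemma one_le_sq_of_ne {x : ℤ} (hx : x ≠ 0) : 1 ≤ x ^ 2 := by
  have : 0 < x ^ 2 := by positivity
  omega

lemma eq_or_of_sq {x : ℤ} (h : x ^ 2 = 1) : x = 1 ∨ x = -1 := by
  have : x * x = 1 := by rw [← h]; ring
  exact mul_self_eq_one_iff.mp this

lemma bound_of_sq {x n : ℤ} (hn : 0 ≤ n) (h : x ^ 2 ≤ n ^ 2) : -n ≤ x ∧ x ≤ n :=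
  abs_le.mp (abs_le_of_sq_le_sq h hn)

lemma two_or_of_four_dvd {g : ℤ} (hg : (4:ℤ) ∣ g - 2) : g = 2 ∨ g = -2 ∨ 36 ≤ g ^ 2 := by
  by_cases h1 : g = 2
  · exact Or.inl h1
  by_cases h2 : g = -2
  · exact Or.inr (Or.inl h2)
  refine Or.inr (Or.inr ?_)
  have : g ≤ -6 ∨ 6 ≤ g := by omega
  rcases this with h | h <;> nlinarith

/-- The case `{p,q} = {i₂,i₃}`: impossible. -/
theorem numbers_N (H1 H Hj C1 C Cj W X Y : ℤ)
    (r1 : 1 + H1 + Hj = 0) (r2 : H + H + Hj = 0)
    (c1 : (4:ℤ) ∣ H1 - 1) (c2 : (4:ℤ) ∣ H - 3) (cj : (4:ℤ) ∣ Hj - 2)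
    (cW : (16:ℤ) ∣ W) (hW0 : 0 ≤ W) (hX0 : 0 ≤ X)
    (t2 : (3:ℤ) ∣ C - H) (tj : (3:ℤ) ∣ Cj - Hj)
    (hh : 1 + H1 ^ 2 + H ^ 2 + H ^ 2 + Hj ^ 2 + W = 48)
    (cc : 1 + C1 ^ 2 + C ^ 2 + C ^ 2 + Cj ^ 2 + X = 6)
    (hc : 1 + H1 * C1 + H * C + H * C + Hj * Cj + Y = 0)
    (u1 : W ≤ 16 * X) (u2 : W = 16 * X → 4 * Y = W) : False := by
  have hj : Hj = -2 * H := by omega
  have h1 : H1 = 2 * H - 1 := by omega
  subst hj h1
  have hb : H ^ 2 ≤ 3 ^ 2 := by nlinarith [sq_nonneg (2 * H - 1), sq_nonneg (-2 * H)]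
  have hb' := bound_of_sq (by norm_num) hb
  have hH : H = -1 ∨ H = 3 := by omega
  rcases hH with rfl | rfl
  swap
  · norm_num at hh
    omega
  norm_num at hh
  have hW : W = 32 := by omega
  subst hW
  have hX2 : 2 ≤ X := by omega
  have hCne : C ≠ 0 := by omega
  have hCjne : Cj ≠ 0 := by omega
  have hC1 := one_le_sq_of_ne hCne
  have hCj1 := one_le_sq_of_ne hCjne
  have hC1sq := sq_nonneg C1
  have hC : C ^ 2 = 1 := by omega
  have hCj : Cj ^ 2 = 1 := by omega
  have hc1 : C1 ^ 2 = 0 := by omega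
  have hX : X = 2 := by omega
  have hc10 : C1 = 0 := by simpa using hc1
  subst hc10
  have hY := u2 (by omega)
  have hCv : C = -1 := by
    rcases eq_or_of_sq hC with h | h
    · omega
    · exact h
  have hCjv : Cj = -1 := by
    rcases eq_or_of_sq hCj with h | h
    · omega
    · exact h
  subst hCv hCjv
  norm_num at hc
  omega

/-- The case where `p,q` lie outside: only one pattern survives. -/
theorem numbers_R (H1 H2 H3 Hj C1 C2 C3 Cj g d W X Y : ℤ)
    (r1 : 1 + H1 + Hj = 0) (r2 : H2 + H3 + Hj = 0)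
    (c1 : (4:ℤ) ∣ H1 - 1) (c2 : (4:ℤ) ∣ H2 - 1) (c3 : (4:ℤ) ∣ H3 - 1) (cj : (4:ℤ) ∣ Hj - 2)
    (cg : (4:ℤ) ∣ g - 2)
    (cW : (16:ℤ) ∣ W) (hW0 : 0 ≤ W) (hX0 : 0 ≤ X)
    (t1 : (3:ℤ) ∣ C1 - H1) (t2 : (3:ℤ) ∣ C2 - H2) (t3 : (3:ℤ) ∣ C3 - H3) (tj : (3:ℤ) ∣ Cj - Hj)
    (td : (3:ℤ) ∣ d - g)
    (hh : 1 + H1 ^ 2 + H2 ^ 2 + H3 ^ 2 + Hj ^ 2 + 2 * g ^ 2 + W = 48)
    (cc : 1 + C1 ^ 2 + C2 ^ 2 + C3 ^ 2 + Cj ^ 2 + 2 * d ^ 2 + X = 6)
    (hc : 1 + H1 * C1 + H2 * C2 + H3 * C3 + Hj * Cj + 2 * (g * d) + Y = 0)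
    (u1 : W ≤ 16 * X) (u2 : W = 16 * X → 4 * Y = W) :
    H1 = -3 ∧ Hj = 2 ∧ ((H2 = 1 ∧ H3 = -3) ∨ (H2 = -3 ∧ H3 = 1)) := by
  have hgsq := sq_nonneg g
  have hb1 := bound_of_sq (n := 7) (x := H1) (by norm_num) (by nlinarith [sq_nonneg H2, sq_nonneg H3, sq_nonneg Hj])
  have hb2 := bound_of_sq (n := 7) (x := H2) (by norm_num) (by nlinarith [sq_nonneg H1, sq_nonneg H3, sq_nonneg Hj])
  have h1 : H1 = -7 ∨ H1 = -3 ∨ H1 = 1 ∨ H1 = 5 := by omega
  have h2 : H2 = -7 ∨ H2 = -3 ∨ H2 = 1 ∨ H2 = 5 := by omega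
  have hg := two_or_of_four_dvd cg
  have hjv : Hj = -1 - H1 := by omega
  have h3v : H3 = -Hj - H2 := by omega
  subst hjv
  subst h3v
  rcases h1 with rfl | rfl | rfl | rfl
  · -- H1 = -7
    exfalso
    norm_num at hh
    have := sq_nonneg H2
    have := sq_nonneg (-6 - H2)
    omega
  · -- H1 = -3, Hj = 2
    rcases h2 with rfl | rfl | rfl | rfl
    · exfalso
      norm_num at hh
      omega
    · norm_num
    · norm_num
    · -- H2 = 5, H3 = -7
      norm_num at hh
      have := sq_nonneg g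
      omega
  · -- H1 = 1, Hj = -2
    exfalso
    rcases h2 with rfl | rfl | rfl | rfl
    · norm_num at hh
      omega
    · -- H2 = -3, H3 = 5
      norm_num at hh t1 t2 t3 tj
      have hg2 : g ^ 2 = 4 := by
        rcases hg with rfl | rfl | h
        · norm_num
        · norm_num
        · omega
      have hW : W = 0 := by omega
      subst hW
      have hX : 0 ≤ X := hX0
      have a1 := one_le_sq_of_ne (x := C1) (by omega)
      have a3 := one_le_sq_of_ne (x := C3) (by omega)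
      have aj := one_le_sq_of_ne (x := Cj) (by omega)
      have ad := one_le_sq_of_ne (x := d) (by intro h0; subst h0; rcases hg with rfl | rfl | h <;> omega)
      have a2 := sq_nonneg C2
      have e1 : C1 ^ 2 = 1 := by omega
      have e3 : C3 ^ 2 = 1 := by omega
      have ej : Cj ^ 2 = 1 := by omega
      have ed : d ^ 2 = 1 := by omega
      have e2 : C2 ^ 2 = 0 := by omega
      have eX : X = 0 := by omega
      have e20 : C2 = 0 := by simpa using e2
      subst e20
      have hY := u2 (by omega)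
      have hY0 : Y = 0 := by omega
      subst hY0
      have v1 : C1 = 1 := by
        rcases eq_or_of_sq e1 with h | h
        · exact h
        · omega
      have v3 : C3 = -1 := by
        rcases eq_or_of_sq e3 with h | h
        · omega
        · exact h
      have vj : Cj = 1 := by
        rcases eq_or_of_sq ej with h | h
        · exact h
        · omega
      subst v1 v3 vj
      have hgd : g * d = -2 := by
        rcases eq_or_of_sq ed with h | h <;> subst h <;> rcases hg with rfl | rfl | h <;> omega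
      rw [hgd] at hc
      norm_num at hc
    · -- H2 = 1, H3 = 1
      norm_num at hh t1 t2 t3 tj
      have hg2 : g ^ 2 = 4 := by
        rcases hg with rfl | rfl | h
        · norm_num
        · norm_num
        · omega
      have hW : W = 32 := by omega
      subst hW
      have a1 := one_le_sq_of_ne (x := C1) (by omega)
      have a2 := one_le_sq_of_ne (x := C2) (by omega)
      have a3 := one_le_sq_of_ne (x := C3) (by omega)
      have aj := one_le_sq_of_ne (x := Cj) (by omega)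
      have ad := sq_nonneg d
      omega
    · -- H2 = 5, H3 = -3
      norm_num at hh t1 t2 t3 tj
      have hg2 : g ^ 2 = 4 := by
        rcases hg with rfl | rfl | h
        · norm_num
        · norm_num
        · omega
      have hW : W = 0 := by omega
      subst hW
      have a1 := one_le_sq_of_ne (x := C1) (by omega)
      have a2 := one_le_sq_of_ne (x := C2) (by omega)
      have aj := one_le_sq_of_ne (x := Cj) (by omega)
      have ad := one_le_sq_of_ne (x := d) (by intro h0; subst h0; rcases hg with rfl | rfl | h <;> omega)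
      have a3 := sq_nonneg C3
      have e1 : C1 ^ 2 = 1 := by omega
      have e2 : C2 ^ 2 = 1 := by omega
      have ej : Cj ^ 2 = 1 := by omega
      have ed : d ^ 2 = 1 := by omega
      have e3 : C3 ^ 2 = 0 := by omega
      have eX : X = 0 := by omega
      have e30 : C3 = 0 := by simpa using e3
      subst e30
      have hY := u2 (by omega)
      have hY0 : Y = 0 := by omega
      subst hY0
      have v1 : C1 = 1 := by
        rcases eq_or_of_sq e1 with h | h
        · exact h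
        · omega
      have v2 : C2 = -1 := by
        rcases eq_or_of_sq e2 with h | h
        · omega
        · exact h
      have vj : Cj = 1 := by
        rcases eq_or_of_sq ej with h | h
        · exact h
        · omega
      subst v1 v2 vj
      have hgd : g * d = -2 := by
        rcases eq_or_of_sq ed with h | h <;> subst h <;> rcases hg with rfl | rfl | h <;> omega
      rw [hgd] at hc
      norm_num at hc
  · -- H1 = 5
    exfalso
    norm_num at hh
    have := sq_nonneg H2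
    have := sq_nonneg (6 - H2)
    omega

/-- The surviving pattern forces the two orders. -/
theorem numbers_T3 (F1 F2 F3 Fj N : ℤ)
    (r1 : 1 + F1 + Fj = 0) (r2 : F2 + F3 + Fj = 0)
    (n1 : F1 ≠ 0) (n2 : F2 ≠ 0) (n3 : F3 ≠ 0) (nj : Fj ≠ 0)
    (cj : (8:ℤ) ∣ Fj - 2) (hF2 : F2 ≠ 1)
    (hw : (1:ℚ) + 9 / F1 - 1 / F2 - 9 / F3 = 0)
    (hy : (N:ℚ) * ((1:ℚ) + 9 / F1 + 1 / F2 + 9 / F3 + 8 / Fj) = 9216) :
    N = 5616 ∨ N = 7920 := by
  have hF1 : F1 = -1 - Fj := by omega
  have hF2' : F2 = -Fj - F3 := by omega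
  subst hF1 hF2'
  have n1q : ((-1 - Fj : ℤ) : ℚ) ≠ 0 := by exact_mod_cast n1
  have n2q : ((-Fj - F3 : ℤ) : ℚ) ≠ 0 := by exact_mod_cast n2
  have n3q : (F3 : ℚ) ≠ 0 := by exact_mod_cast n3
  have key : ((Fj - 8) * F3 - 9 * Fj) * (F3 + Fj + 1) = 0 := by
    have hq : (((Fj:ℚ) - 8) * F3 - 9 * Fj) * (F3 + Fj + 1) = 0 := by
      have h0 := hw
      push_cast at n1q n2q h0
      have : (1:ℚ) + 9 / (-1 - (Fj:ℚ)) - 1 / (-(Fj:ℚ) - F3) - 9 / F3 =
          (((Fj:ℚ) - 8) * F3 - 9 * Fj) * (F3 + Fj + 1) / ((-1 - (Fj:ℚ)) * (-(Fj:ℚ) - F3) * F3) := by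
        field_simp
        ring
      rw [this] at h0
      rcases div_eq_zero_iff.mp h0 with h | h
      · exact h
      · exfalso
        exact (mul_ne_zero (mul_ne_zero n1q n2q) n3q) h
    exact_mod_cast hq
  rcases mul_eq_zero.mp key with h | h
  · obtain ⟨k, hk⟩ := cj
    have hE : Fj = 8 * k + 2 := by omega
    subst hE
    have hd : (8 * k + 2 - 8) * (F3 - 9) = 72 := by linarith
    have hdvd : (8 * k + 2 - 8) ∣ (72:ℤ) := ⟨_, hd.symm⟩
    have hle := Int.le_of_dvd (by norm_num) hdvd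
    have hle2 := Int.le_of_dvd (by norm_num) ((neg_dvd).mpr hdvd)
    have hkl : -9 ≤ k := by omega
    have hku : k ≤ 9 := by omega
    clear hdvd hle hle2 key
    have hk3 : k = 0 ∨ k = 1 ∨ k = 3 := by
      clear hw hy n1 n2 n3 nj hF2 r1 r2 hk n1q n2q n3q h
      interval_cases k <;> omega
    rcases hk3 with rfl | rfl | rfl
    · exfalso
      apply hF2
      omega
    · right
      have hF3 : F3 = 45 := by omega
      subst hF3
      norm_num at hy
      have : (N:ℚ) = 7920 := by linarith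
      exact_mod_cast this
    · left
      have hF3 : F3 = 13 := by omega
      subst hF3
      norm_num at hy
      have : (N:ℚ) = 5616 := by linarith
      exact_mod_cast this
  · exact absurd (by omega) hF2

end Cfsg.Agent.Lib.Gross.GL23Num
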