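import Mathlib
import Cfsg.Agent.Lib.Gross.GL23Num

set_option autoImplicit false

/-!
# The integer core: a table of columns with the shape forced by `C(t) ≃ GL(2,3)`

`core`: orthogonality, congruences and the two counting identities force `N = 5616` or `N = 7920`.
-/

namespace Cfsg.Agent.Lib.Gross.GL23Core

open Finset Cfsg.Agent.Lib.Gross.GL23Num

universe u

variable {ι : Type u} [Fintype ι]

/-- The hypotheses of the core theorem. -/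
structure Hyp (f h v A B c : ι → ℤ) (N : ℤ) (τ : ι) : Prop where
  fpos : ∀ i, 0 < f i
  fτ : f τ = 1
  hτ : h τ = 1
  vτ : v τ = 1
  Aτ : A τ = 1
  Bτ : B τ = 0
  cτ : c τ = 1
  lin : ∀ i, f i = 1 → i = τ
  M1 : ∀ i, (8:ℤ) ∣ f i + h i - 2 * v i
  M2 : ∀ i, (8:ℤ) ∣ f i + h i + 2 * v i + 4 * A i
  M3 : ∀ i, (8:ℤ) ∣ f i - h i + 4 * B i
  M4 : ∀ i, (3:ℤ) ∣ c i - h i
  s_fv : ∑ i, f i * v i = 0
  s_fA : ∑ i, f i * A i = 0
  s_fB : ∑ i, f i * B i = 0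
  s_hh : ∑ i, h i * h i = 48
  s_hv : ∑ i, h i * v i = 0
  s_hA : ∑ i, h i * A i = 0
  s_hB : ∑ i, h i * B i = 0
  s_hc : ∑ i, h i * c i = 0
  s_vv : ∑ i, v i * v i = 8
  s_vA : ∑ i, v i * A i = 0
  s_vB : ∑ i, v i * B i = 0
  s_AA : ∑ i, A i * A i = 4
  s_BB : ∑ i, B i * B i = 2
  s_AB : ∑ i, A i * B i = 0
  s_cc : ∑ i, c i * c i = 6
  s_cB : ∑ i, c i * B i = 0
  hw : ∑ i, ((h i : ℚ) ^ 2 * A i) / f i = 0
  hy : (N : ℚ) * ∑ i, ((h i : ℚ) ^ 2 * v i) / f i = 9216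

variable [DecidableEq ι]

/-- Complement of five points. -/
def U5 (a b c d e : ι) : Finset ι := ((((univ.erase a).erase b).erase c).erase d).erase e

lemma mem_U5 {a b c d e i : ι} :
    i ∈ U5 a b c d e ↔ i ≠ a ∧ i ≠ b ∧ i ≠ c ∧ i ≠ d ∧ i ≠ e := by
  simp only [U5, mem_erase, mem_univ, and_true]
  tauto

lemma sum_five {α : Type*} [AddCommMonoid α] (g : ι → α) {a b c d e : ι}
    (hab : a ≠ b) (hac : a ≠ c) (had : a ≠ d) (hae : a ≠ e) (hbc : b ≠ c) (hbd : b ≠ d)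
    (hbe : b ≠ e) (hcd : c ≠ d) (hce : c ≠ e) (hde : d ≠ e) :
    ∑ i, g i = g a + (g b + (g c + (g d + (g e + ∑ i ∈ U5 a b c d e, g i)))) := by
  unfold U5
  rw [add_sum_erase _ g (by simp [hde.symm, hce.symm, hbe.symm, hae.symm] : e ∈ ((univ.erase a).erase b |>.erase c |>.erase d)),
    add_sum_erase _ g (by simp [hcd.symm, hbd.symm, had.symm] : d ∈ ((univ.erase a).erase b |>.erase c)),
    add_sum_erase _ g (by simp [hbc.symm, hac.symm] : c ∈ ((univ.erase a).erase b)),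
    add_sum_erase _ g (by simp [hab.symm] : b ∈ (univ.erase a)),
    add_sum_erase _ g (mem_univ a)]

lemma sum_two_of_mem {α : Type*} [AddCommMonoid α] (g : ι → α) {U : Finset ι} {p q : ι}
    (hp : p ∈ U) (hq : q ∈ U) (hpq : p ≠ q) :
    ∑ i ∈ U, g i = g p + (g q + ∑ i ∈ (U.erase p).erase q, g i) := by
  rw [add_sum_erase _ g (by simp [hq, hpq.symm] : q ∈ U.erase p), add_sum_erase _ g hp]

/-- Data about the supports of `v` and `A`. -/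
structure Pos (v A : ι → ℤ) (τ i₁ i₂ i₃ j : ι) (σ : ℤ) : Prop where
  d1 : τ ≠ i₁
  d2 : τ ≠ i₂
  d3 : τ ≠ i₃
  d4 : τ ≠ j
  d5 : i₁ ≠ i₂
  d6 : i₁ ≠ i₃
  d7 : i₁ ≠ j
  d8 : i₂ ≠ i₃
  d9 : i₂ ≠ j
  d10 : i₃ ≠ j
  v1 : v i₁ ^ 2 = 1
  v2 : v i₂ ^ 2 = 1
  v3 : v i₃ ^ 2 = 1
  σ2 : σ ^ 2 = 1
  vj : v j = 2 * σ
  A1 : A i₁ = v i₁
  A2 : A i₂ = - v i₂
  A3 : A i₃ = - v i₃
  Aj : A j = 0
  vU : ∀ i ∈ U5 τ i₁ i₂ i₃ j, v i = 0
  AU : ∀ i ∈ U5 τ i₁ i₂ i₃ j, A i = 0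

namespace Pos

variable {v A : ι → ℤ} {τ i₁ i₂ i₃ j : ι} {σ : ℤ} (P : Pos v A τ i₁ i₂ i₃ j σ)
include P

lemma sum_eq {α : Type*} [AddCommMonoid α] (g : ι → α) :
    ∑ i, g i = g τ + (g i₁ + (g i₂ + (g i₃ + (g j + ∑ i ∈ U5 τ i₁ i₂ i₃ j, g i)))) :=
  sum_five g P.d1 P.d2 P.d3 P.d4 P.d5 P.d6 P.d7 P.d8 P.d9 P.d10

lemma sumA (g : ι → ℤ) (gA : ∑ i, g i * A i = 0) (Aτ : A τ = 1) (gτ : g τ = 1) :
    1 + v i₁ * g i₁ - v i₂ * g i₂ - v i₃ * g i₃ = 0 := by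
  rw [P.sum_eq, sum_eq_zero (fun i hi => by rw [P.AU i hi, mul_zero]), P.Aj, P.A1, P.A2, P.A3, Aτ,
    gτ] at gA
  linear_combination gA

lemma sumv (g : ι → ℤ) (gv : ∑ i, g i * v i = 0) (vτ : v τ = 1) (gτ : g τ = 1) :
    1 + v i₁ * g i₁ + v i₂ * g i₂ + v i₃ * g i₃ + 2 * (σ * g j) = 0 := by
  rw [P.sum_eq, sum_eq_zero (fun i hi => by rw [P.vU i hi, mul_zero]), P.vj, vτ, gτ] at gv
  linear_combination gv

lemma rel (g : ι → ℤ) (gA : ∑ i, g i * A i = 0) (gv : ∑ i, g i * v i = 0) (Aτ : A τ = 1)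
    (vτ : v τ = 1) (gτ : g τ = 1) :
    1 + v i₁ * g i₁ + σ * g j = 0 ∧ v i₂ * g i₂ + v i₃ * g i₃ + σ * g j = 0 := by
  have h1 := P.sumA g gA Aτ gτ
  have h2 := P.sumv g gv vτ gτ
  constructor <;> linarith

end Pos

lemma mul_sq_eq {x a : ℤ} (hx : x ^ 2 = 1) : (x * a) ^ 2 = a * a := by
  rw [mul_pow, hx]; ring

lemma mul_mul_mul_eq {x a b : ℤ} (hx : x ^ 2 = 1) : (x * a) * (x * b) = a * b := by
  calc (x * a) * (x * b) = x ^ 2 * (a * b) := by ring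
    _ = a * b := by rw [hx, one_mul]

lemma cong_O {x f h : ℤ} (hx : x ^ 2 = 1) (m1 : (8:ℤ) ∣ f + h - 2 * x) (m3 : (8:ℤ) ∣ f - h) :
    (4:ℤ) ∣ x * h - 1 ∧ (8:ℤ) ∣ x * f - x * h := by
  rcases eq_or_of_sq hx with rfl | rfl <;> constructor <;> omega

lemma cong_N {x f h b : ℤ} (hx : x ^ 2 = 1) (hb : b ^ 2 = 1) (m1 : (8:ℤ) ∣ f + h - 2 * x)
    (m3 : (8:ℤ) ∣ f - h + 4 * b) : (4:ℤ) ∣ x * h - 3 := by
  rcases eq_or_of_sq hx with rfl | rfl <;> rcases eq_or_of_sq hb with rfl | rfl <;> omega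

lemma cong_J {x f h : ℤ} (hx : x ^ 2 = 1) (m1 : (8:ℤ) ∣ f + h - 2 * (2 * x)) (m3 : (8:ℤ) ∣ f - h) :
    (4:ℤ) ∣ x * h - 2 ∧ (8:ℤ) ∣ x * f - x * h := by
  rcases eq_or_of_sq hx with rfl | rfl <;> constructor <;> omega

lemma cong_R {f h b : ℤ} (hb : b ^ 2 = 1) (m1 : (8:ℤ) ∣ f + h - 2 * 0) (m3 : (8:ℤ) ∣ f - h + 4 * b) :
    (4:ℤ) ∣ h - 2 := by
  rcases eq_or_of_sq hb with rfl | rfl <;> omega

lemma cong_U {f h : ℤ} (m1 : (8:ℤ) ∣ f + h - 2 * 0) (m3 : (8:ℤ) ∣ f - h + 4 * 0) :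
    (4:ℤ) ∣ h := by
  omega

omit [DecidableEq ι] [Fintype ι] in
/-- Pointwise facts on the remainder set. -/
lemma U_facts (U : Finset ι) (h c : ι → ℤ) (h4 : ∀ i ∈ U, (4:ℤ) ∣ h i)
    (h3 : ∀ i ∈ U, (3:ℤ) ∣ c i - h i) (hW : ∑ i ∈ U, h i * h i ≤ 32) :
    ∑ i ∈ U, h i * h i ≤ 16 * ∑ i ∈ U, c i * c i ∧
      (∑ i ∈ U, h i * h i = 16 * ∑ i ∈ U, c i * c i →
        4 * ∑ i ∈ U, h i * c i = ∑ i ∈ U, h i * h i) := by
  have hvals : ∀ i ∈ U, h i = 0 ∨ h i = 4 ∨ h i = -4 := by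
    intro i hi
    have h1 : h i * h i ≤ ∑ k ∈ U, h k * h k :=
      single_le_sum (f := fun k => h k * h k) (fun k _ => mul_self_nonneg _) hi
    have h2 : h i * h i ≤ 6 ^ 2 := by linarith
    have h5 := abs_le.mp (abs_le_of_sq_le_sq (a := h i) (b := 6) (by nlinarith) (by norm_num))
    have := h4 i hi
    omega
  have hpt : ∀ i ∈ U, h i * h i ≤ 16 * (c i * c i) := by
    intro i hi
    have h3i := h3 i hi
    rcases hvals i hi with h0 | h0 | h0 <;> rw [h0] at h3i ⊢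
    · nlinarith [mul_self_nonneg (c i)]
    · have := one_le_sq_of_ne (x := c i) (by omega)
      nlinarith
    · have := one_le_sq_of_ne (x := c i) (by omega)
      nlinarith
  constructor
  · rw [mul_sum]
    exact sum_le_sum hpt
  · intro he
    have hz : ∑ i ∈ U, (16 * (c i * c i) - h i * h i) = 0 := by
      rw [sum_sub_distrib, ← mul_sum, he, sub_self]
    have hz' := (sum_eq_zero_iff_of_nonneg (fun i hi => by linarith [hpt i hi])).mp hz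
    rw [mul_sum]
    refine sum_congr rfl fun i hi => ?_
    have h1 := hz' i hi
    have h3i := h3 i hi
    rcases hvals i hi with h0 | h0 | h0 <;> rw [h0] at h1 h3i ⊢
    · ring
    · have h2 : c i ^ 2 = 1 := by nlinarith
      rcases eq_or_of_sq h2 with h6 | h6 <;> rw [h6] at h3i ⊢
      · norm_num
      · omega
    · have h2 : c i ^ 2 = 1 := by nlinarith
      rcases eq_or_of_sq h2 with h6 | h6 <;> rw [h6] at h3i ⊢
      · omega
      · norm_num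

omit [DecidableEq ι] in
lemma dvd16 (U : Finset ι) (h : ι → ℤ) (h4 : ∀ i ∈ U, (4:ℤ) ∣ h i) :
    (16:ℤ) ∣ ∑ i ∈ U, h i * h i := by
  refine dvd_sum fun i hi => ?_
  obtain ⟨k, hk⟩ := h4 i hi
  exact ⟨k * k, by rw [hk]; ring⟩

lemma term_eq {x a b : ℤ} (hx : x ^ 2 = 1) :
    ((a : ℚ) ^ 2 * x) / b = (((x * a : ℤ) : ℚ) ^ 2) / ((x * b : ℤ) : ℚ) := by
  rcases eq_or_of_sq hx with rfl | rfl
  · simp
  · push_cast
    ring

/-- The case `{p,q} = {i₂,i₃}` is impossible. -/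
theorem caseN {f h v A B c : ι → ℤ} {N : ℤ} {τ i₁ i₂ i₃ j : ι} {σ : ℤ}
    (H : Hyp f h v A B c N τ) (P : Pos v A τ i₁ i₂ i₃ j σ)
    (eh : h i₂ = h i₃) (ev : v i₂ = v i₃) (ec : c i₂ = c i₃)
    (hB2 : B i₂ ^ 2 = 1) (hB1 : B i₁ = 0) (hBj : B j = 0)
    (hBU : ∀ i ∈ U5 τ i₁ i₂ i₃ j, B i = 0) : False := by
  obtain ⟨r1, r2⟩ := P.rel h H.s_hA H.s_hv H.Aτ H.vτ H.hτ
  have m3 : ∀ i, B i = 0 → (8:ℤ) ∣ f i - h i := fun i hi => by
    have := H.M3 i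
    rw [hi] at this
    simpa using this
  have c1 := (cong_O P.v1 (H.M1 i₁) (m3 _ hB1)).1
  have cj := (cong_J P.σ2 (by have := H.M1 j; rwa [P.vj] at this) (m3 _ hBj)).1
  have c2 := cong_N P.v2 hB2 (H.M1 i₂) (H.M3 i₂)
  have hU4 : ∀ i ∈ U5 τ i₁ i₂ i₃ j, (4:ℤ) ∣ h i := fun i hi =>
    cong_U (by have := H.M1 i; rwa [P.vU i hi] at this) (by have := H.M3 i; rwa [hBU i hi] at this)
  have hU3 : ∀ i ∈ U5 τ i₁ i₂ i₃ j, (3:ℤ) ∣ c i - h i := fun i _ => H.M4 i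
  have hh := H.s_hh
  have hc := H.s_hc
  have cc := H.s_cc
  rw [P.sum_eq] at hh hc cc
  rw [H.hτ] at hh hc
  rw [H.cτ] at hc cc
  have hW0 : 0 ≤ ∑ i ∈ U5 τ i₁ i₂ i₃ j, h i * h i := sum_nonneg fun i _ => mul_self_nonneg _
  have hX0 : 0 ≤ ∑ i ∈ U5 τ i₁ i₂ i₃ j, c i * c i := sum_nonneg fun i _ => mul_self_nonneg _
  have cW := dvd16 _ h hU4
  have hWle : ∑ i ∈ U5 τ i₁ i₂ i₃ j, h i * h i ≤ 32 := by
    have := mul_self_nonneg (h i₁)
    have := mul_self_nonneg (h i₂)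
    have := mul_self_nonneg (h i₃)
    have := mul_self_nonneg (h j)
    omega
  obtain ⟨u1, u2⟩ := U_facts _ h c hU4 hU3 hWle
  refine numbers_N (v i₁ * h i₁) (v i₂ * h i₂) (σ * h j) (v i₁ * c i₁) (v i₂ * c i₂) (σ * c j)
    (∑ i ∈ U5 τ i₁ i₂ i₃ j, h i * h i) (∑ i ∈ U5 τ i₁ i₂ i₃ j, c i * c i)
    (∑ i ∈ U5 τ i₁ i₂ i₃ j, h i * c i) r1 ?_ c1 c2 cj cW hW0 hX0 ?_ ?_ ?_ ?_ ?_ u1 u2
  · rw [← ev, ← eh] at r2
    exact r2
  · have := H.M4 i₂
    obtain ⟨k, hk⟩ := this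
    exact ⟨v i₂ * k, by rw [← mul_sub, hk]; ring⟩
  · have := H.M4 j
    obtain ⟨k, hk⟩ := this
    exact ⟨σ * k, by rw [← mul_sub, hk]; ring⟩
  · rw [mul_sq_eq P.v1, mul_sq_eq P.v2, mul_sq_eq P.σ2]
    rw [← eh] at hh
    linarith
  · rw [mul_sq_eq P.v1, mul_sq_eq P.v2, mul_sq_eq P.σ2]
    rw [← ec] at cc
    linarith
  · rw [mul_mul_mul_eq P.v1, mul_mul_mul_eq P.v2, mul_mul_mul_eq P.σ2]
    rw [← eh, ← ec] at hc
    linarith

/-- The case where `p,q` lie outside the five points. -/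
theorem caseR {f h v A B c : ι → ℤ} {N : ℤ} {τ i₁ i₂ i₃ j p q : ι} {σ : ℤ}
    (H : Hyp f h v A B c N τ) (P : Pos v A τ i₁ i₂ i₃ j σ)
    (hp : p ∈ U5 τ i₁ i₂ i₃ j) (hq : q ∈ U5 τ i₁ i₂ i₃ j) (hpq : p ≠ q)
    (hBp : B p ^ 2 = 1) (eh : h p = h q) (ec : c p = c q)
    (hB1 : B i₁ = 0) (hB2 : B i₂ = 0) (hB3 : B i₃ = 0) (hBj : B j = 0)
    (hBU : ∀ i ∈ (U5 τ i₁ i₂ i₃ j).erase p |>.erase q, B i = 0) : N = 5616 ∨ N = 7920 := by
  obtain ⟨r1, r2⟩ := P.rel h H.s_hA H.s_hv H.Aτ H.vτ H.hτ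
  obtain ⟨r1f, r2f⟩ := P.rel f H.s_fA H.s_fv H.Aτ H.vτ H.fτ
  have m3 : ∀ i, B i = 0 → (8:ℤ) ∣ f i - h i := fun i hi => by
    have := H.M3 i
    rw [hi] at this
    simpa using this
  have c1 := (cong_O P.v1 (H.M1 i₁) (m3 _ hB1)).1
  have c2 := (cong_O P.v2 (H.M1 i₂) (m3 _ hB2)).1
  have c3 := (cong_O P.v3 (H.M1 i₃) (m3 _ hB3)).1
  obtain ⟨cj, cj8⟩ := cong_J P.σ2 (by have := H.M1 j; rwa [P.vj] at this) (m3 _ hBj)
  have cg : (4:ℤ) ∣ h p - 2 := cong_R hBp (by have := H.M1 p; rwa [P.vU p hp] at this) (H.M3 p)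
  set U' := (U5 τ i₁ i₂ i₃ j).erase p |>.erase q with hU'
  have hU'sub : ∀ i ∈ U', i ∈ U5 τ i₁ i₂ i₃ j := fun i hi =>
    mem_of_mem_erase (mem_of_mem_erase hi)
  have hU4 : ∀ i ∈ U', (4:ℤ) ∣ h i := fun i hi =>
    cong_U (by have := H.M1 i; rwa [P.vU i (hU'sub i hi)] at this)
      (by have := H.M3 i; rwa [hBU i hi] at this)
  have hU3 : ∀ i ∈ U', (3:ℤ) ∣ c i - h i := fun i _ => H.M4 i
  have hh := H.s_hh
  have hc := H.s_hc
  have cc := H.s_cc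
  rw [P.sum_eq, sum_two_of_mem _ hp hq hpq, ← hU'] at hh hc cc
  rw [H.hτ] at hh hc
  rw [H.cτ] at hc cc
  have hW0 : 0 ≤ ∑ i ∈ U', h i * h i := sum_nonneg fun i _ => mul_self_nonneg _
  have hX0 : 0 ≤ ∑ i ∈ U', c i * c i := sum_nonneg fun i _ => mul_self_nonneg _
  have cW := dvd16 _ h hU4
  have hWle : ∑ i ∈ U', h i * h i ≤ 32 := by
    have := mul_self_nonneg (h i₁)
    have := mul_self_nonneg (h i₂)
    have := mul_self_nonneg (h i₃)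
    have := mul_self_nonneg (h j)
    have := mul_self_nonneg (h p)
    have := mul_self_nonneg (h q)
    omega
  obtain ⟨u1, u2⟩ := U_facts _ h c hU4 hU3 hWle
  have tt : ∀ (x : ℤ) (i : ι), (3:ℤ) ∣ x * c i - x * h i := fun x i => by
    obtain ⟨k, hk⟩ := H.M4 i
    exact ⟨x * k, by rw [← mul_sub, hk]; ring⟩
  obtain ⟨e1, ej, e23⟩ := numbers_R (v i₁ * h i₁) (v i₂ * h i₂) (v i₃ * h i₃) (σ * h j)
    (v i₁ * c i₁) (v i₂ * c i₂) (v i₃ * c i₃) (σ * c j) (h p) (c p)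
    (∑ i ∈ U', h i * h i) (∑ i ∈ U', c i * c i) (∑ i ∈ U', h i * c i) r1 r2 c1 c2 c3 cj cg cW hW0 hX0
    (tt _ _) (tt _ _) (tt _ _) (tt _ _) (H.M4 p)
    (by
      rw [mul_sq_eq P.v1, mul_sq_eq P.v2, mul_sq_eq P.v3, mul_sq_eq P.σ2]
      rw [← eh] at hh
      linarith)
    (by
      rw [mul_sq_eq P.v1, mul_sq_eq P.v2, mul_sq_eq P.v3, mul_sq_eq P.σ2]
      rw [← ec] at cc
      linarith)
    (by
      rw [mul_mul_mul_eq P.v1, mul_mul_mul_eq P.v2, mul_mul_mul_eq P.v3, mul_mul_mul_eq P.σ2]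
      rw [← eh, ← ec] at hc
      linarith)
    u1 u2
  -- rational forms
  have hw := H.hw
  have hy := H.hy
  rw [P.sum_eq, sum_eq_zero (fun i hi => by rw [P.AU i hi]; simp), P.Aj, P.A1, P.A2, P.A3, H.Aτ,
    H.hτ, H.fτ] at hw
  rw [P.sum_eq, sum_eq_zero (fun i hi => by rw [P.vU i hi]; simp), P.vj, H.vτ, H.hτ, H.fτ] at hy
  have term : ∀ a, v a ^ 2 = 1 → ∀ n : ℤ, (v a * h a) = n →
      ((h a : ℚ) ^ 2 * (v a : ℚ)) / (f a : ℚ) = ((n ^ 2 : ℤ) : ℚ) / ((v a * f a : ℤ) : ℚ) := by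
    intro a ha n hn
    rw [term_eq ha, hn]
    push_cast
    rfl
  have termj : ((h j : ℚ) ^ 2 * ((2 * σ : ℤ) : ℚ)) / (f j : ℚ) = 8 / ((σ * f j : ℤ) : ℚ) := by
    have h0 : ((h j : ℚ) ^ 2 * ((2 * σ : ℤ) : ℚ)) / (f j : ℚ) =
        2 * (((h j : ℚ) ^ 2 * (σ : ℚ)) / (f j : ℚ)) := by
      push_cast
      ring
    rw [h0, term_eq P.σ2, ej]
    push_cast
    ring
  have fne : ∀ a (x : ℤ), x ^ 2 = 1 → x * f a ≠ 0 := fun a x hx => by
    refine mul_ne_zero ?_ (H.fpos a).ne'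
    rintro rfl
    norm_num at hx
  have lin : ∀ a, a ≠ τ → v a ^ 2 = 1 → v a * f a ≠ 1 := by
    intro a ha hx h1
    apply ha
    apply H.lin
    have := H.fpos a
    rcases eq_or_of_sq hx with h2 | h2 <;> rw [h2] at h1 <;> omega
  have cj8' : (8:ℤ) ∣ σ * f j - 2 := by
    rw [ej] at cj8
    exact cj8
  rcases e23 with ⟨e2, e3⟩ | ⟨e2, e3⟩
  · have t1 := term i₁ P.v1 _ e1
    have t2 := term i₂ P.v2 _ e2
    have t3 := term i₃ P.v3 _ e3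
    refine numbers_T3 (v i₁ * f i₁) (v i₂ * f i₂) (v i₃ * f i₃) (σ * f j) N r1f r2f
      (fne _ _ P.v1) (fne _ _ P.v2) (fne _ _ P.v3) (fne _ _ P.σ2) cj8' (lin _ P.d2.symm P.v2) ?_ ?_
    · have h3 : ((h i₂ : ℚ) ^ 2 * ((-v i₂ : ℤ) : ℚ)) / (f i₂ : ℚ) =
          - (((h i₂ : ℚ) ^ 2 * (v i₂ : ℚ)) / (f i₂ : ℚ)) := by push_cast; ring
      have h4 : ((h i₃ : ℚ) ^ 2 * ((-v i₃ : ℤ) : ℚ)) / (f i₃ : ℚ) =
          - (((h i₃ : ℚ) ^ 2 * (v i₃ : ℚ)) / (f i₃ : ℚ)) := by push_cast; ring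
      rw [h3, h4, t1, t2, t3] at hw
      norm_num at hw ⊢
      linarith
    · rw [t1, t2, t3, termj] at hy
      norm_num at hy ⊢
      rw [← hy]
      ring
  · have t1 := term i₁ P.v1 _ e1
    have t2 := term i₂ P.v2 _ e2
    have t3 := term i₃ P.v3 _ e3
    refine numbers_T3 (v i₁ * f i₁) (v i₃ * f i₃) (v i₂ * f i₂) (σ * f j) N r1f
      (by linarith) (fne _ _ P.v1) (fne _ _ P.v3) (fne _ _ P.v2) (fne _ _ P.σ2) cj8'
      (lin _ P.d3.symm P.v3) ?_ ?_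
    · have h3 : ((h i₂ : ℚ) ^ 2 * ((-v i₂ : ℤ) : ℚ)) / (f i₂ : ℚ) =
          - (((h i₂ : ℚ) ^ 2 * (v i₂ : ℚ)) / (f i₂ : ℚ)) := by push_cast; ring
      have h4 : ((h i₃ : ℚ) ^ 2 * ((-v i₃ : ℤ) : ℚ)) / (f i₃ : ℚ) =
          - (((h i₃ : ℚ) ^ 2 * (v i₃ : ℚ)) / (f i₃ : ℚ)) := by push_cast; ring
      rw [h3, h4, t1, t2, t3] at hw
      norm_num at hw ⊢
      linarith
    · rw [t1, t2, t3, termj] at hy
      norm_num at hy ⊢
      rw [← hy]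
      ring

/-- The support of a vector with `Σ A² = 4` and `A τ = 1`. -/
lemma A_support (A : ι → ℤ) (τ : ι) (hτ : A τ = 1) (hs : ∑ i, A i * A i = 4) :
    ∃ i₁ i₂ i₃ : ι, τ ≠ i₁ ∧ τ ≠ i₂ ∧ τ ≠ i₃ ∧ i₁ ≠ i₂ ∧ i₁ ≠ i₃ ∧ i₂ ≠ i₃ ∧
      A i₁ ^ 2 = 1 ∧ A i₂ ^ 2 = 1 ∧ A i₃ ^ 2 = 1 ∧
      ∀ i, i ≠ τ → i ≠ i₁ → i ≠ i₂ → i ≠ i₃ → A i = 0 := by
  have hsum : ∑ i ∈ univ.erase τ, A i * A i = 3 := by
    have := add_sum_erase univ (fun i => A i * A i) (mem_univ τ)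
    simp only [hτ] at this
    omega
  have hle : ∀ i, i ≠ τ → A i ^ 2 ≤ 2 ^ 2 := by
    intro i hi
    have : A i * A i ≤ ∑ k ∈ univ.erase τ, A k * A k :=
      single_le_sum (f := fun k => A k * A k) (fun k _ => mul_self_nonneg _) (by simp [hi])
    nlinarith
  have hsq : ∀ i, i ≠ τ → A i ≠ 0 → A i ^ 2 = 1 := by
    intro i hi h0
    have h1 := abs_le.mp (abs_le_of_sq_le_sq (hle i hi) (by norm_num))
    have h2 : A i * A i ≤ ∑ k ∈ univ.erase τ, A k * A k :=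
      single_le_sum (f := fun k => A k * A k) (fun k _ => mul_self_nonneg _) (by simp [hi])
    have : A i = 1 ∨ A i = -1 := by
      have : A i ≠ 2 := fun h => by rw [h] at h2; omega
      have : A i ≠ -2 := fun h => by rw [h] at h2; omega
      omega
    rcases this with h | h <;> rw [h] <;> norm_num
  let S := (univ.erase τ).filter (fun i => A i ≠ 0)
  have hcard : S.card = 3 := by
    have h1 : ∑ i ∈ univ.erase τ, A i * A i = ∑ i ∈ S, A i * A i := by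
      symm
      apply sum_filter_of_ne
      intro i _ hi h0
      exact hi (by rw [h0, mul_zero])
    have h2 : ∑ i ∈ S, A i * A i = ∑ i ∈ S, 1 := by
      refine sum_congr rfl fun i hi => ?_
      simp only [S, mem_filter, mem_erase, mem_univ, and_true] at hi
      have := hsq i hi.1 hi.2
      nlinarith
    rw [h1, h2] at hsum
    simp only [sum_const, nsmul_eq_mul, mul_one] at hsum
    exact_mod_cast hsum
  obtain ⟨x, y, z, hxy, hxz, hyz, hS⟩ := card_eq_three.mp hcard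
  have hmem : ∀ i, i ∈ S ↔ i ≠ τ ∧ A i ≠ 0 := by
    intro i
    simp only [S, mem_filter, mem_erase, mem_univ, and_true]
  have hx := (hmem x).1 (by rw [hS]; simp)
  have hy := (hmem y).1 (by rw [hS]; simp)
  have hz := (hmem z).1 (by rw [hS]; simp)
  refine ⟨x, y, z, hx.1.symm, hy.1.symm, hz.1.symm, hxy, hxz, hyz, hsq _ hx.1 hx.2,
    hsq _ hy.1 hy.2, hsq _ hz.1 hz.2, ?_⟩
  intro i h1 h2 h3 h4
  by_contra h0
  have : i ∈ S := (hmem i).2 ⟨h1, h0⟩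
  rw [hS] at this
  simp only [mem_insert, mem_singleton] at this
  tauto

/-- The support of a vector with `Σ B² = 2`. -/
lemma B_support (B : ι → ℤ) (hs : ∑ i, B i * B i = 2) :
    ∃ p q : ι, p ≠ q ∧ B p ^ 2 = 1 ∧ B q ^ 2 = 1 ∧ ∀ i, i ≠ p → i ≠ q → B i = 0 := by
  have hsq : ∀ i, B i ≠ 0 → B i ^ 2 = 1 := by
    intro i h0
    have h2 : B i * B i ≤ ∑ k, B k * B k :=
      single_le_sum (f := fun k => B k * B k) (fun k _ => mul_self_nonneg _) (mem_univ i)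
    have h1 := abs_le.mp (abs_le_of_sq_le_sq (a := B i) (b := 2) (by nlinarith) (by norm_num))
    have : B i = 1 ∨ B i = -1 := by
      have : B i ≠ 2 := fun h => by rw [h] at h2; omega
      have : B i ≠ -2 := fun h => by rw [h] at h2; omega
      omega
    rcases this with h | h <;> rw [h] <;> norm_num
  let S := univ.filter (fun i => B i ≠ 0)
  have hcard : S.card = 2 := by
    have h1 : ∑ i, B i * B i = ∑ i ∈ S, B i * B i := by
      symm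
      apply sum_filter_of_ne
      intro i _ hi h0
      exact hi (by rw [h0, mul_zero])
    have h2 : ∑ i ∈ S, B i * B i = ∑ i ∈ S, 1 := by
      refine sum_congr rfl fun i hi => ?_
      simp only [S, mem_filter, mem_univ, true_and] at hi
      have := hsq i hi
      nlinarith
    rw [h1, h2] at hs
    simp only [sum_const, nsmul_eq_mul, mul_one] at hs
    exact_mod_cast hs
  obtain ⟨x, y, hxy, hS⟩ := card_eq_two.mp hcard
  have hmem : ∀ i, i ∈ S ↔ B i ≠ 0 := by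
    intro i
    simp only [S, mem_filter, mem_univ, true_and]
  have hx := (hmem x).1 (by rw [hS]; simp)
  have hy := (hmem y).1 (by rw [hS]; simp)
  refine ⟨x, y, hxy, hsq _ hx, hsq _ hy, ?_⟩
  intro i h1 h2
  by_contra h0
  have : i ∈ S := (hmem i).2 h0
  rw [hS] at this
  simp only [mem_insert, mem_singleton] at this
  tauto

/-- The support of `v`. -/
lemma v_support (v : ι → ℤ) {τ i₁ i₂ i₃ : ι}
    (d1 : τ ≠ i₁) (d2 : τ ≠ i₂) (d3 : τ ≠ i₃) (d5 : i₁ ≠ i₂) (d6 : i₁ ≠ i₃) (d8 : i₂ ≠ i₃)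
    (hτ : v τ = 1) (o1 : ¬ (2:ℤ) ∣ v i₁) (o2 : ¬ (2:ℤ) ∣ v i₂) (o3 : ¬ (2:ℤ) ∣ v i₃)
    (e : ∀ i, i ≠ τ → i ≠ i₁ → i ≠ i₂ → i ≠ i₃ → (2:ℤ) ∣ v i)
    (hs : ∑ i, v i * v i = 8) :
    v i₁ ^ 2 = 1 ∧ v i₂ ^ 2 = 1 ∧ v i₃ ^ 2 = 1 ∧ ∃ (j : ι) (σ : ℤ),
      j ≠ τ ∧ j ≠ i₁ ∧ j ≠ i₂ ∧ j ≠ i₃ ∧ σ ^ 2 = 1 ∧ v j = 2 * σ ∧
      ∀ i, i ≠ τ → i ≠ i₁ → i ≠ i₂ → i ≠ i₃ → i ≠ j → v i = 0 := by
  have hle : ∀ i, v i * v i ≤ 8 := fun i => by
    rw [← hs]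
    exact single_le_sum (f := fun k => v k * v k) (fun k _ => mul_self_nonneg _) (mem_univ i)
  have hodd : ∀ i, ¬ (2:ℤ) ∣ v i → v i ^ 2 = 1 := by
    intro i hi
    have h1 := abs_le.mp (abs_le_of_sq_le_sq (a := v i) (b := 3) (by nlinarith [hle i]) (by norm_num))
    have h2 := hle i
    have : v i = 1 ∨ v i = -1 := by
      have : v i ≠ 3 := fun h => by rw [h] at h2; omega
      have : v i ≠ -3 := fun h => by rw [h] at h2; omega
      omega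
    rcases this with h | h <;> rw [h] <;> norm_num
  have h1 := hodd _ o1
  have h2 := hodd _ o2
  have h3 := hodd _ o3
  refine ⟨h1, h2, h3, ?_⟩
  let U := (((univ.erase τ).erase i₁).erase i₂).erase i₃
  have hU : ∀ i, i ∈ U ↔ i ≠ τ ∧ i ≠ i₁ ∧ i ≠ i₂ ∧ i ≠ i₃ := by
    intro i
    simp only [U, mem_erase, mem_univ, and_true]
    tauto
  have hsum : ∑ i ∈ U, v i * v i = 4 := by
    rw [← add_sum_erase univ _ (mem_univ τ),
      ← add_sum_erase (univ.erase τ) _ (by simp [d1.symm] : i₁ ∈ univ.erase τ),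
      ← add_sum_erase ((univ.erase τ).erase i₁) _ (by simp [d2.symm, d5.symm] : i₂ ∈ (univ.erase τ).erase i₁),
      ← add_sum_erase (((univ.erase τ).erase i₁).erase i₂) _
        (by simp [d3.symm, d6.symm, d8.symm] : i₃ ∈ ((univ.erase τ).erase i₁).erase i₂)] at hs
    simp only [hτ] at hs
    nlinarith
  have hex : ∃ k ∈ U, v k ≠ 0 := by
    by_contra hne
    push Not at hne
    rw [sum_eq_zero (fun i hi => by rw [hne i hi, mul_zero])] at hsum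
    omega
  obtain ⟨k, hk, hk0⟩ := hex
  have hkU := (hU k).1 hk
  obtain ⟨σ, hσ⟩ := e k hkU.1 hkU.2.1 hkU.2.2.1 hkU.2.2.2
  have hσ0 : σ ≠ 0 := by
    rintro rfl
    exact hk0 (by rw [hσ]; simp)
  have hσ1 := one_le_sq_of_ne hσ0
  have hsum2 := add_sum_erase U (fun i => v i * v i) hk
  rw [hsum] at hsum2
  have hrest0 : 0 ≤ ∑ i ∈ U.erase k, v i * v i := sum_nonneg fun i _ => mul_self_nonneg _
  have hvk : v k * v k = 4 * σ ^ 2 := by rw [hσ]; ring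
  have hσ2 : σ ^ 2 = 1 := by omega
  have hrest : ∑ i ∈ U.erase k, v i * v i = 0 := by omega
  have hz := (sum_eq_zero_iff_of_nonneg (fun i _ => mul_self_nonneg (v i))).mp hrest
  refine ⟨k, σ, hkU.1, hkU.2.1, hkU.2.2.1, hkU.2.2.2, hσ2, hσ, ?_⟩
  intro i a1 a2 a3 a4 a5
  have : i ∈ U.erase k := by
    rw [mem_erase]
    exact ⟨a5, (hU i).2 ⟨a1, a2, a3, a4⟩⟩
  simpa using hz i this

/-- The ordered main step. -/
theorem main_ordered {f h v A B c : ι → ℤ} {N : ℤ} {τ i₁ i₂ i₃ j p q : ι} {σ : ℤ}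
    (H : Hyp f h v A B c N τ) (P : Pos v A τ i₁ i₂ i₃ j σ) (hpq : p ≠ q)
    (hBp : B p ^ 2 = 1) (hBq : B q ^ 2 = 1) (hBU : ∀ i, i ≠ p → i ≠ q → B i = 0)
    (eh : h p = h q) (ev : v p = v q) (eA : A p = A q) (ec : c p = c q) :
    N = 5616 ∨ N = 7920 := by
  have hv0 : ∀ x : ι, v x ^ 2 = 1 → v x ≠ 0 := fun x hx h0 => by
    rw [h0] at hx
    norm_num at hx
  have hpτ : p ≠ τ := by
    rintro rfl
    rw [H.Bτ] at hBp
    norm_num at hBp
  have hqτ : q ≠ τ := by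
    rintro rfl
    rw [H.Bτ] at hBq
    norm_num at hBq
  have hσ0 : σ ≠ 0 := by
    rintro rfl
    have := P.σ2
    norm_num at this
  have hv4 : ∀ x : ι, v x ^ 2 = 1 → v x ≠ v j := fun x hx he => by
    rw [he, P.vj] at hx
    have := P.σ2
    nlinarith
  have hnotU : ∀ x y : ι, v x = v y → x ∈ U5 τ i₁ i₂ i₃ j → y ∉ U5 τ i₁ i₂ i₃ j → y ≠ τ → False := by
    intro x y he hx hy hyτ
    have h0 := P.vU x hx
    rw [he] at h0
    rw [mem_U5] at hy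
    by_cases y1 : y = i₁
    · rw [y1] at h0; exact hv0 _ P.v1 h0
    by_cases y2 : y = i₂
    · rw [y2] at h0; exact hv0 _ P.v2 h0
    by_cases y3 : y = i₃
    · rw [y3] at h0; exact hv0 _ P.v3 h0
    by_cases y4 : y = j
    · rw [y4, P.vj] at h0; omega
    exact hy ⟨hyτ, y1, y2, y3, y4⟩
  -- p, q ≠ j
  have hpj : p ≠ j := by
    rintro rfl
    have hqU : q ∉ U5 τ i₁ i₂ i₃ p := fun hq => by
      have := P.vU q hq
      rw [← ev, P.vj] at this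
      omega
    rw [mem_U5] at hqU
    by_cases y1 : q = i₁
    · exact hv4 i₁ P.v1 (by rw [← y1, ev])
    by_cases y2 : q = i₂
    · exact hv4 i₂ P.v2 (by rw [← y2, ev])
    by_cases y3 : q = i₃
    · exact hv4 i₃ P.v3 (by rw [← y3, ev])
    exact hqU ⟨hqτ, y1, y2, y3, hpq.symm⟩
  have hqj : q ≠ j := by
    rintro rfl
    have hpU : p ∉ U5 τ i₁ i₂ i₃ q := fun hq => by
      have := P.vU p hq
      rw [ev, P.vj] at this
      omega
    rw [mem_U5] at hpU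
    by_cases y1 : p = i₁
    · exact hv4 i₁ P.v1 (by rw [← y1, ← ev])
    by_cases y2 : p = i₂
    · exact hv4 i₂ P.v2 (by rw [← y2, ← ev])
    by_cases y3 : p = i₃
    · exact hv4 i₃ P.v3 (by rw [← y3, ← ev])
    exact hpU ⟨hpτ, y1, y2, y3, hpq⟩
  by_cases hpU : p ∈ U5 τ i₁ i₂ i₃ j
  · -- q is outside too
    have hqU : q ∈ U5 τ i₁ i₂ i₃ j := by
      by_contra hq
      exact hnotU p q ev hpU hq hqτ
    refine caseR H P hpU hqU hpq hBp eh ec ?_ ?_ ?_ ?_ ?_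
    · rw [mem_U5] at hpU hqU
      exact hBU _ hpU.2.1.symm hqU.2.1.symm
    · rw [mem_U5] at hpU hqU
      exact hBU _ hpU.2.2.1.symm hqU.2.2.1.symm
    · rw [mem_U5] at hpU hqU
      exact hBU _ hpU.2.2.2.1.symm hqU.2.2.2.1.symm
    · exact hBU _ hpj.symm hqj.symm
    · intro i hi
      simp only [mem_erase] at hi
      exact hBU i hi.2.1 hi.1
  · exfalso
    have hqU : q ∉ U5 τ i₁ i₂ i₃ j := fun hq => hnotU q p ev.symm hq hpU hpτ
    rw [mem_U5] at hpU hqU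
    have hp' : p = i₁ ∨ p = i₂ ∨ p = i₃ := by
      by_contra hc
      push Not at hc
      exact hpU ⟨hpτ, hc.1, hc.2.1, hc.2.2, hpj⟩
    have hq' : q = i₁ ∨ q = i₂ ∨ q = i₃ := by
      by_contra hc
      push Not at hc
      exact hqU ⟨hqτ, hc.1, hc.2.1, hc.2.2, hqj⟩
    -- `A = v` at `i₁`, `A = -v` at `i₂, i₃`
    have x1 : ∀ x : ι, (x = i₂ ∨ x = i₃) → A x = - v x ∧ v x ^ 2 = 1 := by
      rintro x (rfl | rfl)
      · exact ⟨P.A2, P.v2⟩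
      · exact ⟨P.A3, P.v3⟩
    have hp1 : p ≠ i₁ := by
      rintro rfl
      have hq2 : q = i₂ ∨ q = i₃ := by
        rcases hq' with h1 | h1
        · exact absurd h1.symm hpq
        · exact h1
      obtain ⟨a1, a2⟩ := x1 q hq2
      have := P.A1
      rw [eA, a1, ← ev] at this
      have h0 := hv0 _ P.v1
      omega
    have hq1 : q ≠ i₁ := by
      rintro rfl
      have hp2 : p = i₂ ∨ p = i₃ := by
        rcases hp' with h1 | h1
        · exact absurd h1 hp1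
        · exact h1
      obtain ⟨a1, a2⟩ := x1 p hp2
      have := P.A1
      rw [← eA, a1, ev] at this
      have h0 := hv0 _ P.v1
      omega
    have hB1 : B i₁ = 0 := hBU _ hp1.symm hq1.symm
    have hBj : B j = 0 := hBU _ hpj.symm hqj.symm
    have hBUU : ∀ i ∈ U5 τ i₁ i₂ i₃ j, B i = 0 := by
      intro i hi
      rw [mem_U5] at hi
      refine hBU i ?_ ?_
      · rintro rfl
        rcases hp' with h1 | h1 | h1
        · exact hp1 h1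
        · exact hi.2.2.1 h1
        · exact hi.2.2.2.1 h1
      · rintro rfl
        rcases hq' with h1 | h1 | h1
        · exact hq1 h1
        · exact hi.2.2.1 h1
        · exact hi.2.2.2.1 h1
    rcases hp' with h1 | h1 | h1
    · exact hp1 h1
    · -- p = i₂, q = i₃
      have hq3 : q = i₃ := by
        rcases hq' with h2 | h2 | h2
        · exact absurd h2 hq1
        · exact absurd (h1.trans h2.symm) hpq
        · exact h2
      subst h1 hq3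
      exact caseN H P eh ev ec hBp hB1 hBj hBUU
    · have hq3 : q = i₂ := by
        rcases hq' with h2 | h2 | h2
        · exact absurd h2 hq1
        · exact h2
        · exact absurd (h1.trans h2.symm) hpq
      subst h1 hq3
      exact caseN H P eh.symm ev.symm ec.symm hBq hB1 hBj hBUU

/-- **The core theorem.** -/
theorem core {f h v A B c : ι → ℤ} {N : ℤ} {τ : ι} (H : Hyp f h v A B c N τ) :
    N = 5616 ∨ N = 7920 := by
  obtain ⟨i₁, i₂, i₃, d1, d2, d3, d5, d6, d8, a1, a2, a3, a0⟩ := A_support A τ H.Aτ H.s_AA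
  obtain ⟨p, q, hpq, hBp, hBq, hB0⟩ := B_support B H.s_BB
  -- parity
  have hpar : ∀ i, (2:ℤ) ∣ v i + A i := fun i => by
    have h1 := H.M1 i
    have h2 := H.M2 i
    omega
  have odd_of : ∀ i, A i ^ 2 = 1 → ¬ (2:ℤ) ∣ v i := by
    intro i hi
    have := hpar i
    rcases eq_or_of_sq hi with h0 | h0 <;> rw [h0] at this <;> omega
  obtain ⟨v1, v2, v3, j, σ, j1, j2, j3, j4, σ2, vj, v0⟩ :=
    v_support v d1 d2 d3 d5 d6 d8 H.vτ (odd_of _ a1) (odd_of _ a2) (odd_of _ a3)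
      (fun i h1 h2 h3 h4 => by
        have := hpar i
        rw [a0 i h1 h2 h3 h4] at this
        simpa using this) H.s_vv
  -- A j = 0
  have Aj : A j = 0 := a0 j j1 j2 j3 j4
  have hU : ∀ i ∈ U5 τ i₁ i₂ i₃ j, v i = 0 ∧ A i = 0 := by
    intro i hi
    rw [mem_U5] at hi
    obtain ⟨h1, h2, h3, h4, h5⟩ := hi
    exact ⟨v0 i h1 h2 h3 h4 h5, a0 i h1 h2 h3 h4⟩
  -- signs
  have hsA : v τ * A τ + v i₁ * A i₁ + v i₂ * A i₂ + v i₃ * A i₃ = 0 := by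
    have := H.s_vA
    rw [sum_five _ d1 d2 d3 j1.symm d5 d6 j2.symm d8 j3.symm j4.symm,
      sum_eq_zero (fun i hi => by rw [(hU i hi).2, mul_zero]), Aj] at this
    linarith
  rw [H.vτ, H.Aτ] at hsA
  have sgn : ∀ i, v i ^ 2 = 1 → A i ^ 2 = 1 → ((v i * A i = 1 ∧ A i = v i) ∨ (v i * A i = -1 ∧ A i = - v i)) := by
    intro i h1 h2
    rcases eq_or_of_sq h1 with x | x <;> rcases eq_or_of_sq h2 with y | y <;> rw [x, y] <;> norm_num
  -- the values of the other columns at `p, q`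
  have hgB : ∀ g : ι → ℤ, ∑ i, g i * B i = 0 → g p * B p + g q * B q = 0 := by
    intro g hg
    have h1 : g p * B p + ∑ i ∈ univ.erase p, g i * B i = ∑ i, g i * B i :=
      add_sum_erase univ (fun i => g i * B i) (mem_univ p)
    have h2 : g q * B q + ∑ i ∈ (univ.erase p).erase q, g i * B i = ∑ i ∈ univ.erase p, g i * B i :=
      add_sum_erase (univ.erase p) (fun i => g i * B i) (by simp [hpq.symm] : q ∈ univ.erase p)
    rw [sum_eq_zero (fun i hi => by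
      simp only [mem_erase, mem_univ, and_true] at hi
      rw [hB0 i hi.2 hi.1, mul_zero])] at h2
    rw [hg] at h1
    linarith
  have hBneg : B q = - B p := by
    have h1 := hgB f H.s_fB
    have hfp := H.fpos p
    have hfq := H.fpos q
    rcases eq_or_of_sq hBp with x | x <;> rcases eq_or_of_sq hBq with y | y <;> rw [x, y] at h1 ⊢ <;>
      first | omega | rfl | skip
  have hgeq : ∀ g : ι → ℤ, ∑ i, g i * B i = 0 → g p = g q := by
    intro g hg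
    have h1 := hgB g hg
    rw [hBneg] at h1
    have h2 : (g p - g q) * B p = 0 := by linarith
    rcases mul_eq_zero.mp h2 with h3 | h3
    · linarith
    · rw [h3] at hBp
      norm_num at hBp
  have eh := hgeq h H.s_hB
  have ev := hgeq v H.s_vB
  have eA := hgeq A H.s_AB
  have ec := hgeq c H.s_cB
  rcases sgn i₁ v1 a1 with ⟨s1, A1⟩ | ⟨s1, A1⟩ <;> rcases sgn i₂ v2 a2 with ⟨s2, A2⟩ | ⟨s2, A2⟩ <;>
    rcases sgn i₃ v3 a3 with ⟨s3, A3⟩ | ⟨s3, A3⟩ <;>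
    first
    | (exfalso; omega)
    | skip
  · have P : Pos v A τ i₁ i₂ i₃ j σ := by
      refine ⟨d1, d2, d3, j1.symm, d5, d6, j2.symm, d8, j3.symm, j4.symm, v1, v2, v3, σ2, vj,
        A1, A2, A3, Aj, ?_, ?_⟩ <;>
      · intro i hi
        rw [mem_U5] at hi
        obtain ⟨h1, h2, h3, h4, h5⟩ := hi
        first
        | exact v0 i h1 h2 h3 h4 h5
        | exact a0 i h1 h2 h3 h4
    exact main_ordered H P hpq hBp hBq hB0 eh ev eA ec
  · have P : Pos v A τ i₂ i₁ i₃ j σ := by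
      refine ⟨d2, d1, d3, j1.symm, d5.symm, d8, j3.symm, d6, j2.symm, j4.symm, v2, v1, v3, σ2, vj,
        A2, A1, A3, Aj, ?_, ?_⟩ <;>
      · intro i hi
        rw [mem_U5] at hi
        obtain ⟨h1, h2, h3, h4, h5⟩ := hi
        first
        | exact v0 i h1 h3 h2 h4 h5
        | exact a0 i h1 h3 h2 h4
    exact main_ordered H P hpq hBp hBq hB0 eh ev eA ec
  · -- i₃ is the distinguished one
    have P : Pos v A τ i₃ i₁ i₂ j σ := by
      refine ⟨d3, d1, d2, j1.symm, d6.symm, d8.symm, j4.symm, d5, j2.symm, j3.symm, v3, v1, v2, σ2, vj,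
        A3, A1, A2, Aj, ?_, ?_⟩ <;>
      · intro i hi
        rw [mem_U5] at hi
        obtain ⟨h1, h2, h3, h4, h5⟩ := hi
        first
        | exact v0 i h1 h3 h4 h2 h5
        | exact a0 i h1 h3 h4 h2
    exact main_ordered H P hpq hBp hBq hB0 eh ev eA ec

end Cfsg.Agent.Lib.Gross.GL23Core
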