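import Mathlib
import Cfsg.Agent.Lib.Gross.GL23Core
import Cfsg.Agent.Lib.Char.Values
import Cfsg.Agent.Lib.Char.Ortho
import Cfsg.Agent.Lib.Char.CompleteCor
import Cfsg.Agent.Lib.Char.ClassPair
import Cfsg.Agent.Lib.Char.Burnside2

set_option autoImplicit false

/-!
# From columns of the character table to the integer core (`C(t) ≃ GL(2,3)`)
-/

namespace Cfsg.Agent.Lib.Gross.GL23Char

open Cfsg Cfsg.Agent.Lib.Gross.GL23Core Finset
open Cfsg.Agent.Lib.Char.CompleteCor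
open scoped ComplexConjugate

universe u

variable {G : Type u} [Group G]

/-- The "Fourier coefficient" of a character on a cyclic subgroup is a natural number. -/
theorem sum_root {χ : G → ℂ} (hχ : IsCharacter G χ) (g : G) {N : ℕ} (hN : 0 < N)
    (hg : g ^ N = 1) {ξ : ℂ} (hξ : ξ ^ N = 1) :
    ∃ m : ℕ, ∑ j ∈ range N, ξ ^ j * χ (g ^ j) = N * m := by
  classical
  obtain ⟨n, ρ, rfl⟩ := hχ
  have hA : (ρ g) ^ N = 1 := by rw [← map_pow, hg, map_one]
  obtain ⟨b, μ, h1, h2⟩ := Cfsg.Agent.Lib.Char.Values.exists_eigenbasis (ρ g) hN hA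
  have hpow : ∀ k i, ρ (g ^ k) (b i) = (μ i ^ k) • b i := by
    intro k i
    induction k with
    | zero => simp
    | succ k ih =>
      rw [pow_succ, map_mul, Module.End.mul_apply, h1, map_smul, ih, smul_smul, pow_succ, mul_comm]
  have htr : ∀ k, ρ.character (g ^ k) = ∑ i, μ i ^ k := fun k =>
    Cfsg.Agent.Lib.Char.Values.trace_eq_sum_of_diagonal (ρ (g ^ k)) b _ (hpow k)
  refine ⟨(univ.filter fun i => ξ * μ i = 1).card, ?_⟩
  simp only [htr, mul_sum]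
  rw [sum_comm]
  have hgeom : ∀ i, ∑ j ∈ range N, ξ ^ j * μ i ^ j = if ξ * μ i = 1 then (N : ℂ) else 0 := by
    intro i
    simp only [← mul_pow]
    split_ifs with h
    · simp [h]
    · rw [geom_sum_eq h, mul_pow, hξ, h2, one_mul, sub_self, zero_div]
  simp only [hgeom]
  rw [sum_ite, sum_const_zero, add_zero, sum_const, nsmul_eq_mul, mul_comm]

lemma expand8 (a : ℕ → ℂ) (ξ : ℂ) : ∑ j ∈ range 8, ξ ^ j * a j =
    a 0 + ξ * a 1 + ξ ^ 2 * a 2 + ξ ^ 3 * a 3 + ξ ^ 4 * a 4 + ξ ^ 5 * a 5 + ξ ^ 6 * a 6 + ξ ^ 7 * a 7 := by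
  simp [sum_range_succ]

lemma expand6 (a : ℕ → ℂ) (ξ : ℂ) : ∑ j ∈ range 6, ξ ^ j * a j =
    a 0 + ξ * a 1 + ξ ^ 2 * a 2 + ξ ^ 3 * a 3 + ξ ^ 4 * a 4 + ξ ^ 5 * a 5 := by
  simp [sum_range_succ]

/-- Integer data of a character at the element of order `8`. -/
theorem data_w {χ : G → ℂ} (hχ : IsCharacter G χ) {w t : G} (hw8 : w ^ 8 = 1) (hw4 : w ^ 4 = t)
    (e3 : χ (w ^ 3) = χ w) (e6 : χ (w ^ 6) = χ (w ^ 2)) (e5 : χ (w ^ 7) = χ (w ^ 5))
    (ζ s : ℂ) (hζ : ζ ^ 2 = Complex.I) (hs : s = ζ + Complex.I * ζ) :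
    ∃ f h v A B : ℤ, χ 1 = f ∧ χ t = h ∧ χ (w ^ 2) = v ∧ χ w = A + B * s ∧ χ (w ^ 7) = A - B * s ∧
      (8:ℤ) ∣ f + h - 2 * v ∧ (8:ℤ) ∣ f + h + 2 * v + 4 * A ∧ (8:ℤ) ∣ f - h + 4 * B := by
  have hI : Complex.I ^ 2 = -1 := Complex.I_sq
  have hss : s ^ 2 = -2 := by
    rw [hs]
    have : (ζ + Complex.I * ζ) ^ 2 = ζ ^ 2 * (1 + 2 * Complex.I + Complex.I ^ 2) := by ring
    rw [this, hζ, hI]
    linear_combination 2 * hI
  have E : ∀ ξ : ℂ, ξ ^ 8 = 1 → ∃ m : ℕ, χ 1 + ξ * χ w + ξ ^ 2 * χ (w ^ 2) + ξ ^ 3 * χ w + ξ ^ 4 * χ t +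
      ξ ^ 5 * χ (w ^ 5) + ξ ^ 6 * χ (w ^ 2) + ξ ^ 7 * χ (w ^ 5) = 8 * m := by
    intro ξ hξ
    obtain ⟨m, hm⟩ := sum_root hχ w (by norm_num) hw8 hξ
    refine ⟨m, ?_⟩
    rw [expand8 (fun j => χ (w ^ j)) ξ] at hm
    simp only [pow_zero, pow_one, e3, e6, e5, hw4] at hm
    exact_mod_cast hm
  have z4 : ζ ^ 4 = -1 := by
    have : ζ ^ 4 = (ζ ^ 2) ^ 2 := by ring
    rw [this, hζ, hI]
  have z8 : ζ ^ 8 = 1 := by
    have : ζ ^ 8 = (ζ ^ 4) ^ 2 := by ring
    rw [this, z4]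
    norm_num
  obtain ⟨m0, S0⟩ := E 1 (by norm_num)
  obtain ⟨m4, S4⟩ := E (-1) (by norm_num)
  obtain ⟨m2, S2⟩ := E Complex.I (by
    have : Complex.I ^ 8 = (Complex.I ^ 2) ^ 4 := by ring
    rw [this, hI]
    norm_num)
  obtain ⟨m1, S1⟩ := E ζ z8
  obtain ⟨m5, S5⟩ := E (-ζ) (by
    have : (-ζ) ^ 8 = ζ ^ 8 := by ring
    rw [this, z8])
  set a0 := χ 1
  set a1 := χ w
  set a2 := χ (w ^ 2)
  set a4 := χ t
  set a5 := χ (w ^ 5)
  have T0 : a0 + a4 + 2 * a2 + 2 * a1 + 2 * a5 = 8 * m0 := by linear_combination S0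
  have T4 : a0 + a4 + 2 * a2 - 2 * a1 - 2 * a5 = 8 * m4 := by linear_combination S4
  have T2 : a0 + a4 - 2 * a2 = 8 * m2 := by
    have h3 : Complex.I ^ 3 = - Complex.I := by
      rw [pow_succ, hI]; ring
    have h4 : Complex.I ^ 4 = 1 := by
      have : Complex.I ^ 4 = (Complex.I ^ 2) ^ 2 := by ring
      rw [this, hI]; norm_num
    have h5 : Complex.I ^ 5 = Complex.I := by
      rw [pow_succ, h4, one_mul]
    have h6 : Complex.I ^ 6 = -1 := by
      rw [pow_succ, h5, mul_comm, Complex.I_mul_I]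
    have h7 : Complex.I ^ 7 = - Complex.I := by
      rw [pow_succ, h6]; ring
    rw [h3, h4, h5, h6, h7, hI] at S2
    linear_combination S2
  have p3 : ζ ^ 3 = Complex.I * ζ := by rw [pow_succ, hζ]
  have p5 : ζ ^ 5 = - ζ := by rw [pow_succ, z4]; ring
  have p6 : ζ ^ 6 = - Complex.I := by
    have : ζ ^ 6 = ζ ^ 4 * ζ ^ 2 := by ring
    rw [this, z4, hζ]; ring
  have p7 : ζ ^ 7 = - (Complex.I * ζ) := by
    have : ζ ^ 7 = ζ ^ 4 * ζ ^ 3 := by ring
    rw [this, z4, p3]; ring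
  have T1 : a0 - a4 + s * (a1 - a5) = 8 * m1 := by
    rw [p3, z4, p5, p6, p7, hζ] at S1
    rw [hs]
    linear_combination S1
  have T5 : a0 - a4 - s * (a1 - a5) = 8 * m5 := by
    have q2 : (-ζ) ^ 2 = Complex.I := by rw [neg_sq, hζ]
    have q3 : (-ζ) ^ 3 = - (Complex.I * ζ) := by
      rw [pow_succ, q2]; ring
    have q4 : (-ζ) ^ 4 = -1 := by
      rw [show (-ζ) ^ 4 = ζ ^ 4 by ring, z4]
    have q5 : (-ζ) ^ 5 = ζ := by
      rw [pow_succ, q4]; ring
    have q6 : (-ζ) ^ 6 = - Complex.I := by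
      rw [show (-ζ) ^ 6 = ζ ^ 6 by ring, p6]
    have q7 : (-ζ) ^ 7 = Complex.I * ζ := by
      rw [pow_succ, q6]; ring
    rw [q2, q3, q4, q5, q6, q7] at S5
    rw [hs]
    linear_combination S5
  refine ⟨m0 + m4 + 2 * m2 + 2 * m1 + 2 * m5, m0 + m4 + 2 * m2 - 2 * m1 - 2 * m5, m0 + m4 - 2 * m2,
    m0 - m4, m5 - m1, ?_, ?_, ?_, ?_, ?_, ⟨m2, by ring⟩, ⟨m0, by ring⟩, ⟨m5, by ring⟩⟩
  · push_cast
    linear_combination (1/8) * T0 + (1/8) * T4 + (1/4) * T2 + (1/4) * T1 + (1/4) * T5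
  · push_cast
    linear_combination (1/8) * T0 + (1/8) * T4 + (1/4) * T2 - (1/4) * T1 - (1/4) * T5
  · push_cast
    linear_combination (1/8) * T0 + (1/8) * T4 - (1/4) * T2
  · push_cast
    linear_combination (1/8) * T0 - (1/8) * T4 - (s/8) * T1 + (s/8) * T5 + ((a1 - a5) / 4) * hss
  · rw [e5]
    push_cast
    linear_combination (1/8) * T0 - (1/8) * T4 + (s/8) * T1 - (s/8) * T5 - ((a1 - a5) / 4) * hss

/-- Integer data of a character at the element of order `6`. -/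
theorem data_z {χ : G → ℂ} (hχ : IsCharacter G χ) {z t : G} (hz6 : z ^ 6 = 1) (hz3 : z ^ 3 = t)
    (e5 : χ (z ^ 5) = χ z) (e4 : χ (z ^ 4) = χ (z ^ 2)) (h : ℤ) (hh : χ t = h)
    (ω : ℂ) (hω : ω ^ 2 + ω + 1 = 0) :
    ∃ c : ℤ, χ z = c ∧ (3:ℤ) ∣ c - h := by
  have h3 : ω ^ 3 = 1 := by linear_combination (ω - 1) * hω
  have h6 : ω ^ 6 = 1 := by
    rw [show ω ^ 6 = (ω ^ 3) ^ 2 by ring, h3]
    norm_num
  have E : ∀ ξ : ℂ, ξ ^ 6 = 1 → ∃ m : ℕ, χ 1 + ξ * χ z + ξ ^ 2 * χ (z ^ 2) + ξ ^ 3 * h +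
      ξ ^ 4 * χ (z ^ 2) + ξ ^ 5 * χ z = 6 * m := by
    intro ξ hξ
    obtain ⟨m, hm⟩ := sum_root hχ z (by norm_num) hz6 hξ
    refine ⟨m, ?_⟩
    rw [expand6 (fun j => χ (z ^ j)) ξ] at hm
    simp only [pow_zero, pow_one, e5, e4, hz3, hh] at hm
    exact_mod_cast hm
  obtain ⟨m, S1⟩ := E ω h6
  obtain ⟨n, S2⟩ := E (-ω) (by rw [show (-ω) ^ 6 = ω ^ 6 by ring, h6])
  have p4 : ω ^ 4 = ω := by rw [pow_succ, h3, one_mul]
  have p5 : ω ^ 5 = ω ^ 2 := by
    rw [show ω ^ 5 = ω ^ 3 * ω ^ 2 by ring, h3, one_mul]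
  have q3 : (-ω) ^ 3 = -1 := by
    rw [show (-ω) ^ 3 = - ω ^ 3 by ring, h3]
  have q2 : (-ω) ^ 2 = ω ^ 2 := by ring
  have q4 : (-ω) ^ 4 = ω := by rw [show (-ω) ^ 4 = ω ^ 4 by ring, p4]
  have q5 : (-ω) ^ 5 = - ω ^ 2 := by rw [show (-ω) ^ 5 = - ω ^ 5 by ring, p5]
  rw [h3, p4, p5] at S1
  rw [q3, q2, q4, q5] at S2
  refine ⟨h + 3 * ((n : ℤ) - m), ?_, ⟨(n : ℤ) - m, by ring⟩⟩
  push_cast
  linear_combination (1/2) * S2 - (1/2) * S1 + χ z * hω

lemma not_isConj_of_orderOf_ne {a b : G} (h : orderOf a ≠ orderOf b) : ¬ IsConj a b := by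
  intro hc
  obtain ⟨c, rfl⟩ := isConj_iff.1 hc
  apply h
  have := (MulAut.conj c).orderOf_eq a
  rw [MulAut.conj_apply] at this
  exact this.symm

/-- All the data needed about the group. -/
structure Setup (G : Type u) [Group G] (t w z : G) : Prop where
  w4 : w ^ 4 = t
  z3 : z ^ 3 = t
  ot : orderOf t = 2
  oy : orderOf (w ^ 2) = 4
  ow : orderOf w = 8
  oz : orderOf z = 6
  conj_w : IsConj w (w ^ 3)
  conj_z : IsConj z (z ^ 5)
  nc : ¬ IsConj w w⁻¹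
  card_t : Nat.card (Subgroup.centralizer ({t} : Set G)) = 48
  card_y : Nat.card (Subgroup.centralizer ({w ^ 2} : Set G)) = 8
  card_w : Nat.card (Subgroup.centralizer ({w} : Set G)) = 8
  card_z : Nat.card (Subgroup.centralizer ({z} : Set G)) = 6
  Rw : ∀ a b : G, a * t * a⁻¹ * (b * t * b⁻¹) ≠ w
  Rwi : ∀ a b : G, a * t * a⁻¹ * (b * t * b⁻¹) ≠ w⁻¹
  Ry : Nat.card {a : G × G // a.1 * t * a.1⁻¹ * (a.2 * t * a.2⁻¹) = w ^ 2} = 9216
  perf : ∀ χ : G → ℂ, IsIrrCharacter G χ → χ 1 = 1 → χ = fun _ => 1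

lemma split {ι : Type*} [Fintype ι] (g A B : ι → ℤ) {s : ℂ} (hs : s ≠ 0)
    (h1 : ∑ i, (g i : ℂ) * ((A i : ℂ) - B i * s) = 0)
    (h2 : ∑ i, (g i : ℂ) * ((A i : ℂ) + B i * s) = 0) :
    ∑ i, g i * A i = 0 ∧ ∑ i, g i * B i = 0 := by
  have e1 : ∑ i, (g i : ℂ) * ((A i : ℂ) - B i * s) =
      ((∑ i, g i * A i : ℤ) : ℂ) - ((∑ i, g i * B i : ℤ) : ℂ) * s := by
    push_cast
    rw [sum_mul, ← sum_sub_distrib]
    exact sum_congr rfl fun i _ => by ring
  have e2 : ∑ i, (g i : ℂ) * ((A i : ℂ) + B i * s) =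
      ((∑ i, g i * A i : ℤ) : ℂ) + ((∑ i, g i * B i : ℤ) : ℂ) * s := by
    push_cast
    rw [sum_mul, ← sum_add_distrib]
    exact sum_congr rfl fun i _ => by ring
  rw [e1] at h1
  rw [e2] at h2
  have h3 : ((∑ i, g i * A i : ℤ) : ℂ) = 0 := by linear_combination (1/2) * h1 + (1/2) * h2
  have h4 : ((∑ i, g i * B i : ℤ) : ℂ) * s = 0 := by linear_combination (1/2) * h2 - (1/2) * h1
  have h5 : ((∑ i, g i * B i : ℤ) : ℂ) = 0 := (mul_eq_zero.mp h4).resolve_right hs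
  exact ⟨by exact_mod_cast h3, by exact_mod_cast h5⟩

/-- **From the group setup to the orders.** -/
theorem setup_main [Finite G] {t w z : G} (S : Setup G t w z) :
    Nat.card G = 5616 ∨ Nat.card G = 7920 := by
  classical
  haveI := Fintype.ofFinite G
  obtain ⟨ζ, hζ⟩ := IsAlgClosed.exists_pow_nat_eq Complex.I (n := 2) (by norm_num)
  set s : ℂ := ζ + Complex.I * ζ with hs
  have hI : Complex.I ^ 2 = -1 := Complex.I_sq
  have hss : s ^ 2 = -2 := by
    rw [hs]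
    have : (ζ + Complex.I * ζ) ^ 2 = ζ ^ 2 * (1 + 2 * Complex.I + Complex.I ^ 2) := by ring
    rw [this, hζ, hI]
    linear_combination 2 * hI
  have hs0 : s ≠ 0 := by
    intro h0
    rw [h0] at hss
    norm_num at hss
  obtain ⟨r, hr⟩ := IsAlgClosed.exists_pow_nat_eq (-3 : ℂ) (n := 2) (by norm_num)
  set ω : ℂ := (-1 + r) / 2 with hωdef
  have hω : ω ^ 2 + ω + 1 = 0 := by
    rw [hωdef]
    linear_combination (1/4) * hr
  have hw8 : w ^ 8 = 1 := by rw [← S.ow]; exact pow_orderOf_eq_one w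
  have hz6 : z ^ 6 = 1 := by rw [← S.oz]; exact pow_orderOf_eq_one z
  have hinv : w⁻¹ = w ^ 7 := by
    rw [inv_eq_iff_mul_eq_one, ← pow_succ', hw8]
  obtain ⟨c₁, hc₁⟩ := isConj_iff.1 S.conj_w
  obtain ⟨c₂, hc₂⟩ := isConj_iff.1 S.conj_z
  have conjpow : ∀ (a b c : G) (n : ℕ), c * a * c⁻¹ = b → c * a ^ n * c⁻¹ = b ^ n := by
    intro a b c n h
    rw [← h, conj_pow]
  have data : ∀ χ : IrrCharacter G, ∃ f h v A B c : ℤ, (χ : G → ℂ) 1 = f ∧ (χ : G → ℂ) t = h ∧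
      (χ : G → ℂ) (w ^ 2) = v ∧ (χ : G → ℂ) w = A + B * s ∧ (χ : G → ℂ) w⁻¹ = A - B * s ∧
      (χ : G → ℂ) z = c ∧ (8:ℤ) ∣ f + h - 2 * v ∧ (8:ℤ) ∣ f + h + 2 * v + 4 * A ∧
      (8:ℤ) ∣ f - h + 4 * B ∧ (3:ℤ) ∣ c - h := by
    intro χ
    have hχ : IsCharacter G (χ : G → ℂ) := by
      obtain ⟨n, ρ, -, h⟩ := χ.2
      exact ⟨n, ρ, h⟩
    have hcl := isIrr_classFunction χ.2
    have e3 : (χ : G → ℂ) (w ^ 3) = (χ : G → ℂ) w := by rw [← hc₁]; exact hcl _ _
    have e6 : (χ : G → ℂ) (w ^ 6) = (χ : G → ℂ) (w ^ 2) := by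
      have := conjpow _ _ c₁ 2 hc₁
      rw [← pow_mul] at this
      rw [show (6:ℕ) = 3 * 2 by norm_num, ← this]
      exact hcl _ _
    have e7 : (χ : G → ℂ) (w ^ 7) = (χ : G → ℂ) (w ^ 5) := by
      have := conjpow _ _ c₁ 5 hc₁
      rw [← pow_mul, show (3 * 5 : ℕ) = 8 + 7 by norm_num, pow_add, hw8, one_mul] at this
      rw [← this]
      exact hcl _ _
    obtain ⟨f, h, v, A, B, h1, h2, h3, h4, h5, m1, m2, m3⟩ :=
      data_w hχ hw8 S.w4 e3 e6 e7 ζ s hζ hs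
    have e5' : (χ : G → ℂ) (z ^ 5) = (χ : G → ℂ) z := by rw [← hc₂]; exact hcl _ _
    have e4' : (χ : G → ℂ) (z ^ 4) = (χ : G → ℂ) (z ^ 2) := by
      have := conjpow _ _ c₂ 2 hc₂
      rw [← pow_mul, show (5 * 2 : ℕ) = 6 + 4 by norm_num, pow_add, hz6, one_mul] at this
      rw [← this]
      exact hcl _ _
    obtain ⟨c, h6, m4⟩ := data_z hχ hz6 S.z3 e5' e4' h h2 ω hω
    exact ⟨f, h, v, A, B, c, h1, h2, h3, h4, by rw [hinv]; exact h5, h6, m1, m2, m3, m4⟩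
  choose f h v A B c hf hh hv hA hA' hc M1 M2 M3 M4 using data
  have cI : ∀ n : ℤ, conj (n : ℂ) = n := fun n => map_intCast (starRingEnd ℂ) n
  have conjA : ∀ χ : IrrCharacter G, conj ((χ : G → ℂ) w) = (A χ : ℂ) - B χ * s := by
    intro χ
    have hχ : IsCharacter G (χ : G → ℂ) := by
      obtain ⟨n, ρ, -, h⟩ := χ.2
      exact ⟨n, ρ, h⟩
    rw [← Cfsg.Agent.Lib.Char.Ortho.character_inv_of_isCharacter hχ, hA']
  have conjA' : ∀ χ : IrrCharacter G, conj ((χ : G → ℂ) w⁻¹) = (A χ : ℂ) + B χ * s := by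
    intro χ
    have hχ : IsCharacter G (χ : G → ℂ) := by
      obtain ⟨n, ρ, -, h⟩ := χ.2
      exact ⟨n, ρ, h⟩
    rw [← Cfsg.Agent.Lib.Char.Ortho.character_inv_of_isCharacter hχ, inv_inv, hA]
  have nc : ∀ x y : G, orderOf x ≠ orderOf y →
      ∑ χ : IrrCharacter G, (χ : G → ℂ) x * conj ((χ : G → ℂ) y) = 0 :=
    fun x y hxy => column_orth_not_conj (not_isConj_of_orderOf_ne hxy)
  have oi : orderOf w⁻¹ = 8 := by rw [orderOf_inv, S.ow]
  have o1 : orderOf (1:G) = 1 := orderOf_one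
  have ow := S.ow
  have oy := S.oy
  have ot := S.ot
  have oz := S.oz
  -- degree column
  have s_fv : ∑ i, f i * v i = 0 := by
    have := nc 1 (w ^ 2) (by rw [o1, oy]; norm_num)
    simp only [hf, hv, cI] at this
    exact_mod_cast this
  obtain ⟨s_fA, s_fB⟩ := split f A B hs0
    (by have := nc 1 w (by rw [o1, ow]; norm_num); simpa only [hf, conjA] using this)
    (by have := nc 1 w⁻¹ (by rw [o1, oi]; norm_num); simpa only [hf, conjA'] using this)
  -- column of t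
  have s_hh : ∑ i, h i * h i = 48 := by
    have := column_orth_conj (IsConj.refl t)
    rw [S.card_t] at this
    simp only [hh, cI] at this
    exact_mod_cast this
  have s_hv : ∑ i, h i * v i = 0 := by
    have := nc t (w ^ 2) (by rw [ot, oy]; norm_num)
    simp only [hh, hv, cI] at this
    exact_mod_cast this
  have s_hc : ∑ i, h i * c i = 0 := by
    have := nc t z (by rw [ot, oz]; norm_num)
    simp only [hh, hc, cI] at this
    exact_mod_cast this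
  obtain ⟨s_hA, s_hB⟩ := split h A B hs0
    (by have := nc t w (by rw [ot, ow]; norm_num); simpa only [hh, conjA] using this)
    (by have := nc t w⁻¹ (by rw [ot, oi]; norm_num); simpa only [hh, conjA'] using this)
  -- column of y
  have s_vv : ∑ i, v i * v i = 8 := by
    have := column_orth_conj (IsConj.refl (w ^ 2))
    rw [S.card_y] at this
    simp only [hv, cI] at this
    exact_mod_cast this
  obtain ⟨s_vA, s_vB⟩ := split v A B hs0
    (by have := nc (w ^ 2) w (by rw [oy, ow]; norm_num); simpa only [hv, conjA] using this)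
    (by have := nc (w ^ 2) w⁻¹ (by rw [oy, oi]; norm_num); simpa only [hv, conjA'] using this)
  -- column of z
  have s_cc : ∑ i, c i * c i = 6 := by
    have := column_orth_conj (IsConj.refl z)
    rw [S.card_z] at this
    simp only [hc, cI] at this
    exact_mod_cast this
  obtain ⟨-, s_cB⟩ := split c A B hs0
    (by have := nc z w (by rw [oz, ow]; norm_num); simpa only [hc, conjA] using this)
    (by have := nc z w⁻¹ (by rw [oz, oi]; norm_num); simpa only [hc, conjA'] using this)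
  -- columns of w and w⁻¹
  have e1 : ((∑ i, A i * A i : ℤ) : ℂ) + 2 * ((∑ i, B i * B i : ℤ) : ℂ) = 8 := by
    have := column_orth_conj (IsConj.refl w)
    rw [S.card_w] at this
    simp only [conjA] at this
    simp only [hA] at this
    push_cast at this ⊢
    rw [mul_sum, ← sum_add_distrib]
    rw [← this]
    exact sum_congr rfl fun i _ => by linear_combination ((B i : ℂ) * B i) * hss
  have e2 : ((∑ i, A i * A i : ℤ) : ℂ) - 2 * ((∑ i, B i * B i : ℤ) : ℂ) +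
      2 * s * ((∑ i, A i * B i : ℤ) : ℂ) = 0 := by
    have := column_orth_not_conj S.nc
    simp only [hA, conjA'] at this
    push_cast at this ⊢
    rw [mul_sum, mul_sum, ← sum_sub_distrib, ← sum_add_distrib]
    rw [← this]
    exact sum_congr rfl fun i _ => by linear_combination (-(B i : ℂ) * B i) * hss
  have e3 : ((∑ i, A i * A i : ℤ) : ℂ) - 2 * ((∑ i, B i * B i : ℤ) : ℂ) -
      2 * s * ((∑ i, A i * B i : ℤ) : ℂ) = 0 := by
    have := column_orth_not_conj (fun hc => S.nc hc.symm : ¬ IsConj w⁻¹ w)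
    simp only [hA', conjA] at this
    push_cast at this ⊢
    rw [mul_sum, mul_sum, ← sum_sub_distrib, ← sum_sub_distrib]
    rw [← this]
    exact sum_congr rfl fun i _ => by linear_combination (-(B i : ℂ) * B i) * hss
  have s_AA : ∑ i, A i * A i = 4 := by
    have : ((∑ i, A i * A i : ℤ) : ℂ) = 4 := by linear_combination (1/2) * e1 + (1/4) * e2 + (1/4) * e3
    exact_mod_cast this
  have s_BB : ∑ i, B i * B i = 2 := by
    have : ((∑ i, B i * B i : ℤ) : ℂ) = 2 := by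
      linear_combination (1/4) * e1 - (1/8) * e2 - (1/8) * e3
    exact_mod_cast this
  have s_AB : ∑ i, A i * B i = 0 := by
    have h0 : 4 * s * ((∑ i, A i * B i : ℤ) : ℂ) = 0 := by linear_combination e2 - e3
    have h4 : (4 * s) ≠ 0 := mul_ne_zero (by norm_num) hs0
    have := (mul_eq_zero.mp h0).resolve_left h4
    exact_mod_cast this
  -- trivial character
  let τ : IrrCharacter G := ⟨fun _ => 1, Cfsg.Agent.Lib.Char.Burnside2.isIrrCharacter_one⟩
  have fτ : f τ = 1 := by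
    have := hf τ
    have h1 : (τ : G → ℂ) 1 = 1 := rfl
    rw [h1] at this
    exact_mod_cast this.symm
  have hτ : h τ = 1 := by
    have := hh τ
    have h1 : (τ : G → ℂ) t = 1 := rfl
    rw [h1] at this
    exact_mod_cast this.symm
  have vτ : v τ = 1 := by
    have := hv τ
    have h1 : (τ : G → ℂ) (w ^ 2) = 1 := rfl
    rw [h1] at this
    exact_mod_cast this.symm
  have cτ : c τ = 1 := by
    have := hc τ
    have h1 : (τ : G → ℂ) z = 1 := rfl
    rw [h1] at this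
    exact_mod_cast this.symm
  have Aτ : A τ = 1 := by
    have a1 := hA τ
    have a2 := hA' τ
    have h1 : (τ : G → ℂ) w = 1 := rfl
    have h2 : (τ : G → ℂ) w⁻¹ = 1 := rfl
    rw [h1] at a1
    rw [h2] at a2
    have : (A τ : ℂ) = 1 := by linear_combination -(1/2) * a1 - (1/2) * a2
    exact_mod_cast this
  have Bτ : B τ = 0 := by
    have a1 := hA τ
    have a2 := hA' τ
    have h1 : (τ : G → ℂ) w = 1 := rfl
    have h2 : (τ : G → ℂ) w⁻¹ = 1 := rfl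
    rw [h1] at a1
    rw [h2] at a2
    have h3 : (B τ : ℂ) * s = 0 := by linear_combination -(1/2) * a1 + (1/2) * a2
    have := (mul_eq_zero.mp h3).resolve_right hs0
    exact_mod_cast this
  have fpos : ∀ i, 0 < f i := by
    intro i
    obtain ⟨n, hn, hn'⟩ := Cfsg.Agent.Lib.Char.Ortho.irr_degree_pos i.2
    rw [hf i] at hn'
    have : f i = n := by exact_mod_cast hn'
    rw [this]
    exact_mod_cast hn
  have lin : ∀ i, f i = 1 → i = τ := by
    intro i hi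
    apply Subtype.ext
    apply S.perf _ i.2
    rw [hf i, hi]
    simp
  have hN : (Nat.card G : ℂ) ≠ 0 := Nat.cast_ne_zero.mpr Nat.card_pos.ne'
  have hfc : ∀ i, (f i : ℂ) ≠ 0 := fun i => by exact_mod_cast (fpos i).ne'
  -- counting
  have R1 := Cfsg.Agent.Lib.Char.ClassPair.card_pairs_eq_sum t t w
  have R2 := Cfsg.Agent.Lib.Char.ClassPair.card_pairs_eq_sum t t w⁻¹
  have R3 := Cfsg.Agent.Lib.Char.ClassPair.card_pairs_eq_sum t t (w ^ 2)
  rw [card_eq_zero.mpr (filter_eq_empty_iff.mpr fun a _ => S.Rw a.1 a.2)] at R1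
  rw [card_eq_zero.mpr (filter_eq_empty_iff.mpr fun a _ => S.Rwi a.1 a.2)] at R2
  have hRy : (univ.filter fun a : G × G => a.1 * t * a.1⁻¹ * (a.2 * t * a.2⁻¹) = w ^ 2).card = 9216 := by
    rw [← S.Ry, Nat.card_eq_fintype_card, Fintype.card_subtype]
  rw [hRy] at R3
  simp only [hh, hf, hv, hA, hA', map_mul, cI] at R1 R2 R3
  have R1' := (mul_eq_zero.mp (by simpa using R1.symm)).resolve_left hN
  have R2' := (mul_eq_zero.mp (by simpa using R2.symm)).resolve_left hN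
  have hw : ∑ i, ((h i : ℚ) ^ 2 * A i) / f i = 0 := by
    have h0 : ∑ i, ((h i : ℂ) * h i / f i) * A i = 0 := by
      have : 2 * ∑ i, ((h i : ℂ) * h i / f i) * A i =
          ∑ i, ((h i : ℂ) * h i / f i) * ((A i : ℂ) + B i * s) +
          ∑ i, ((h i : ℂ) * h i / f i) * ((A i : ℂ) - B i * s) := by
        rw [mul_sum, ← sum_add_distrib]
        exact sum_congr rfl fun i _ => by ring
      rw [R1', R2', add_zero] at this
      exact (mul_eq_zero.mp this).resolve_left (by norm_num)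
    have h1 : ((∑ i, ((h i : ℚ) ^ 2 * A i) / f i : ℚ) : ℂ) = 0 := by
      push_cast
      rw [← h0]
      exact sum_congr rfl fun i _ => by ring
    exact_mod_cast h1
  have hy : (((Nat.card G : ℤ) : ℚ)) * ∑ i, ((h i : ℚ) ^ 2 * v i) / f i = 9216 := by
    have h1 : (((((Nat.card G : ℤ) : ℚ)) * ∑ i, ((h i : ℚ) ^ 2 * v i) / f i : ℚ) : ℂ) = 9216 := by
      push_cast
      push_cast at R3
      rw [R3]
      congr 1
      exact sum_congr rfl fun i _ => by ring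
    exact_mod_cast h1
  have H : Hyp f h v A B c (Nat.card G : ℤ) τ :=
    { fpos := fpos, fτ := fτ, hτ := hτ, vτ := vτ, Aτ := Aτ, Bτ := Bτ, cτ := cτ, lin := lin,
      M1 := M1, M2 := M2, M3 := M3, M4 := M4, s_fv := s_fv, s_fA := s_fA, s_fB := s_fB,
      s_hh := s_hh, s_hv := s_hv, s_hA := s_hA, s_hB := s_hB, s_hc := s_hc, s_vv := s_vv,
      s_vA := s_vA, s_vB := s_vB, s_AA := s_AA, s_BB := s_BB, s_AB := s_AB, s_cc := s_cc,
      s_cB := s_cB, hw := hw, hy := hy }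
  have := core H
  rcases this with h5 | h5
  · left; exact_mod_cast h5
  · right; exact_mod_cast h5

end Cfsg.Agent.Lib.Gross.GL23Char
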