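import Mathlib

set_option autoImplicit false

/-!
# Finite computations in `GL(2,3)`
-/

namespace Cfsg.Agent.Lib.Gross.GL23Table

abbrev GL0 := Matrix.GeneralLinearGroup (Fin 2) (ZMod 3)

def w₀ : GL0 := ⟨!![0, 1; 1, 1], !![2, 1; 1, 0], by decide +kernel, by decide +kernel⟩
def x₀ : GL0 := ⟨!![1, 1; 0, 1], !![1, 2; 0, 1], by decide +kernel, by decide +kernel⟩
def c₀ : GL0 := ⟨!![2, 0; 0, 2], !![2, 0; 0, 2], by decide +kernel, by decide +kernel⟩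
def z₀ : GL0 := c₀ * x₀
def u₁ : GL0 := ⟨!![1, 0; 1, 2], !![1, 0; 1, 2], by decide +kernel, by decide +kernel⟩
def u₂ : GL0 := ⟨!![1, 1; 0, 2], !![1, 1; 0, 2], by decide +kernel, by decide +kernel⟩
def u₃ : GL0 := ⟨!![2, 0; 2, 1], !![2, 0; 2, 1], by decide +kernel, by decide +kernel⟩
def u₄ : GL0 := ⟨!![2, 2; 0, 1], !![2, 2; 0, 1], by decide +kernel, by decide +kernel⟩

/-- Everything we need to know about a general element of `GL(2,3)`. -/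
def Good (g : GL0) : Prop :=
  (g * w₀ ^ 2 = w₀ ^ 2 * g → ∃ k : Fin 8, g = w₀ ^ k.val) ∧
  (g * z₀ = z₀ * g → ∃ k : Fin 6, g = z₀ ^ k.val) ∧
  (g * w₀ ≠ w₀⁻¹ * g) ∧
  (g ^ 2 = 1 → g.1 0 0 * g.1 1 1 - g.1 0 1 * g.1 1 0 = 1 → g = 1 ∨ g = c₀) ∧
  (g * w₀ = w₀ * g → g * x₀ = x₀ * g → g = 1 ∨ g = c₀) ∧
  (g ^ 2 = 1 → g * w₀ ^ 2 * g = (w₀ ^ 2)⁻¹ → g = u₁ ∨ g = u₂ ∨ g = u₃ ∨ g = u₄)

set_option synthInstance.maxHeartbeats 400000 in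
set_option synthInstance.maxSize 1000 in
instance : DecidablePred Good := fun g => by unfold Good; infer_instance

theorem table : ∀ g, Good g := by decide +kernel

theorem w4 : w₀ ^ 4 = c₀ := by decide +kernel
theorem w8 : w₀ ^ 8 = 1 := by decide +kernel
theorem c2 : c₀ ^ 2 = 1 := by decide +kernel
theorem c1 : c₀ ≠ 1 := by decide +kernel
theorem z3 : z₀ ^ 3 = c₀ := by decide +kernel
theorem z6 : z₀ ^ 6 = 1 := by decide +kernel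
theorem z2ne : z₀ ^ 2 ≠ 1 := by decide +kernel
theorem conj_w : u₂ * w₀ * u₂⁻¹ = w₀ ^ 3 := by decide +kernel
theorem conj_z : u₂ * z₀ * u₂⁻¹ = z₀ ^ 5 := by decide +kernel
theorem wx : w₀ * x₀ ≠ x₀ * w₀ := by decide +kernel
theorem pow_c : ∀ k : Fin 8, k ≠ 0 → ∃ m : Fin 5, (w₀ ^ k.val) ^ m.val = c₀ := by decide +kernel
theorem det_w : w₀.1 0 0 * w₀.1 1 1 - w₀.1 0 1 * w₀.1 1 0 ≠ 1 := by decide +kernel
theorem U_data : ∀ u ∈ [u₁, u₂, u₃, u₄], u ^ 2 = 1 ∧ u ≠ 1 ∧ u * w₀ ^ 2 * u = (w₀ ^ 2)⁻¹ ∧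
    (u⁻¹ * w₀ ^ 2) ^ 2 = 1 ∧ u⁻¹ * w₀ ^ 2 ≠ 1 := by decide +kernel
theorem U_ne : u₁ ≠ u₂ ∧ u₁ ≠ u₃ ∧ u₁ ≠ u₄ ∧ u₂ ≠ u₃ ∧ u₂ ≠ u₄ ∧ u₃ ≠ u₄ := by decide +kernel

end Cfsg.Agent.Lib.Gross.GL23Table
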