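import Mathlib
import Cfsg.Agent.Lib.Gross.GL23Char
import Cfsg.Agent.Lib.Gross.GL23Table
import Cfsg.Agent.Lib.Transfer.IndexTwo
import Cfsg.Agent.Lib.Char.LinearChars

set_option autoImplicit false

/-!
# A simple group with an involution centralizer `GL(2,3)` has order `5616` or `7920`
-/

namespace Cfsg.Agent.Lib.Gross.GL23Group

open Subgroup Cfsg.Agent.Lib.Gross.GL23Table Cfsg.Agent.Lib.Gross.GL23Char Cfsg

universe u

variable {G : Type u} [Group G] {t : G}

/-- The embedding of `GL(2,3)` onto the centralizer. -/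
def phi (e : centralizer ({t} : Set G) ≃* GL0) : GL0 →* G :=
  (centralizer ({t} : Set G)).subtype.comp e.symm.toMonoidHom

variable (e : centralizer ({t} : Set G) ≃* GL0)

lemma phi_inj : Function.Injective (phi e) := fun a b h => by
  apply e.symm.injective
  exact Subtype.ext h

lemma phi_apply (g : GL0) : phi e g = (e.symm g).1 := rfl

lemma phi_e (x : centralizer ({t} : Set G)) : phi e (e x) = x.1 := by
  rw [phi_apply, MulEquiv.symm_apply_apply]

lemma exists_phi {x : G} (hx : x * t = t * x) : ∃ g, phi e g = x :=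
  ⟨e ⟨x, mem_centralizer_singleton_iff.2 hx⟩, by rw [phi_e]⟩

lemma phi_comm (g : GL0) : phi e g * t = t * phi e g :=
  mem_centralizer_singleton_iff.1 (e.symm g).2

lemma phi_c (ht : orderOf t = 2) : phi e c₀ = t := by
  have hmem : t ∈ centralizer ({t} : Set G) := mem_centralizer_singleton_iff.2 rfl
  have hcomm : ∀ g, e ⟨t, hmem⟩ * g = g * e ⟨t, hmem⟩ := by
    intro g
    apply phi_inj e
    rw [map_mul, map_mul, phi_e]
    exact (phi_comm e g).symm
  have h5 := (table (e ⟨t, hmem⟩)).2.2.2.2.1 (hcomm _) (hcomm _)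
  rcases h5 with h | h
  · exfalso
    have h1 := phi_e e ⟨t, hmem⟩
    rw [h, map_one] at h1
    have ht1 : t = 1 := h1.symm
    rw [ht1, orderOf_one] at ht
    norm_num at ht
  · rw [← h, phi_e]

section

variable (ht : orderOf t = 2)
include ht

lemma phi_w4 : phi e w₀ ^ 4 = t := by
  rw [← map_pow, w4, phi_c e ht]

lemma phi_z3 : phi e z₀ ^ 3 = t := by
  rw [← map_pow, z3, phi_c e ht]

/-- Elements commuting with `y` come from powers of `w₀`. -/
lemma exists_pow_of_comm_y {c : G} (hc : c * phi e w₀ ^ 2 = phi e w₀ ^ 2 * c) :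
    ∃ k : Fin 8, c = phi e (w₀ ^ k.val) := by
  have h1 : Commute c (phi e w₀ ^ 2) := hc
  have h2 : Commute c t := by
    have := h1.pow_right 2
    rwa [← pow_mul, phi_w4 e ht] at this
  obtain ⟨g, rfl⟩ := exists_phi e h2.eq
  have h3 : g * w₀ ^ 2 = w₀ ^ 2 * g := by
    apply phi_inj e
    rw [map_mul, map_mul, map_pow]
    exact hc
  obtain ⟨k, hk⟩ := (table g).1 h3
  exact ⟨k, by rw [hk]⟩

lemma centralizer_y : centralizer ({phi e w₀ ^ 2} : Set G) = zpowers (phi e w₀) := by
  ext c
  rw [mem_centralizer_singleton_iff]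
  constructor
  · intro hc
    obtain ⟨k, hk⟩ := exists_pow_of_comm_y e ht hc
    rw [hk, map_pow]
    exact pow_mem (mem_zpowers _) _
  · intro hc
    obtain ⟨n, rfl⟩ := mem_zpowers_iff.1 hc
    exact ((Commute.refl (phi e w₀)).pow_right 2 |>.zpow_left n).eq

lemma centralizer_w : centralizer ({phi e w₀} : Set G) = zpowers (phi e w₀) := by
  ext c
  rw [mem_centralizer_singleton_iff]
  constructor
  · intro hc
    have h1 : Commute c (phi e w₀) := hc
    rw [← centralizer_y e ht, mem_centralizer_singleton_iff]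
    exact (h1.pow_right 2).eq
  · intro hc
    obtain ⟨n, rfl⟩ := mem_zpowers_iff.1 hc
    exact ((Commute.refl (phi e w₀)).zpow_left n).eq

lemma centralizer_z : centralizer ({phi e z₀} : Set G) = zpowers (phi e z₀) := by
  ext c
  rw [mem_centralizer_singleton_iff]
  constructor
  · intro hc
    have h1 : Commute c (phi e z₀) := hc
    have h2 : Commute c t := by
      have := h1.pow_right 3
      rwa [phi_z3 e ht] at this
    obtain ⟨g, rfl⟩ := exists_phi e h2.eq
    have h3 : g * z₀ = z₀ * g := by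
      apply phi_inj e
      rw [map_mul, map_mul]
      exact hc
    obtain ⟨k, hk⟩ := (table g).2.1 h3
    rw [hk, map_pow]
    exact pow_mem (mem_zpowers _) _
  · intro hc
    obtain ⟨n, rfl⟩ := mem_zpowers_iff.1 hc
    exact ((Commute.refl (phi e z₀)).zpow_left n).eq

omit ht in
lemma orderOf_w : orderOf (phi e w₀) = 8 := by
  rw [orderOf_injective _ (phi_inj e)]
  haveI : Fact (Nat.Prime 2) := ⟨Nat.prime_two⟩
  have := orderOf_eq_prime_pow (x := w₀) (p := 2) (n := 2)
    (by norm_num; rw [w4]; exact c1) (by norm_num; exact w8)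
  simpa using this

omit ht in
lemma orderOf_y : orderOf (phi e w₀ ^ 2) = 4 := by
  rw [orderOf_pow' _ (by norm_num), orderOf_w]
  norm_num

omit ht in
lemma orderOf_z : orderOf (phi e z₀) = 6 := by
  rw [orderOf_injective _ (phi_inj e)]
  refine orderOf_eq_of_pow_and_pow_div_prime (by norm_num) z6 ?_
  intro p hp hd
  have hp2 : p = 2 ∨ p = 3 := by
    have h6 : p ∣ 2 * 3 := hd
    rcases (Nat.Prime.dvd_mul hp).1 h6 with h | h
    · exact Or.inl ((Nat.prime_dvd_prime_iff_eq hp Nat.prime_two).1 h)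
    · exact Or.inr ((Nat.prime_dvd_prime_iff_eq hp Nat.prime_three).1 h)
  rcases hp2 with rfl | rfl
  · norm_num
    rw [z3]
    exact c1
  · norm_num
    exact z2ne

lemma not_conj_w : ¬ IsConj (phi e w₀) (phi e w₀)⁻¹ := by
  intro hc
  obtain ⟨c, hc⟩ := isConj_iff.1 hc
  have ht1 : t⁻¹ = t := by
    rw [inv_eq_iff_mul_eq_one, ← pow_two, ← ht]
    exact pow_orderOf_eq_one t
  have h1 : c * t * c⁻¹ = t := by
    rw [← phi_w4 e ht, ← conj_pow, hc, inv_pow, phi_w4 e ht, ht1]
  have h2 : c * t = t * c := by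
    calc c * t = c * t * c⁻¹ * c := by group
      _ = t * c := by rw [h1]
  obtain ⟨g, rfl⟩ := exists_phi e h2
  apply (table g).2.2.1
  apply phi_inj e
  rw [map_mul, map_mul, map_inv]
  calc phi e g * phi e w₀ = phi e g * phi e w₀ * (phi e g)⁻¹ * phi e g := by group
    _ = (phi e w₀)⁻¹ * phi e g := by rw [hc]

end

/-- Products of two conjugates of an involution invert. -/
lemma inverts_of_prod {t a b y : G} (ht2 : t ^ 2 = 1) (h : a * t * a⁻¹ * (b * t * b⁻¹) = y) :
    (a * t * a⁻¹) * y * (a * t * a⁻¹)⁻¹ = y⁻¹ := by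
  have hinv : t⁻¹ = t := by
    rw [inv_eq_iff_mul_eq_one, ← pow_two, ht2]
  have h1 : (a * t * a⁻¹)⁻¹ = a * t * a⁻¹ := by
    simp only [mul_inv_rev, inv_inv, hinv, mul_assoc]
  have h2 : (b * t * b⁻¹)⁻¹ = b * t * b⁻¹ := by
    simp only [mul_inv_rev, inv_inv, hinv, mul_assoc]
  have key : ∀ u v : G, u⁻¹ = u → v⁻¹ = v → u * (u * v) * u⁻¹ = (u * v)⁻¹ := by
    intro u v hu hv
    have huu : u * u = 1 := by
      nth_rw 1 [← hu]
      exact inv_mul_cancel u
    rw [mul_inv_rev, hu, hv]
    calc u * (u * v) * u = (u * u) * v * u := by group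
      _ = v * u := by rw [huu, one_mul]
  rw [← h]
  exact key _ _ h1 h2

lemma t_sq (ht : orderOf t = 2) : t ^ 2 = 1 := by
  rw [← ht]
  exact pow_orderOf_eq_one t

section main

variable [Finite G] (ht : orderOf t = 2)
include ht e

/-- A Sylow `2`-subgroup containing `w` centralizes `t`. -/
lemma sylow_le_centralizer (P : Sylow 2 G) (hw : phi e w₀ ∈ P) :
    (P : Subgroup G) ≤ centralizer ({t} : Set G) := by
  haveI : Fact (Nat.Prime 2) := ⟨Nat.prime_two⟩
  have hP : IsPGroup 2 (P : Subgroup G) := P.isPGroup'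
  have hw1 : phi e w₀ ≠ 1 := by
    intro h
    have := orderOf_w e
    rw [h, orderOf_one] at this
    norm_num at this
  haveI : Nontrivial (P : Subgroup G) :=
    ⟨⟨⟨phi e w₀, hw⟩, 1, fun h => hw1 (congrArg Subtype.val h)⟩⟩
  haveI := hP.center_nontrivial
  obtain ⟨ζ, hζ⟩ := exists_ne (1 : center (P : Subgroup G))
  have hζ1 : ((ζ : (P : Subgroup G)) : G) ≠ 1 := by
    intro h
    apply hζ
    exact Subtype.ext (Subtype.ext h)
  have hcomm : ∀ y : (P : Subgroup G), (y : G) * (ζ : (P : Subgroup G)) = (ζ : (P : Subgroup G)) * y := by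
    intro y
    have := (mem_center_iff.1 ζ.2) y
    exact congrArg Subtype.val this
  have hζw : Commute (((ζ : (P : Subgroup G)) : G)) (phi e w₀) := (hcomm ⟨_, hw⟩).symm
  obtain ⟨k, hk⟩ := exists_pow_of_comm_y e ht (hζw.pow_right 2).eq
  have hk0 : k ≠ 0 := by
    rintro rfl
    apply hζ1
    rw [hk]
    simp
  obtain ⟨m, hm⟩ := pow_c k hk0
  have htζ : t = ((ζ : (P : Subgroup G)) : G) ^ m.val := by
    rw [hk, ← map_pow, hm, phi_c e ht]
  intro y hy
  rw [mem_centralizer_singleton_iff, htζ]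
  have : Commute (y : G) ((ζ : (P : Subgroup G)) : G) := hcomm ⟨y, hy⟩
  exact (this.pow_right _).eq

/-- All involutions of `G` are conjugate. -/
theorem all_conj [IsSimpleGroup G] {x : G} (hx : x ^ 2 = 1) (hx1 : x ≠ 1) : IsConj x t := by
  classical
  by_contra hc
  haveI : Fact (Nat.Prime 2) := ⟨Nat.prime_two⟩
  have hwp : IsPGroup 2 (zpowers (phi e w₀)) :=
    IsPGroup.of_card (n := 3) (by rw [Nat.card_zpowers, orderOf_w]; norm_num)
  obtain ⟨P, hP⟩ := hwp.exists_le_sylow
  have hwP : phi e w₀ ∈ P := hP (mem_zpowers _)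
  have hPC := sylow_le_centralizer e ht P hwP
  let ψ : (P : Subgroup G) →* (ZMod 3)ˣ :=
    (Matrix.GeneralLinearGroup.det).comp (e.toMonoidHom.comp (inclusion hPC))
  have hψw : ψ ⟨phi e w₀, hwP⟩ ≠ 1 := by
    intro h
    have h1 : e ((inclusion hPC) ⟨phi e w₀, hwP⟩) = w₀ := by
      apply phi_inj e
      rw [phi_e]
      rfl
    have h2 : Matrix.GeneralLinearGroup.det w₀ = 1 := by
      rw [← h1]
      exact h
    apply det_w
    have h3 := congrArg Units.val h2
    rw [Matrix.GeneralLinearGroup.val_det_apply, Matrix.det_fin_two] at h3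
    exact h3
  have hrange : ψ.range = ⊤ := by
    have hcard : Nat.card (ZMod 3)ˣ = 2 := by
      rw [Nat.card_eq_fintype_card, ZMod.card_units_eq_totient]
      rfl
    haveI : Fact (Nat.card (ZMod 3)ˣ).Prime := ⟨by rw [hcard]; exact Nat.prime_two⟩
    rcases eq_bot_or_eq_top_of_prime_card ψ.range with h | h
    · exfalso
      apply hψw
      have : ψ ⟨phi e w₀, hwP⟩ ∈ ψ.range := ⟨_, rfl⟩
      rw [h] at this
      exact this
    · exact h
  have hindex : ψ.ker.index = 2 := by
    rw [index_ker, hrange, Nat.card_congr topEquiv.toEquiv, Nat.card_eq_fintype_card,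
      ZMod.card_units_eq_totient]
    rfl
  let M : Subgroup G := ψ.ker.map (P : Subgroup G).subtype
  have hM : M.relIndex (P : Subgroup G) = 2 := by
    have h1 : M.subgroupOf (P : Subgroup G) = ψ.ker :=
      comap_map_eq_self_of_injective (subtype_injective _) _
    rw [relIndex, h1, hindex]
  have hodd : Odd (P : Subgroup G).index := by
    have := P.not_dvd_index
    exact Nat.odd_iff.2 (by omega)
  have h1' : ∀ g : G, g⁻¹ * x * g ∈ (P : Subgroup G) → g⁻¹ * x * g ∉ M := by
    intro g hg hgM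
    obtain ⟨y, hy, hye⟩ := hgM
    have hyC : (y : G) * t = t * (y : G) := mem_centralizer_singleton_iff.1 (hPC y.2)
    obtain ⟨g', hg'⟩ := exists_phi e hyC
    have hyv : (y : G) = g⁻¹ * x * g := hye
    have hsq : (y : G) ^ 2 = 1 := by
      rw [hyv, show (g⁻¹ * x * g) = g⁻¹ * x * g⁻¹⁻¹ by group, conj_pow, hx]
      group
    have hg'sq : g' ^ 2 = 1 := by
      apply phi_inj e
      rw [map_pow, hg', hsq, map_one]
    have hdet : g'.1 0 0 * g'.1 1 1 - g'.1 0 1 * g'.1 1 0 = 1 := by
      have h1 : ψ y = 1 := hy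
      have h2 : e ((inclusion hPC) y) = g' := by
        apply phi_inj e
        rw [phi_e, hg']
        rfl
      have h3 : Matrix.GeneralLinearGroup.det g' = 1 := by
        rw [← h2]
        exact h1
      have h4 := congrArg Units.val h3
      rw [Matrix.GeneralLinearGroup.val_det_apply, Matrix.det_fin_two] at h4
      exact h4
    rcases (table g').2.2.2.1 hg'sq hdet with h | h
    · apply hx1
      rw [h, map_one] at hg'
      have h5 : g⁻¹ * x * g = 1 := by rw [← hyv, ← hg']
      calc x = g * (g⁻¹ * x * g) * g⁻¹ := by group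
        _ = 1 := by rw [h5]; group
    · apply hc
      rw [h, phi_c e ht] at hg'
      refine isConj_iff.2 ⟨g⁻¹, ?_⟩
      rw [inv_inv, hg', hyv]
  have h2' : ∀ (k : ℕ), 2 ≤ k → k ∣ 2 ^ 1 → ∀ g : G, g⁻¹ * x ^ k * g ∈ (P : Subgroup G) →
      g⁻¹ * x ^ k * g ∈ M := by
    intro k hk hk2 g _
    have hk' : k = 2 := by
      have := Nat.le_of_dvd (by norm_num) hk2
      omega
    rw [hk', hx]
    simp only [mul_one, inv_mul_cancel]
    exact one_mem _
  obtain ⟨N, hNn, hN2, -⟩ := Cfsg.Agent.Lib.Transfer.IndexTwo.exists_normal_index_two_of_relIndex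
    (P : Subgroup G) hodd M hM x 1 (by simpa using hx) h1' h2'
  rcases hNn.eq_bot_or_eq_top with h | h
  · rw [h, index_bot] at hN2
    have h1 : Nat.card (zpowers (phi e w₀)) ≤ Nat.card G := Subgroup.card_le_card_group _
    rw [Nat.card_zpowers, orderOf_w] at h1
    omega
  · rw [h, index_top] at hN2
    omega

end main

/-- Counting conjugators. -/
lemma card_conjugators {t u : G} [Fintype G] [DecidableEq G] (hc : IsConj t u) :
    (Finset.univ.filter fun a : G => a * t * a⁻¹ = u).card =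
      Nat.card (centralizer ({t} : Set G)) := by
  obtain ⟨k₀, hk₀⟩ := isConj_iff.1 hc
  rw [← Fintype.card_subtype, ← Nat.card_eq_fintype_card]
  refine Nat.card_congr
    { toFun := fun k => ⟨k₀⁻¹ * k.1, ?_⟩
      invFun := fun c => ⟨k₀ * c.1, ?_⟩
      left_inv := fun k => by simp
      right_inv := fun c => by simp }
  · rw [mem_centralizer_singleton_iff]
    have hk := k.2
    have h2 : k.1 * t * k.1⁻¹ = k₀ * t * k₀⁻¹ := by rw [hk, hk₀]
    have h3 : (k₀⁻¹ * k.1) * t * (k₀⁻¹ * k.1)⁻¹ = t := by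
      calc (k₀⁻¹ * k.1) * t * (k₀⁻¹ * k.1)⁻¹ = k₀⁻¹ * (k.1 * t * k.1⁻¹) * k₀ := by group
        _ = t := by rw [h2]; group
    calc (k₀⁻¹ * k.1) * t = (k₀⁻¹ * k.1) * t * (k₀⁻¹ * k.1)⁻¹ * (k₀⁻¹ * k.1) := by group
      _ = t * (k₀⁻¹ * k.1) := by rw [h3]
  · have hcm := c.2
    rw [mem_centralizer_singleton_iff] at hcm
    show (k₀ * c.1) * t * (k₀ * c.1)⁻¹ = u
    rw [← hk₀]
    calc (k₀ * c.1) * t * (k₀ * c.1)⁻¹ = k₀ * (c.1 * t) * c.1⁻¹ * k₀⁻¹ := by group
      _ = k₀ * (t * c.1) * c.1⁻¹ * k₀⁻¹ := by rw [hcm]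
      _ = k₀ * t * k₀⁻¹ := by group

lemma card_GL0 : Nat.card GL0 = 48 := by
  rw [Matrix.card_GL_field, ZMod.card]
  simp [Fin.prod_univ_two]

section count

variable [Finite G] [IsSimpleGroup G] (ht : orderOf t = 2)
include ht e

lemma card_C : Nat.card (centralizer ({t} : Set G)) = 48 := by
  rw [Nat.card_congr e.toEquiv, card_GL0]

/-- The number of pairs of conjugates of `t` with product `y`. -/
theorem card_Ry : Nat.card {a : G × G // a.1 * t * a.1⁻¹ * (a.2 * t * a.2⁻¹) = phi e w₀ ^ 2} = 9216 := by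
  classical
  haveI := Fintype.ofFinite G
  set y := phi e w₀ ^ 2 with hy
  have hy2 : y ^ 2 = t := by
    rw [hy, ← pow_mul]
    exact phi_w4 e ht
  have htinv : t⁻¹ = t := by
    rw [inv_eq_iff_mul_eq_one, ← pow_two, t_sq ht]
  let U' : Finset G := {phi e u₁, phi e u₂, phi e u₃, phi e u₄}
  have hU : ∀ u ∈ U', u ^ 2 = 1 ∧ u ≠ 1 ∧ (u⁻¹ * y) ^ 2 = 1 ∧ u⁻¹ * y ≠ 1 := by
    have key : ∀ v ∈ [u₁, u₂, u₃, u₄], phi e v ^ 2 = 1 ∧ phi e v ≠ 1 ∧
        ((phi e v)⁻¹ * y) ^ 2 = 1 ∧ (phi e v)⁻¹ * y ≠ 1 := by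
      intro v hv
      obtain ⟨h1, h2, -, h4, h5⟩ := U_data v hv
      refine ⟨by rw [← map_pow, h1, map_one], ?_, ?_, ?_⟩
      · intro h
        exact h2 (phi_inj e (by rw [h, map_one]))
      · rw [hy, ← map_pow, ← map_inv, ← map_mul, ← map_pow, h4, map_one]
      · rw [hy, ← map_pow, ← map_inv, ← map_mul]
        intro h
        exact h5 (phi_inj e (by rw [h, map_one]))
    intro u hu
    simp only [U', Finset.mem_insert, Finset.mem_singleton] at hu
    rcases hu with rfl | rfl | rfl | rfl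
    · exact key _ (by simp)
    · exact key _ (by simp)
    · exact key _ (by simp)
    · exact key _ (by simp)
  have hUcard : U'.card = 4 := by
    obtain ⟨n12, n13, n14, n23, n24, n34⟩ := U_ne
    have m1 := (phi_inj e).ne n12
    have m2 := (phi_inj e).ne n13
    have m3 := (phi_inj e).ne n14
    have m4 := (phi_inj e).ne n23
    have m5 := (phi_inj e).ne n24
    have m6 := (phi_inj e).ne n34
    simp only [U']
    rw [Finset.card_insert_of_notMem (by simp [m1, m2, m3]),
      Finset.card_insert_of_notMem (by simp [m4, m5]),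
      Finset.card_insert_of_notMem (by simp [m6]), Finset.card_singleton]
  rw [Nat.card_eq_fintype_card, Fintype.card_subtype]
  have hmaps : Set.MapsTo (fun a : G × G => a.1 * t * a.1⁻¹)
      (Finset.univ.filter fun a : G × G => a.1 * t * a.1⁻¹ * (a.2 * t * a.2⁻¹) = y : Finset (G × G))
      (U' : Set G) := by
    intro a ha
    simp only [Finset.coe_filter, Finset.mem_univ, true_and, Set.mem_ofPred_eq] at ha
    have h1 := inverts_of_prod (t_sq ht) ha
    set u := a.1 * t * a.1⁻¹ with hu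
    have hcomm : u * t = t * u := by
      have h2 : u * t * u⁻¹ = t := by
        rw [← hy2, ← conj_pow, h1, inv_pow, hy2, htinv]
      calc u * t = u * t * u⁻¹ * u := by group
        _ = t * u := by rw [h2]
    obtain ⟨g, hg⟩ := exists_phi e hcomm
    have husq : u ^ 2 = 1 := by
      rw [hu, conj_pow, t_sq ht]
      group
    have huinv : u⁻¹ = u := by
      rw [inv_eq_iff_mul_eq_one, ← pow_two, husq]
    have hgsq : g ^ 2 = 1 := by
      apply phi_inj e
      rw [map_pow, hg, husq, map_one]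
    have hginv : g * w₀ ^ 2 * g = (w₀ ^ 2)⁻¹ := by
      apply phi_inj e
      rw [map_mul, map_mul, map_inv, map_pow, hg]
      rw [huinv] at h1
      exact h1
    have hmem : u ∈ U' := by
      rw [← hg]
      rcases (table g).2.2.2.2.2 hgsq hginv with rfl | rfl | rfl | rfl <;> simp [U']
    exact hmem
  rw [Finset.card_eq_sum_card_fiberwise hmaps]
  have hfib : ∀ u ∈ U', ((Finset.univ.filter fun a : G × G =>
      a.1 * t * a.1⁻¹ * (a.2 * t * a.2⁻¹) = y).filter fun a => a.1 * t * a.1⁻¹ = u).card = 2304 := by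
    intro u hu
    obtain ⟨h1, h2, h3, h4⟩ := hU u hu
    have c1 : IsConj t u := (all_conj e ht h1 h2).symm
    have c2 : IsConj t (u⁻¹ * y) := (all_conj e ht h3 h4).symm
    have hfiber : ((Finset.univ.filter fun a : G × G =>
        a.1 * t * a.1⁻¹ * (a.2 * t * a.2⁻¹) = y).filter fun a => a.1 * t * a.1⁻¹ = u) =
        (Finset.univ.filter fun a : G => a * t * a⁻¹ = u) ×ˢ
          (Finset.univ.filter fun a : G => a * t * a⁻¹ = u⁻¹ * y) := by
      ext ⟨a, b⟩
      simp only [Finset.mem_filter, Finset.mem_univ, true_and, Finset.mem_product]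
      constructor
      · rintro ⟨h5, h6⟩
        refine ⟨h6, ?_⟩
        rw [← h5, h6]
        group
      · rintro ⟨h5, h6⟩
        refine ⟨?_, h5⟩
        rw [h5, h6]
        group
    rw [hfiber, Finset.card_product, card_conjugators c1, card_conjugators c2, card_C e ht]
  rw [Finset.sum_congr rfl hfib, Finset.sum_const, hUcard]
  norm_num

omit ht in
/-- `G` has no nontrivial linear character. -/
theorem perf_main {χ : G → ℂ} (hχ : IsIrrCharacter G χ) (h1 : χ 1 = 1) : χ = fun _ => 1 := by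
  have hχ' : IsCharacter G χ := by
    obtain ⟨n, ρ, -, h⟩ := hχ
    exact ⟨n, ρ, h⟩
  obtain ⟨ψ, rfl⟩ := Cfsg.Agent.Lib.Char.LinearChars.exists_hom_of_isCharacter_one hχ' h1
  rcases (MonoidHom.normal_ker ψ).eq_bot_or_eq_top with h | h
  · exfalso
    have hinj : Function.Injective ψ := (MonoidHom.ker_eq_bot_iff ψ).1 h
    apply wx
    apply phi_inj e
    apply hinj
    rw [map_mul, map_mul, map_mul, map_mul, mul_comm]
  · funext g
    have : g ∈ ψ.ker := by rw [h]; exact mem_top g
    have h2 : ψ g = 1 := this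
    rw [h2]
    simp

/-- **The theorem.** -/
theorem main : Nat.card G = 5616 ∨ Nat.card G = 7920 := by
  have nc := not_conj_w e ht
  refine setup_main (t := t) (w := phi e w₀) (z := phi e z₀)
    { w4 := phi_w4 e ht
      z3 := phi_z3 e ht
      ot := ht
      oy := orderOf_y e
      ow := orderOf_w e
      oz := orderOf_z e
      conj_w := isConj_iff.2 ⟨phi e u₂, by rw [← map_inv, ← map_mul, ← map_mul, conj_w, map_pow]⟩
      conj_z := isConj_iff.2 ⟨phi e u₂, by rw [← map_inv, ← map_mul, ← map_mul, conj_z, map_pow]⟩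
      nc := nc
      card_t := card_C e ht
      card_y := by rw [centralizer_y e ht, Nat.card_zpowers, orderOf_w e]
      card_w := by rw [centralizer_w e ht, Nat.card_zpowers, orderOf_w e]
      card_z := by rw [centralizer_z e ht, Nat.card_zpowers, orderOf_z e]
      Rw := fun a b h => nc (isConj_iff.2 ⟨_, inverts_of_prod (t_sq ht) h⟩)
      Rwi := fun a b h => nc (IsConj.symm (isConj_iff.2 ⟨a * t * a⁻¹, by
        have := inverts_of_prod (t_sq ht) h
        rwa [inv_inv] at this⟩))
      Ry := card_Ry e ht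
      perf := fun χ hχ h1 => perf_main e hχ h1 }

end count

end Cfsg.Agent.Lib.Gross.GL23Group
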