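import Mathlib
import Cfsg.Prelude.Def_CaseTheorems
import Cfsg.Agent.Lib.Basic.PCore
import Cfsg.Agent.Lib.Coprime.Coset
import Cfsg.Agent.Lib.Components.Fitting
import Cfsg.Agent.Lib.PGroup.CyclicMax2
import Cfsg.Agent.Lib.Solvable.PSeries

/-!
# Groups in which distinct Sylow `2`-subgroups meet in cyclic groups

If `O(G) = 1`, `G` is not solvable and any two distinct Sylow `2`-subgroups of `G` meet in a cyclic
group, then every normal `2`-subgroup is cyclic and central.  The proof counts the Sylow `2`-subgroups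
fixed by a suitable subgroup of odd order: an involution acts on them without fixed points, while a
`2`-element not centralizing the normal `2`-subgroup has exactly one fixed point.
-/

set_option autoImplicit false

namespace Cfsg.Agent.Lib.Gross.CycInt

open Subgroup
open scoped Pointwise

universe u

variable {G : Type u} [Group G]

instance fact_two' : Fact (Nat.Prime 2) := ⟨Nat.prime_two⟩

section basics

variable [Finite G]

/-- `x` has `2`-power order. -/
def Two (x : G) : Prop := ∃ k : ℕ, x ^ 2 ^ k = 1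

theorem Two.isPGroup {x : G} (h : Two x) : IsPGroup 2 (zpowers x) := by
  rw [IsPGroup.iff_orderOf]
  rintro ⟨y, hy⟩
  obtain ⟨k, hk⟩ := h
  obtain ⟨n, rfl⟩ := Subgroup.mem_zpowers_iff.mp hy
  have h1 : (x ^ n) ^ 2 ^ k = 1 := by
    rw [← zpow_natCast, ← zpow_mul, mul_comm, zpow_mul, zpow_natCast, hk, one_zpow]
  obtain ⟨m, -, hm⟩ := (Nat.dvd_prime_pow Nat.prime_two).mp (orderOf_dvd_of_pow_eq_one h1)
  exact ⟨m, by rw [Subgroup.orderOf_mk]; exact hm⟩

theorem two_of_mem {S : Sylow 2 G} {x : G} (hx : x ∈ S) : Two x := by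
  obtain ⟨k, hk⟩ := (IsPGroup.iff_orderOf.mp S.isPGroup') ⟨x, hx⟩
  refine ⟨k, ?_⟩
  have h : orderOf x = 2 ^ k := by simpa using hk
  rw [← h]
  exact pow_orderOf_eq_one x

theorem Two.exists_sylow {x : G} (h : Two x) : ∃ S : Sylow 2 G, x ∈ S := by
  obtain ⟨S, hS⟩ := h.isPGroup.exists_le_sylow
  exact ⟨S, hS (mem_zpowers x)⟩

theorem Two.inv {x : G} (h : Two x) : Two x⁻¹ := by
  obtain ⟨k, hk⟩ := h
  exact ⟨k, by rw [inv_pow, hk, inv_one]⟩

theorem Two.pow {x : G} (h : Two x) (n : ℕ) : Two (x ^ n) := by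
  obtain ⟨k, hk⟩ := h
  exact ⟨k, by rw [← pow_mul, mul_comm, pow_mul, hk, one_pow]⟩

theorem Two.conj {x : G} (h : Two x) (g : G) : Two (g * x * g⁻¹) := by
  obtain ⟨k, hk⟩ := h
  exact ⟨k, by rw [conj_pow, hk]; group⟩

/-- An element of `2`-power order normalizing a Sylow `2`-subgroup lies in it. -/
theorem mem_of_mem_normalizer {S : Sylow 2 G} {x : G} (hx : Two x)
    (hn : x ∈ Subgroup.normalizer ((S : Subgroup G) : Set G)) : x ∈ S := by
  have hle : zpowers x ≤ Subgroup.normalizer ((S : Subgroup G) : Set G) := by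
    rwa [Subgroup.zpowers_le]
  have hp : IsPGroup 2 ((zpowers x ⊔ (S : Subgroup G) : Subgroup G)) :=
    hx.isPGroup.to_sup_of_normal_right' S.isPGroup' hle
  have h2 : zpowers x ⊔ (S : Subgroup G) = (S : Subgroup G) := S.is_maximal' hp le_sup_right
  have h3 : x ∈ zpowers x ⊔ (S : Subgroup G) := (le_sup_left : zpowers x ≤ _) (mem_zpowers x)
  rwa [h2] at h3

theorem mem_smul {g x : G} {S : Sylow 2 G} : x ∈ (g • S) ↔ g⁻¹ * x * g ∈ S := by
  show x ∈ ((g • S : Sylow 2 G) : Subgroup G) ↔ _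
  rw [Sylow.coe_subgroup_smul, Subgroup.mem_pointwise_smul_iff_inv_smul_mem]
  simp [MulAut.smul_def]
  exact Iff.rfl

theorem conj_mem_smul {g x : G} {S : Sylow 2 G} (hx : x ∈ S) : g * x * g⁻¹ ∈ (g • S) := by
  rw [mem_smul]; simpa [mul_assoc] using hx

/-- In a cyclic subgroup `H`, an element killed by the order of `x ∈ H` lies in `⟨x⟩`. -/
theorem mem_zpowers_of_cyclic {H : Subgroup G} (hH : IsCyclic H) {x y : G} (hx : x ∈ H) (hy : y ∈ H)
    (h : y ^ orderOf x = 1) : y ∈ zpowers x := by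
  classical
  haveI : Fintype H := Fintype.ofFinite H
  set x' : H := ⟨x, hx⟩ with hx'
  set y' : H := ⟨y, hy⟩ with hy'
  have hox : orderOf x' = orderOf x := Subgroup.orderOf_mk x hx
  have hn : 0 < orderOf x := orderOf_pos x
  have hle := IsCyclic.card_pow_eq_one_le (α := H) hn
  set A : Finset H := Finset.univ.filter (fun a : H => a ^ orderOf x = 1) with hA
  have hB : (Finset.univ.filter (fun a : H => a ∈ zpowers x')) ⊆ A := by
    intro a ha
    simp only [Finset.mem_filter, Finset.mem_univ, true_and] at ha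
    simp only [hA, Finset.mem_filter, Finset.mem_univ, true_and]
    obtain ⟨n, rfl⟩ := Subgroup.mem_zpowers_iff.mp ha
    rw [← zpow_natCast, ← zpow_mul, mul_comm, zpow_mul, zpow_natCast, ← hox, pow_orderOf_eq_one,
      one_zpow]
  have hBc : (Finset.univ.filter (fun a : H => a ∈ zpowers x')).card = orderOf x := by
    rw [← hox, ← Nat.card_zpowers x']
    rw [Nat.card_eq_fintype_card, Fintype.card_subtype]
  have heq := Finset.eq_of_subset_of_card_le hB (by rw [hBc]; exact hle)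
  have hyA : y' ∈ A := by
    simp only [hA, Finset.mem_filter, Finset.mem_univ, true_and]
    exact Subtype.ext (by simpa using h)
  rw [← heq] at hyA
  simp only [Finset.mem_filter, Finset.mem_univ, true_and] at hyA
  obtain ⟨n, hn⟩ := Subgroup.mem_zpowers_iff.mp hyA
  refine Subgroup.mem_zpowers_iff.mpr ⟨n, ?_⟩
  have := congrArg Subtype.val hn
  simpa [hx', hy'] using this

/-- Every element has a "two part". -/
theorem exists_twoPart (z : G) : ∃ (m : ℕ), Odd m ∧ Two (z ^ m) ∧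
    ((z ^ m) ^ 2 = 1 → Odd (orderOf z) ∨ z ^ m ≠ 1) := by
  obtain ⟨k, m, hm, hk⟩ := Nat.exists_eq_two_pow_mul_odd (orderOf_pos z).ne'
  refine ⟨m, hm, ⟨k, ?_⟩, fun _ => ?_⟩
  · rw [← pow_mul, mul_comm, ← hk, pow_orderOf_eq_one]
  · by_cases h : z ^ m = 1
    · left
      exact Odd.of_dvd_nat hm (orderOf_dvd_of_pow_eq_one h)
    · exact Or.inr h

end basics

/-! ### The configuration -/

section cfg

variable [Finite G]

/-- The configuration: `V` a normal `2`-subgroup, `c ∈ V` of order `4`, distinct Sylow `2`-subgroups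
meet in cyclic groups and there are at least two of them. -/
structure Cfg (V : Subgroup G) (c : G) : Prop where
  nV : V.Normal
  pV : IsPGroup 2 V
  hC : ∀ S T : Sylow 2 G, S ≠ T → IsCyclic ↥((S : Subgroup G) ⊓ (T : Subgroup G))
  cV : c ∈ V
  ord : orderOf c = 4
  ne : ∃ S T : Sylow 2 G, S ≠ T

namespace Cfg

variable {V : Subgroup G} {c : G} (h : Cfg V c)
include h

theorem le_sylow (S : Sylow 2 G) : V ≤ S :=
  (Cfsg.Agent.Lib.Basic.PCore.le_pCore h.nV h.pV).trans (Cfsg.Agent.Lib.Basic.PCore.pCore_le_sylow S)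

theorem v_ne_one : c ^ 2 ≠ 1 := by
  intro e
  have := orderOf_dvd_of_pow_eq_one e
  rw [h.ord] at this
  omega

theorem v_sq : (c ^ 2) ^ 2 = 1 := by
  rw [← pow_mul, show 2 * 2 = 4 by norm_num, ← h.ord, pow_orderOf_eq_one]

theorem orderOf_v : orderOf (c ^ 2) = 2 := orderOf_eq_prime h.v_sq h.v_ne_one

theorem vV : c ^ 2 ∈ V := V.pow_mem h.cV 2

theorem v_mem (S : Sylow 2 G) : c ^ 2 ∈ S := h.le_sylow S h.vV

theorem c_mem (S : Sylow 2 G) : c ∈ S := h.le_sylow S h.cV

theorem V_le_inter {S T : Sylow 2 G} : V ≤ (S : Subgroup G) ⊓ (T : Subgroup G) :=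
  le_inf (h.le_sylow S) (h.le_sylow T)

theorem V_cyclic : IsCyclic V := by
  obtain ⟨S, T, hST⟩ := h.ne
  haveI := h.hC S T hST
  exact isCyclic_of_injective (Subgroup.inclusion (h.V_le_inter (S := S) (T := T)))
    (Subgroup.inclusion_injective _)

/-- Elements of `R = S ∩ T` with square one are `1` or `v`. -/
theorem eq_of_sq_inter {S T : Sylow 2 G} (hST : S ≠ T) {y : G} (hyS : y ∈ S) (hyT : y ∈ T)
    (hy : y ^ 2 = 1) : y = 1 ∨ y = c ^ 2 := by
  have hm : y ∈ zpowers (c ^ 2) := by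
    refine mem_zpowers_of_cyclic (h.hC S T hST) ⟨h.v_mem S, h.v_mem T⟩ ⟨hyS, hyT⟩ ?_
    rw [h.orderOf_v, hy]
  obtain ⟨n, rfl⟩ := Subgroup.mem_zpowers_iff.mp hm
  rcases Int.emod_two_eq_zero_or_one n with h0 | h1
  · left
    obtain ⟨k, rfl⟩ : (2 : ℤ) ∣ n := Int.dvd_of_emod_eq_zero h0
    rw [zpow_mul]
    have : ((c ^ 2) ^ (2 : ℤ)) = 1 := by
      rw [zpow_two, ← pow_two]; exact h.v_sq
    rw [this, one_zpow]
  · right
    have : n = 2 * (n / 2) + 1 := by omega
    rw [this, zpow_add, zpow_mul]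
    have h2 : ((c ^ 2) ^ (2 : ℤ)) = 1 := by
      rw [zpow_two, ← pow_two]; exact h.v_sq
    rw [h2, one_zpow, one_mul, zpow_one]

/-- `v` is central. -/
theorem v_central (g : G) : g * c ^ 2 * g⁻¹ = c ^ 2 := by
  obtain ⟨S, T, hST⟩ := h.ne
  haveI := h.nV
  have hm : g * c ^ 2 * g⁻¹ ∈ V := h.nV.conj_mem _ h.vV g
  have hS := h.le_sylow S hm
  have hT := h.le_sylow T hm
  rcases h.eq_of_sq_inter hST hS hT (by rw [conj_pow, h.v_sq]; group) with h1 | h1
  · exfalso
    apply h.v_ne_one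
    have : c ^ 2 = g⁻¹ * (g * c ^ 2 * g⁻¹) * g := by group
    rw [this, h1]; group
  · exact h1

theorem v_comm (g : G) : g * c ^ 2 = c ^ 2 * g := by
  have := h.v_central g
  calc g * c ^ 2 = (g * c ^ 2 * g⁻¹) * g := by group
    _ = c ^ 2 * g := by rw [this]

/-- The centralizer of `V`. -/
abbrev C (_h : Cfg V c) : Subgroup G := Subgroup.centralizer (V : Set G)

theorem comm_of_inter {S T : Sylow 2 G} (hST : S ≠ T) {x y : G} (hxS : x ∈ S) (hxT : x ∈ T)
    (hyS : y ∈ S) (hyT : y ∈ T) : x * y = y * x := by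
  haveI := h.hC S T hST
  have hcomm := (IsCyclic.isMulCommutative (α := ↥((S : Subgroup G) ⊓ (T : Subgroup G)))).is_comm.comm
    ⟨x, hxS, hxT⟩ ⟨y, hyS, hyT⟩
  exact congrArg Subtype.val hcomm

theorem mem_C_of_inter {S T : Sylow 2 G} (hST : S ≠ T) {x : G} (hxS : x ∈ S) (hxT : x ∈ T) :
    x ∈ h.C := by
  rw [Subgroup.mem_centralizer_iff]
  intro y hy
  exact (h.comm_of_inter hST hxS hxT (h.le_sylow S hy) (h.le_sylow T hy)).symm

theorem uniq_of_not_C {S T : Sylow 2 G} {x : G} (hx : x ∉ h.C) (hxS : x ∈ S) (hxT : x ∈ T) : S = T := by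
  by_contra hST
  exact hx (h.mem_C_of_inter hST hxS hxT)

/-- Involutions other than `v` lie in a unique Sylow `2`-subgroup. -/
theorem uniq_of_inv {S T : Sylow 2 G} {a : G} (ha : orderOf a = 2) (hav : a ≠ c ^ 2) (hS : a ∈ S)
    (hT : a ∈ T) : S = T := by
  by_contra hST
  have h2 : a ^ 2 = 1 := by rw [← ha]; exact pow_orderOf_eq_one a
  rcases h.eq_of_sq_inter hST hS hT h2 with h1 | h1
  · rw [h1] at ha; simp at ha
  · exact hav h1

/-- An element of odd order centralizes `V`. -/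
theorem odd_mem_C {g : G} (hg : Odd (orderOf g)) : g ∈ h.C := by
  haveI := h.nV
  haveI := h.V_cyclic
  rw [Subgroup.mem_centralizer_iff]
  intro y hy
  set φ : MulAut V := MulAut.conjNormal g with hφ
  have h1 : φ ^ orderOf g = 1 := by
    rw [hφ, ← map_pow, pow_orderOf_eq_one, map_one]
  obtain ⟨k, hk⟩ := (IsPGroup.iff_card.mp h.pV)
  have h2 : φ ^ (Nat.card (MulAut V)) = 1 := pow_card_eq_one'
  have hcard : Nat.card (MulAut V) = Nat.totient (2 ^ k) := by
    rw [← hk]; exact IsCyclic.card_mulAut V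
  have hcop : (orderOf g).Coprime (Nat.card (MulAut V)) := by
    rw [hcard]
    rcases k with _ | k
    · simp
    · rw [Nat.totient_prime_pow Nat.prime_two (Nat.succ_pos k)]
      simpa using Nat.Coprime.pow_right k (Nat.coprime_two_right.mpr hg)
  have h3 : φ = 1 := by
    have := pow_gcd_eq_one.mpr ⟨h1, h2⟩
    rwa [hcop.gcd_eq_one, pow_one] at this
  have h4 := congrArg (fun f : MulAut V => ((f ⟨y, hy⟩ : V) : G)) h3
  simp only [hφ, MulAut.conjNormal_apply, MulAut.one_apply] at h4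
  have h5 : g * y = y * g := by
    calc g * y = (g * y * g⁻¹) * g := by group
      _ = y * g := by rw [h4]
  exact h5.symm

/-- (B): an element of `S ∩ T` inverted by an element commuting with `c` has square one. -/
theorem sq_of_inverted {S T : Sylow 2 G} (hST : S ≠ T) {x u : G} (hxS : x ∈ S) (hxT : x ∈ T)
    (hu : u * c = c * u) (hinv : u * x * u⁻¹ = x⁻¹) : x ^ 2 = 1 := by
  obtain ⟨k, hk⟩ := (IsPGroup.iff_orderOf.mp S.isPGroup') ⟨x, hxS⟩
  have hk' : orderOf x = 2 ^ k := by simpa using hk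
  rcases k with _ | _ | k
  · have : x = 1 := orderOf_eq_one_iff.mp (by simpa using hk')
    simp [this]
  · rw [← show orderOf x = 2 by simpa using hk']; exact pow_orderOf_eq_one x
  · exfalso
    have hc4 : c ^ orderOf x = 1 := by
      rw [hk', show 2 ^ (k + 1 + 1) = 4 * 2 ^ k by ring, pow_mul, ← h.ord, pow_orderOf_eq_one, one_pow]
    have hm := mem_zpowers_of_cyclic (h.hC S T hST) ⟨hxS, hxT⟩ ⟨h.c_mem S, h.c_mem T⟩ hc4
    obtain ⟨n, hn⟩ := Subgroup.mem_zpowers_iff.mp hm
    have h1 : u * c * u⁻¹ = c⁻¹ := by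
      rw [← hn, ← conj_zpow, hinv, inv_zpow]
    have h2 : u * c * u⁻¹ = c := by rw [hu]; group
    rw [h2] at h1
    have h3 : c ^ 2 = 1 := by
      rw [pow_two]
      nth_rewrite 1 [h1]
      group
    exact h.v_ne_one h3

end Cfg

end cfg

end Cfsg.Agent.Lib.Gross.CycInt
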