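import Cfsg.Agent.Lib.Gross.CycInt

/-!
# Groups in which distinct Sylow `2`-subgroups meet in cyclic groups, II: swapping involutions
-/

set_option autoImplicit false

namespace Cfsg.Agent.Lib.Gross.CycInt

open Subgroup
open scoped Pointwise

universe u

variable {G : Type u} [Group G] [Finite G]

/-- Ordinary involutions: involutions other than `c ^ 2`. -/
def Ord (c a : G) : Prop := orderOf a = 2 ∧ a ≠ c ^ 2

theorem eq_one_of_two_of_odd {x : G} (h2 : Two x) {m : ℕ} (hm : Odd m) (h : x ^ m = 1) : x = 1 := by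
  obtain ⟨k, hk⟩ := h2
  have h1 : orderOf x ∣ 2 ^ k := orderOf_dvd_of_pow_eq_one hk
  have h3 : orderOf x ∣ m := orderOf_dvd_of_pow_eq_one h
  have hc : (2 ^ k).Coprime m := Nat.Coprime.pow_left k (Nat.coprime_two_left.mpr hm)
  exact orderOf_eq_one_iff.mp (Nat.eq_one_of_dvd_coprimes hc h1 h3)

theorem sq_eq_one_of_ord {a : G} (h : orderOf a = 2) : a * a = 1 := by
  rw [← pow_two, ← h]; exact pow_orderOf_eq_one a

theorem inv_eq_of_ord {a : G} (h : orderOf a = 2) : a⁻¹ = a :=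
  inv_eq_of_mul_eq_one_left (sq_eq_one_of_ord h)

theorem two_of_ord {a : G} (h : orderOf a = 2) : Two a :=
  ⟨1, by rw [pow_one, ← h]; exact pow_orderOf_eq_one a⟩

/-- An involution inverting `y` normalizes `⟨y⟩`. -/
theorem mem_normalizer_of_inverted {a y : G} (ha : a * a = 1) (hinv : a * y * a⁻¹ = y⁻¹) :
    a ∈ normalizer ((zpowers y : Subgroup G) : Set G) := by
  have hai : a⁻¹ = a := inv_eq_of_mul_eq_one_left ha
  have h1 : ∀ x ∈ zpowers y, a * x * a⁻¹ ∈ zpowers y := by
    intro x hx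
    obtain ⟨n, rfl⟩ := Subgroup.mem_zpowers_iff.mp hx
    rw [← conj_zpow, hinv]
    exact Subgroup.zpow_mem _ (Subgroup.inv_mem _ (mem_zpowers y)) n
  refine Cfsg.Agent.Lib.Components.Fitting.mem_normalizer_of_conj_mem h1 ?_
  intro x hx
  have := h1 x hx
  rwa [hai] at this ⊢

namespace Cfg

variable {V : Subgroup G} {c : G} (h : Cfg V c)
include h

theorem ord_mul_v {a : G} (ha : Ord c a) : Ord c (a * c ^ 2) := by
  have hv := h.v_comm a
  have hvv : c ^ 2 * c ^ 2 = 1 := by rw [← pow_two]; exact h.v_sq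
  have haa := sq_eq_one_of_ord ha.1
  have h1 : (a * c ^ 2) ^ 2 = 1 := by
    rw [pow_two]
    calc a * c ^ 2 * (a * c ^ 2) = a * (c ^ 2 * a) * c ^ 2 := by group
      _ = a * (a * c ^ 2) * c ^ 2 := by rw [hv]
      _ = (a * a) * (c ^ 2 * c ^ 2) := by group
      _ = 1 := by rw [haa, hvv, one_mul]
  have h2 : a * c ^ 2 ≠ 1 := by
    intro e
    apply ha.2
    have : a = (c ^ 2)⁻¹ := eq_inv_of_mul_eq_one_left e
    rw [this]
    exact inv_eq_of_mul_eq_one_left hvv
  refine ⟨orderOf_eq_prime h1 h2, ?_⟩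
  intro e
  have : a = 1 := by simpa using e
  rw [this] at ha
  simpa using ha.1

theorem ord_conj {a : G} (ha : Ord c a) (g : G) : Ord c (g * a * g⁻¹) := by
  refine ⟨?_, ?_⟩
  · have : g * a * g⁻¹ = MulAut.conj g a := rfl
    rw [this, MulEquiv.orderOf_eq]
    exact ha.1
  · intro e
    apply ha.2
    have h1 : a = g⁻¹ * (g * a * g⁻¹) * g := by group
    rw [h1, e]
    have := h.v_central g⁻¹
    simpa using this

/-- A `2`-element inverted by an ordinary involution `a ∈ S` lies in `S`. -/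
theorem mem_of_inverted {S : Sylow 2 G} {a y : G} (ha : Ord c a) (haS : a ∈ S) (hy : Two y)
    (hinv : a * y * a⁻¹ = y⁻¹) : y ∈ S := by
  have hle : zpowers a ≤ normalizer ((zpowers y : Subgroup G) : Set G) := by
    rw [Subgroup.zpowers_le]
    exact mem_normalizer_of_inverted (sq_eq_one_of_ord ha.1) hinv
  have hp : IsPGroup 2 ((zpowers y ⊔ zpowers a : Subgroup G)) :=
    hy.isPGroup.to_sup_of_normal_left' (two_of_ord ha.1).isPGroup hle
  obtain ⟨S₁, hS₁⟩ := hp.exists_le_sylow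
  have h1 : a ∈ S₁ := hS₁ ((le_sup_right : zpowers a ≤ _) (mem_zpowers a))
  have h2 : y ∈ S₁ := hS₁ ((le_sup_left : zpowers y ≤ _) (mem_zpowers y))
  rwa [h.uniq_of_inv ha.1 ha.2 haS h1]

/-- Claim A: the product of ordinary involutions from distinct Sylow subgroups has odd order up to
`v`. -/
theorem claimA (hIC : ∀ u : G, orderOf u = 2 → u ∈ h.C) {S T : Sylow 2 G} (hST : S ≠ T) {a t : G}
    (ha : Ord c a) (ht : Ord c t) (haS : a ∈ S) (htT : t ∈ T) :
    ∃ t' : G, (t' = t ∨ t' = t * c ^ 2) ∧ Odd (orderOf (a * t')) := by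
  have haa := sq_eq_one_of_ord ha.1
  have htt := sq_eq_one_of_ord ht.1
  have hai := inv_eq_of_ord ha.1
  have hti := inv_eq_of_ord ht.1
  set z := a * t with hz
  obtain ⟨m, hm, hy2, -⟩ := exists_twoPart z
  set y := z ^ m with hy
  have hzi : z⁻¹ = t * a := by rw [hz, mul_inv_rev, hai, hti]
  have hay : a * y * a⁻¹ = y⁻¹ := by
    have h1 : a * z * a⁻¹ = z⁻¹ := by
      rw [hzi, hz, hai]
      calc a * (a * t) * a = (a * a) * t * a := by group
        _ = t * a := by rw [haa, one_mul]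
    rw [hy, ← conj_pow, h1, inv_pow]
  have hty : t * y * t⁻¹ = y⁻¹ := by
    have h1 : t * z * t⁻¹ = z⁻¹ := by
      rw [hzi, hz, hti]
      calc t * (a * t) * t = t * a * (t * t) := by group
        _ = t * a := by rw [htt, mul_one]
    rw [hy, ← conj_pow, h1, inv_pow]
  have hyS : y ∈ S := h.mem_of_inverted ha haS hy2 hay
  have hyT : y ∈ T := h.mem_of_inverted ht htT hy2 hty
  have htc : t * c = c * t := by
    have := hIC t ht.1
    rw [Subgroup.mem_centralizer_iff] at this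
    exact (this c h.cV).symm
  have hsq : y ^ 2 = 1 := h.sq_of_inverted hST hyS hyT htc hty
  rcases h.eq_of_sq_inter hST hyS hyT hsq with h1 | h1
  · refine ⟨t, Or.inl rfl, ?_⟩
    exact Odd.of_dvd_nat hm (orderOf_dvd_of_pow_eq_one h1)
  · refine ⟨t * c ^ 2, Or.inr rfl, ?_⟩
    have hcomm : Commute z (c ^ 2) := h.v_comm z
    have h2 : (a * (t * c ^ 2)) ^ m = 1 := by
      rw [← mul_assoc, ← hz, hcomm.mul_pow]
      have h3 : z ^ m = c ^ 2 := h1
      rw [h3]
      obtain ⟨q, rfl⟩ := hm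
      have h4 : ∀ x : G, x ^ 2 = 1 → x * x ^ (2 * q + 1) = 1 := fun x hx => by
        rw [pow_succ, pow_mul, hx, one_pow, one_mul, ← pow_two, hx]
      exact h4 _ h.v_sq
    exact Odd.of_dvd_nat hm (orderOf_dvd_of_pow_eq_one h2)

/-- An involution interchanging two involutions whose product has odd order. -/
theorem swap_of_odd {S T : Sylow 2 G} (hST : S ≠ T) {a t : G} (ha : Ord c a) (ht : Ord c t)
    (haS : a ∈ S) (htT : t ∈ T) (hodd : Odd (orderOf (a * t))) :
    ∃ w : G, Ord c w ∧ w * a * w⁻¹ = t ∧ w • S = T ∧ w • T = S := by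
  have haa := sq_eq_one_of_ord ha.1
  have htt := sq_eq_one_of_ord ht.1
  have hai := inv_eq_of_ord ha.1
  have hti := inv_eq_of_ord ht.1
  set z := a * t with hz
  obtain ⟨q, hq⟩ := hodd
  set r := z ^ (q + 1) with hr
  have hrr : r * r = z := by
    rw [hr, ← pow_add]
    have : q + 1 + (q + 1) = orderOf z + 1 := by omega
    rw [this, pow_succ, pow_orderOf_eq_one, one_mul]
  have hzi : z⁻¹ = t * a := by rw [hz, mul_inv_rev, hai, hti]
  have haz : a * z * a = z⁻¹ := by
    rw [hzi, hz]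
    calc a * (a * t) * a = (a * a) * t * a := by group
      _ = t * a := by rw [haa, one_mul]
  have har : a * r * a = r⁻¹ := by
    have h1 : a * r * a⁻¹ = r⁻¹ := by
      rw [hr, ← conj_pow, hai, haz, inv_pow]
    rwa [hai] at h1
  set w := a * r with hw
  have hww : w * w = 1 := by
    calc w * w = (a * r * a) * r := by rw [hw]; group
      _ = 1 := by rw [har]; group
  have hwi : w⁻¹ = w := inv_eq_of_mul_eq_one_left hww
  have hwa : w * a * w⁻¹ = t := by
    rw [hwi]
    calc w * a * w = a * r * (a * a) * r := by rw [hw]; group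
      _ = a * (r * r) := by rw [haa]; group
      _ = t := by rw [hrr, hz, ← mul_assoc, haa, one_mul]
  have hne : a ≠ t := by
    intro e
    exact hST (h.uniq_of_inv ha.1 ha.2 haS (e ▸ htT))
  have hw1 : w ≠ 1 := by
    intro e
    rw [e] at hwa
    apply hne
    simpa using hwa
  have hwv : w ≠ c ^ 2 := by
    intro e
    rw [e, ← h.v_comm a] at hwa
    apply hne
    simpa using hwa
  have hord : Ord c w := ⟨orderOf_eq_prime (by rw [pow_two]; exact hww) hw1, hwv⟩
  have h1 : w • S = T := by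
    have hm : t ∈ (w • S) := by
      rw [← hwa]; exact conj_mem_smul haS
    exact h.uniq_of_inv ht.1 ht.2 hm htT
  refine ⟨w, hord, hwa, h1, ?_⟩
  rw [← h1, smul_smul, hww, one_smul]

/-- A swap exists for any ordinary involutions in distinct Sylow subgroups. -/
theorem exists_swap (hIC : ∀ u : G, orderOf u = 2 → u ∈ h.C) {S T : Sylow 2 G} (hST : S ≠ T) {a t : G}
    (ha : Ord c a) (ht : Ord c t) (haS : a ∈ S) (htT : t ∈ T) :
    ∃ w t' : G, (t' = t ∨ t' = t * c ^ 2) ∧ Ord c w ∧ w * a * w⁻¹ = t' ∧ w • S = T ∧ w • T = S := by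
  obtain ⟨t', ht', hodd⟩ := h.claimA hIC hST ha ht haS htT
  have hord : Ord c t' := by
    rcases ht' with rfl | rfl
    · exact ht
    · exact h.ord_mul_v ht
  have hmem : t' ∈ T := by
    rcases ht' with rfl | rfl
    · exact htT
    · exact T.toSubgroup.mul_mem htT (h.v_mem T)
  obtain ⟨w, hw, h1, h2, h3⟩ := h.swap_of_odd hST ha hord haS hmem hodd
  exact ⟨w, t', ht', hw, h1, h2, h3⟩

/-- Lemma T: two swaps differ by an element of odd order up to `v`, so that the ordinary involutions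
of `S` are permuted transitively (up to `v`) by the odd elements of the two-point stabilizer. -/
theorem exists_odd_conj (hIC : ∀ u : G, orderOf u = 2 → u ∈ h.C) {S T : Sylow 2 G} (hST : S ≠ T)
    {u : G} (hu : Ord c u) (huS : u • S = T) (huT : u • T = S) {s t : G} (hs : Ord c s) (ht : Ord c t)
    (hsS : s ∈ S) (htS : t ∈ S) :
    ∃ d : G, Odd (orderOf d) ∧ d ∈ normalizer ((S : Subgroup G) : Set G) ∧
      d ∈ normalizer ((T : Subgroup G) : Set G) ∧ (d * s * d⁻¹ = t ∨ d * s * d⁻¹ = t * c ^ 2) := by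
  have huu := sq_eq_one_of_ord hu.1
  have hui := inv_eq_of_ord hu.1
  have haT : u * s * u⁻¹ ∈ T := by
    rw [← huS]; exact conj_mem_smul hsS
  obtain ⟨w, t', ht', hw, hwa, hw1, hw2⟩ := h.exists_swap hIC hST.symm (h.ord_conj hs u) ht haT htS
  have hww := sq_eq_one_of_ord hw.1
  have hwi := inv_eq_of_ord hw.1
  set d₀ := w * u with hd₀
  have hd₀S : d₀ • S = S := by rw [hd₀, ← smul_smul, huS, hw1]
  have hd₀T : d₀ • T = T := by rw [hd₀, ← smul_smul, huT, hw2]
  have hN1 : d₀ ∈ normalizer ((S : Subgroup G) : Set G) := Sylow.smul_eq_iff_mem_normalizer.mp hd₀S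
  have hN2 : d₀ ∈ normalizer ((T : Subgroup G) : Set G) := Sylow.smul_eq_iff_mem_normalizer.mp hd₀T
  have hconj : d₀ * s * d₀⁻¹ = t' := by
    rw [← hwa, hd₀]; group
  obtain ⟨m, hm, hy2, -⟩ := exists_twoPart d₀
  set y := d₀ ^ m with hy
  have hud : u * y * u⁻¹ = y⁻¹ := by
    have h1 : u * d₀ * u⁻¹ = d₀⁻¹ := by
      rw [hd₀, hui, mul_inv_rev, hwi, hui]
      calc u * (w * u) * u = u * w * (u * u) := by group
        _ = u * w := by rw [huu, mul_one]
    rw [hy, ← conj_pow, h1, inv_pow]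
  have hyN1 : y ∈ normalizer ((S : Subgroup G) : Set G) := Subgroup.pow_mem _ hN1 m
  have hyN2 : y ∈ normalizer ((T : Subgroup G) : Set G) := Subgroup.pow_mem _ hN2 m
  have hyS : y ∈ S := mem_of_mem_normalizer hy2 hyN1
  have hyT : y ∈ T := mem_of_mem_normalizer hy2 hyN2
  have huc : u * c = c * u := by
    have := hIC u hu.1
    rw [Subgroup.mem_centralizer_iff] at this
    exact (this c h.cV).symm
  have hsq : y ^ 2 = 1 := h.sq_of_inverted hST hyS hyT huc hud
  have hyc : y = 1 ∨ y = c ^ 2 := h.eq_of_sq_inter hST hyS hyT hsq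
  have hcomm : Commute d₀ y := (Commute.refl d₀).pow_right m
  have hcen : ∀ g : G, g * y = y * g := by
    intro g
    rcases hyc with e | e
    · rw [e]; simp
    · rw [e]; exact h.v_comm g
  refine ⟨d₀ * y, ?_, Subgroup.mul_mem _ hN1 hyN1, Subgroup.mul_mem _ hN2 hyN2, ?_⟩
  · have h2 : (d₀ * y) ^ m = 1 := by
      rw [hcomm.mul_pow]
      obtain ⟨q, rfl⟩ := hm
      rw [← hy, pow_succ y (2 * q), pow_mul, hsq, one_pow, one_mul, ← pow_two, hsq]
    exact Odd.of_dvd_nat hm (orderOf_dvd_of_pow_eq_one h2)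
  · have h3 : d₀ * y * s * (d₀ * y)⁻¹ = d₀ * s * d₀⁻¹ := by
      calc d₀ * y * s * (d₀ * y)⁻¹ = d₀ * (y * s) * y⁻¹ * d₀⁻¹ := by group
        _ = d₀ * (s * y) * y⁻¹ * d₀⁻¹ := by rw [hcen s]
        _ = d₀ * s * d₀⁻¹ := by group
    rw [h3, hconj]
    exact ht'

end Cfg

end Cfsg.Agent.Lib.Gross.CycInt
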