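import Cfsg.Agent.Lib.Gross.CycInt2

/-!
# Groups in which distinct Sylow `2`-subgroups meet in cyclic groups, III: the counting argument
-/

set_option autoImplicit false

namespace Cfsg.Agent.Lib.Gross.CycInt

open Subgroup
open scoped Pointwise

universe u

variable {G : Type u} [Group G] [Finite G]

/-- An element of odd order normalizing a cyclic `2`-subgroup centralizes it. -/
theorem odd_mem_centralizer {R : Subgroup G} (hc : IsCyclic R) (hp : IsPGroup 2 R) {g : G}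
    (hg : Odd (orderOf g)) (hn : g ∈ normalizer (R : Set G)) : g ∈ centralizer (R : Set G) := by
  set g' : normalizer (R : Set G) := ⟨g, hn⟩ with hg'
  set φ := R.normalizerMonoidHom with hφ
  have h0 : g' ^ orderOf g = 1 := Subtype.ext (by simp [hg', pow_orderOf_eq_one])
  have h1 : (φ g') ^ orderOf g = 1 := by rw [← map_pow, h0, map_one]
  obtain ⟨k, hk⟩ := IsPGroup.iff_card.mp hp
  have h2 : (φ g') ^ (Nat.card (MulAut R)) = 1 := pow_card_eq_one'
  have hcard : Nat.card (MulAut R) = Nat.totient (2 ^ k) := by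
    rw [← hk]; exact IsCyclic.card_mulAut R
  have hcop : (orderOf g).Coprime (Nat.card (MulAut R)) := by
    rw [hcard]
    rcases k with _ | k
    · simp
    · rw [Nat.totient_prime_pow Nat.prime_two (Nat.succ_pos k)]
      simpa using Nat.Coprime.pow_right k (Nat.coprime_two_right.mpr hg)
  have h3 : φ g' = 1 := by
    have := pow_gcd_eq_one.mpr ⟨h1, h2⟩
    rwa [hcop.gcd_eq_one, pow_one] at this
  have h4 : g' ∈ φ.ker := h3
  rw [hφ, R.normalizerMonoidHom_ker, Subgroup.mem_subgroupOf] at h4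
  exact h4

/-- The elements of odd order of a group with a normal cyclic Sylow `2`-subgroup lie in a subgroup of
odd order. -/
theorem exists_odd_complement {Z R : Subgroup G} (hRZ : R ≤ Z) (hnorm : Z ≤ normalizer (R : Set G))
    (hcyc : IsCyclic R) (hp : IsPGroup 2 R) (h2 : ∀ g ∈ Z, Two g → g ∈ R) :
    ∃ W : Subgroup G, W ≤ Z ∧ Odd (Nat.card W) ∧ ∀ g ∈ Z, Odd (orderOf g) → g ∈ W := by
  set N : Subgroup Z := R.subgroupOf Z with hN
  haveI hNn : N.Normal := Subgroup.normal_subgroupOf_of_le_normalizer hnorm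
  have hcardN : Nat.card N = Nat.card R :=
    Nat.card_congr (Subgroup.subgroupOfEquivOfLe hRZ).toEquiv
  obtain ⟨k, hk⟩ := IsPGroup.iff_card.mp hp
  have hidx : ¬ 2 ∣ N.index := by
    intro hd
    rw [Subgroup.index_eq_card] at hd
    obtain ⟨q, hq⟩ := exists_prime_orderOf_dvd_card' 2 hd
    obtain ⟨g, rfl⟩ := QuotientGroup.mk_surjective q
    have hg2 : g ^ 2 ∈ N := by
      rw [← QuotientGroup.eq_one_iff]
      have : ((g : Z ⧸ N)) ^ 2 = 1 := by rw [← hq]; exact pow_orderOf_eq_one _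
      simpa using this
    have hg2' : ((g : G)) ^ 2 ∈ R := by
      have := Subgroup.mem_subgroupOf.mp hg2
      simpa using this
    have hgt : Two (g : G) := by
      obtain ⟨j, hj⟩ := IsPGroup.iff_orderOf.mp hp ⟨_, hg2'⟩
      refine ⟨j + 1, ?_⟩
      have hj' : orderOf ((g : G) ^ 2) = 2 ^ j := by simpa using hj
      rw [pow_succ', pow_mul, ← hj', pow_orderOf_eq_one]
    have hgR : (g : G) ∈ R := h2 _ g.2 hgt
    have hgN : g ∈ N := Subgroup.mem_subgroupOf.mpr hgR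
    have : ((g : Z ⧸ N)) = 1 := (QuotientGroup.eq_one_iff g).mpr hgN
    rw [this, orderOf_one] at hq
    omega
  have hcop : Nat.Coprime (Nat.card N) N.index := by
    rw [hcardN, hk]
    exact Nat.Coprime.pow_left k ((Nat.Prime.coprime_iff_not_dvd Nat.prime_two).mpr hidx)
  obtain ⟨W₀, hW₀⟩ := Subgroup.exists_right_complement'_of_coprime hcop
  have hcW₀ : Nat.card W₀ = N.index := hW₀.symm.index_eq_card.symm
  refine ⟨W₀.map Z.subtype, Subgroup.map_subtype_le _, ?_, ?_⟩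
  · rw [Nat.card_congr (W₀.equivMapOfInjective _ Z.subtype_injective).symm.toEquiv, hcW₀]
    exact Nat.odd_iff.mpr (by omega)
  · intro g hg hodd
    obtain ⟨⟨n, w⟩, hnw⟩ := hW₀.2 ⟨g, hg⟩
    have hnw' : (n : Z) * (w : Z) = ⟨g, hg⟩ := hnw
    have hnR : ((n : Z) : G) ∈ R := Subgroup.mem_subgroupOf.mp n.2
    have hgg : g = ((n : Z) : G) * ((w : Z) : G) := by
      have := congrArg Subtype.val hnw'
      simpa using this.symm
    have heodd : Odd (Nat.card W₀) := by
      rw [hcW₀]; exact Nat.odd_iff.mpr (by omega)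
    have hwp : ((w : Z) : G) ^ Nat.card W₀ = 1 := by
      have h0 : w ^ Nat.card W₀ = 1 := pow_card_eq_one'
      have h1 : ((w ^ Nat.card W₀ : W₀) : Z) = ((w : Z)) ^ Nat.card W₀ := SubgroupClass.coe_pow _ _
      have h3 : (((w : Z) ^ Nat.card W₀ : Z) : G) = ((w : Z) : G) ^ Nat.card W₀ :=
        SubgroupClass.coe_pow _ _
      rw [← h3, ← h1, h0]
      rfl
    have hwo : Odd (orderOf ((w : Z) : G)) := Odd.of_dvd_nat heodd (orderOf_dvd_of_pow_eq_one hwp)
    have hwc : ((w : Z) : G) ∈ centralizer (R : Set G) :=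
      odd_mem_centralizer hcyc hp hwo (hnorm (w : Z).2)
    have hcomm : Commute ((n : Z) : G) ((w : Z) : G) :=
      (Subgroup.mem_centralizer_iff.mp hwc _ hnR)
    have hn1 : ((n : Z) : G) = 1 := by
      have hnt : Two ((n : Z) : G) := by
        obtain ⟨j, hj⟩ := IsPGroup.iff_orderOf.mp hp ⟨_, hnR⟩
        refine ⟨j, ?_⟩
        have hj' : orderOf ((n : Z) : G) = 2 ^ j := by simpa using hj
        rw [← hj', pow_orderOf_eq_one]
      refine eq_one_of_two_of_odd hnt (heodd.mul hodd) ?_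
      have h3 : g ^ Nat.card W₀ = ((n : Z) : G) ^ Nat.card W₀ := by
        rw [hgg, hcomm.mul_pow, hwp, mul_one]
      rw [pow_mul, ← h3, ← pow_mul, mul_comm, pow_mul, pow_orderOf_eq_one, one_pow]
    rw [hgg, hn1, one_mul]
    exact ⟨_, w.2, rfl⟩

/-- The elements fixed by a `2`-element: parity. -/
theorem card_modEq_of_invariant {Ω : Type*} [MulAction G Ω] [Finite Ω] {x : G} (hx : Two x)
    (F : Set Ω) (hF : ∀ γ ∈ F, x • γ ∈ F) :
    Nat.card F ≡ Nat.card {γ : Ω // γ ∈ F ∧ x • γ = γ} [MOD 2] := by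
  have hpow : ∀ n : ℕ, ∀ γ ∈ F, x ^ n • γ ∈ F := by
    intro n
    induction n with
    | zero => intro γ hγ; simpa using hγ
    | succ n ih =>
      intro γ hγ
      rw [pow_succ, mul_smul]
      exact ih _ (hF _ hγ)
  let F' : SubMulAction (zpowers x) Ω :=
    { carrier := F
      smul_mem' := by
        rintro ⟨a, ha⟩ γ hγ
        obtain ⟨n, rfl⟩ := (mem_powers_iff_mem_zpowers.mpr ha)
        exact hpow n γ hγ }
  have h1 := hx.isPGroup.card_modEq_card_fixedPoints F'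
  have h2 : Nat.card F' = Nat.card F := rfl
  have h3 : Nat.card (MulAction.fixedPoints (zpowers x) F') =
      Nat.card {γ : Ω // γ ∈ F ∧ x • γ = γ} := by
    refine Nat.card_congr ⟨fun p => ⟨p.1.1, p.1.2, ?_⟩, fun p => ⟨⟨p.1, p.2.1⟩, ?_⟩, ?_, ?_⟩
    · have := p.2 ⟨x, mem_zpowers x⟩
      exact congrArg Subtype.val this
    · rintro ⟨a, ha⟩
      have hpp : ∀ n : ℕ, x ^ n • p.1 = p.1 := by
        intro n
        induction n with
        | zero => simp
        | succ n ih => rw [pow_succ, mul_smul, p.2.2, ih]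
      obtain ⟨n, rfl⟩ := (mem_powers_iff_mem_zpowers.mpr ha)
      apply Subtype.ext
      exact hpp n
    · intro p; rfl
    · intro p; rfl
  rw [← h2, ← h3]
  exact h1

/-- The subgroup generated by the elements of odd order of the two-point stabilizer. -/
def oddPart (S T : Sylow 2 G) : Subgroup G :=
  closure {g : G | g ∈ normalizer ((S : Subgroup G) : Set G) ⊓ normalizer ((T : Subgroup G) : Set G) ∧
    Odd (orderOf g)}

theorem oddPart_le (S T : Sylow 2 G) :
    oddPart S T ≤ normalizer ((S : Subgroup G) : Set G) ⊓ normalizer ((T : Subgroup G) : Set G) :=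
  (closure_le _).mpr fun _ hg => hg.1

theorem mem_oddPart {S T : Sylow 2 G} {g : G} (h1 : g ∈ normalizer ((S : Subgroup G) : Set G))
    (h2 : g ∈ normalizer ((T : Subgroup G) : Set G)) (h3 : Odd (orderOf g)) : g ∈ oddPart S T :=
  subset_closure ⟨⟨h1, h2⟩, h3⟩

theorem inf_le_normalizer_inf (S T : Sylow 2 G) :
    normalizer ((S : Subgroup G) : Set G) ⊓ normalizer ((T : Subgroup G) : Set G) ≤
      normalizer (((S : Subgroup G) ⊓ (T : Subgroup G) : Subgroup G) : Set G) := by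
  intro g hg
  have h1 := (Subgroup.mem_inf.mp hg).1
  have h2 := (Subgroup.mem_inf.mp hg).2
  rw [Subgroup.mem_normalizer_iff] at h1 h2 ⊢
  intro x
  simp only [SetLike.mem_coe, Subgroup.mem_inf] at h1 h2 ⊢
  rw [h1 x, h2 x]

theorem oddPart_odd {S T : Sylow 2 G} (hc : IsCyclic ↥((S : Subgroup G) ⊓ (T : Subgroup G))) :
    Odd (Nat.card (oddPart S T)) := by
  obtain ⟨W, -, hW, hW2⟩ := exists_odd_complement (Z := normalizer ((S : Subgroup G) : Set G) ⊓
      normalizer ((T : Subgroup G) : Set G)) (R := (S : Subgroup G) ⊓ (T : Subgroup G))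
    (inf_le_inf S.le_normalizer T.le_normalizer) (inf_le_normalizer_inf S T) hc
    (S.isPGroup'.to_le inf_le_left)
    (fun g hg hg2 => ⟨mem_of_mem_normalizer hg2 hg.1, mem_of_mem_normalizer hg2 hg.2⟩)
  have hle : oddPart S T ≤ W := (closure_le _).mpr fun g hg => hW2 g hg.1 hg.2
  exact Odd.of_dvd_nat hW (Subgroup.card_dvd_of_le hle)

theorem orderOf_odd_of_mem {O : Subgroup G} (hO : Odd (Nat.card O)) {g : G} (hg : g ∈ O) :
    Odd (orderOf g) := by
  refine Odd.of_dvd_nat hO ?_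
  have := Subgroup.orderOf_dvd_natCard O hg
  exact this

theorem oddPart_mono {S T γ δ : Sylow 2 G} (hc : IsCyclic ↥((S : Subgroup G) ⊓ (T : Subgroup G)))
    (hγ : oddPart S T ≤ normalizer ((γ : Subgroup G) : Set G))
    (hδ : oddPart S T ≤ normalizer ((δ : Subgroup G) : Set G)) : oddPart S T ≤ oddPart γ δ :=
  fun _ hg => mem_oddPart (hγ hg) (hδ hg) (orderOf_odd_of_mem (oddPart_odd hc) hg)

theorem mem_normalizer_smul {x g : G} {γ : Sylow 2 G} :
    g ∈ normalizer (((x • γ : Sylow 2 G) : Subgroup G) : Set G) ↔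
      x⁻¹ * g * x ∈ normalizer ((γ : Subgroup G) : Set G) := by
  have key : ∀ (δ : Sylow 2 G) (a : G), a ∈ normalizer ((δ : Subgroup G) : Set G) ↔ a • δ = δ :=
    fun δ a => Sylow.smul_eq_iff_mem_normalizer.symm
  rw [key, key]
  constructor
  · intro h
    rw [mul_smul, mul_smul, h, inv_smul_smul]
  · intro h
    have h1 : g • x • γ = x • ((x⁻¹ * g * x) • γ) := by
      rw [smul_smul, smul_smul]
      congr 1
      group
    rw [h1, h]

namespace Cfg

variable {V : Subgroup G} {c : G} (h : Cfg V c)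
include h

theorem mem_normalizer_oddPart {S T : Sylow 2 G} (hST : S ≠ T) (u : G) (hu : orderOf u = 2)
    (huS : u • S = T) (huT : u • T = S) : u ∈ normalizer ((oddPart S T : Subgroup G) : Set G) := by
  have hui : u⁻¹ = u := inv_eq_of_ord hu
  have h1 : ∀ x ∈ oddPart S T, u * x * u⁻¹ ∈ oddPart S T := by
    intro x hx
    have hx1 := oddPart_le S T hx
    have hx2 := orderOf_odd_of_mem (oddPart_odd (h.hC S T hST)) hx
    refine mem_oddPart ?_ ?_ ?_
    · rw [← huT, mem_normalizer_smul]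
      have : u⁻¹ * (u * x * u⁻¹) * u = x := by group
      rw [this]
      exact (Subgroup.mem_inf.mp hx1).2
    · rw [← huS, mem_normalizer_smul]
      have : u⁻¹ * (u * x * u⁻¹) * u = x := by group
      rw [this]
      exact (Subgroup.mem_inf.mp hx1).1
    · have : u * x * u⁻¹ = MulAut.conj u x := rfl
      rw [this, MulEquiv.orderOf_eq]
      exact hx2
  refine Cfsg.Agent.Lib.Components.Fitting.mem_normalizer_of_conj_mem h1 ?_
  intro x hx
  have := h1 x hx
  rwa [hui] at this ⊢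

/-- The counting argument. -/
theorem false_of_count (hIC : ∀ u : G, orderOf u = 2 → u ∈ h.C)
    (hne : ∀ X : Sylow 2 G, ∃ a : G, Ord c a ∧ a ∈ X)
    (hi2 : ∀ (X : Sylow 2 G) (a : G), Ord c a → a ∈ X → ∃ t : G, Ord c t ∧ t ∈ X ∧ t ≠ a ∧ t ≠ a * c ^ 2)
    {t₀ : G} (ht₀ : t₀ ∉ h.C) (X₀ : Sylow 2 G) (ht₀X : t₀ ∈ X₀) : False := by
  classical
  -- maximal two-point odd stabilizer
  obtain ⟨S₀, T₀, hST₀⟩ := h.ne
  haveI : Nonempty {p : Sylow 2 G × Sylow 2 G // p.1 ≠ p.2} := ⟨⟨(S₀, T₀), hST₀⟩⟩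
  obtain ⟨⟨⟨X, Y⟩, hXY⟩, hmax⟩ := Finite.exists_max
    (fun p : {p : Sylow 2 G × Sylow 2 G // p.1 ≠ p.2} => Nat.card (oddPart p.1.1 p.1.2))
  simp only at hXY
  set O : Subgroup G := oddPart X Y with hOdef
  have hOodd : Odd (Nat.card O) := oddPart_odd (h.hC X Y hXY)
  set F : Set (Sylow 2 G) := {γ | O ≤ normalizer ((γ : Subgroup G) : Set G)} with hF
  have hXF : X ∈ F := (oddPart_le X Y).trans inf_le_left
  have hYF : Y ∈ F := (oddPart_le X Y).trans inf_le_right
  -- all two-point odd stabilizers in F coincide with O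
  have hOeq : ∀ γ ∈ F, ∀ δ ∈ F, γ ≠ δ → oddPart γ δ = O := by
    intro γ hγ δ hδ hγδ
    have hle : O ≤ oddPart γ δ := oddPart_mono (h.hC X Y hXY) hγ hδ
    refine (Subgroup.eq_of_le_of_card_ge hle ?_).symm
    exact hmax ⟨(γ, δ), hγδ⟩
  -- no ordinary involution of a member of F commutes with O
  have hnofix : ∀ γ ∈ F, ∀ a : G, Ord c a → a ∈ γ → (∀ o ∈ O, o * a = a * o) → False := by
    intro γ hγ a ha haγ hcomm
    obtain ⟨δ, hδ, hγδ⟩ : ∃ δ ∈ F, γ ≠ δ := by
      by_cases e : γ = X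
      · exact ⟨Y, hYF, by rw [e]; exact hXY⟩
      · exact ⟨X, hXF, e⟩
    obtain ⟨a', ha', ha'δ⟩ := hne δ
    obtain ⟨w, t', -, hw, -, hw1, hw2⟩ := h.exists_swap hIC hγδ.symm ha' ha ha'δ haγ
    obtain ⟨t, ht, htγ, hta, hta'⟩ := hi2 γ a ha haγ
    obtain ⟨d, hd, hd1, hd2, hd3⟩ := h.exists_odd_conj hIC hγδ hw hw2 hw1 ha ht haγ htγ
    have hdO : d ∈ O := by
      rw [← hOeq γ hγ δ hδ hγδ]
      exact mem_oddPart hd1 hd2 hd
    have hda : d * a * d⁻¹ = a := by
      rw [hcomm d hdO]; group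
    rw [hda] at hd3
    rcases hd3 with e | e
    · exact hta e.symm
    · apply hta'
      rw [e, mul_assoc, ← pow_add, show 2 + 2 = 4 by norm_num, ← h.ord, pow_orderOf_eq_one, mul_one]
  -- the swap of X and Y
  obtain ⟨a₁, ha₁, ha₁X⟩ := hne X
  obtain ⟨a₂, ha₂, ha₂Y⟩ := hne Y
  obtain ⟨u, -, -, hu, -, huX, huY⟩ := h.exists_swap hIC hXY ha₁ ha₂ ha₁X ha₂Y
  have huu := sq_eq_one_of_ord hu.1
  have hui := inv_eq_of_ord hu.1
  have huN : u ∈ normalizer ((O : Subgroup G) : Set G) :=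
    h.mem_normalizer_oddPart hXY u hu.1 huX huY
  have huF : ∀ γ ∈ F, u • γ ∈ F := by
    intro γ hγ o ho
    rw [mem_normalizer_smul]
    apply hγ
    have h2 : u * o * u⁻¹ ∈ O := (Subgroup.mem_normalizer_iff.mp huN o).mp ho
    rw [hui] at h2 ⊢
    exact h2
  have huFix : ∀ γ, γ ∈ F → u • γ ≠ γ := by
    intro γ hγ e
    have huγ : u ∈ γ := mem_of_mem_normalizer (two_of_ord hu.1) (Sylow.smul_eq_iff_mem_normalizer.mp e)
    refine hnofix γ hγ u hu huγ ?_
    intro o ho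
    have h1 : u * o * u⁻¹ ∈ O := (Subgroup.mem_normalizer_iff.mp huN o).mp ho
    have h2 : (u * o * u⁻¹) * o⁻¹ ∈ O := O.mul_mem h1 (O.inv_mem ho)
    have h3 : o * u⁻¹ * o⁻¹ ∈ γ :=
      (Subgroup.mem_normalizer_iff.mp (hγ ho) _).mp (γ.toSubgroup.inv_mem huγ)
    have h4 : (u * o * u⁻¹) * o⁻¹ ∈ γ := by
      have : (u * o * u⁻¹) * o⁻¹ = u * (o * u⁻¹ * o⁻¹) := by group
      rw [this]
      exact γ.toSubgroup.mul_mem huγ h3
    have h5 : (u * o * u⁻¹) * o⁻¹ = 1 := by
      refine eq_one_of_two_of_odd (two_of_mem h4) (orderOf_odd_of_mem hOodd h2) ?_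
      exact pow_orderOf_eq_one _
    have h6 : u * o * u⁻¹ = o := by
      calc u * o * u⁻¹ = ((u * o * u⁻¹) * o⁻¹) * o := by group
        _ = o := by rw [h5, one_mul]
    calc o * u = (u * o * u⁻¹) * u := by rw [h6]
      _ = u * o := by group
  -- the element outside C commuting with O
  haveI hCn : (h.C).Normal := by
    haveI := h.nV
    infer_instance
  obtain ⟨x, hx⟩ : ∃ x : G, x • X₀ = X := MulAction.exists_smul_eq G X₀ X
  set t₁ : G := x * t₀ * x⁻¹ with ht₁
  have ht₁X : t₁ ∈ X := by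
    rw [← hx]; exact conj_mem_smul ht₀X
  have ht₁C : t₁ ∉ h.C := by
    intro hm
    apply ht₀
    have := hCn.conj_mem _ hm x⁻¹
    have e : x⁻¹ * t₁ * x⁻¹⁻¹ = t₀ := by rw [ht₁]; group
    rwa [e] at this
  have hOC : O ≤ h.C := fun o ho => h.odd_mem_C (orderOf_odd_of_mem hOodd ho)
  have hXp : ∃ k, Nat.card X = 2 ^ k := IsPGroup.iff_card.mp X.isPGroup'
  have hcop : (Nat.card O).Coprime (Nat.card X) := by
    obtain ⟨k, hk⟩ := hXp
    rw [hk]
    exact Nat.Coprime.pow_right k (Nat.coprime_two_right.mpr hOodd)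
  have hXnil : Group.IsSolvable X := by
    haveI : Group.IsNilpotent (X : Subgroup G) := X.isPGroup'.isNilpotent
    exact inferInstanceAs (Group.IsSolvable (X : Subgroup G))
  have hNA : O ≤ normalizer (((X : Subgroup G) ⊓ h.C : Subgroup G) : Set G) := by
    intro o ho
    rw [Subgroup.mem_normalizer_iff]
    intro y
    simp only [SetLike.mem_coe, Subgroup.mem_inf]
    rw [(Subgroup.mem_normalizer_iff.mp (hXF ho) y)]
    constructor
    · rintro ⟨h1, h2⟩
      exact ⟨h1, hCn.conj_mem _ h2 o⟩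
    · rintro ⟨h1, h2⟩
      refine ⟨h1, ?_⟩
      have := hCn.conj_mem _ h2 o⁻¹
      have e : o⁻¹ * (o * y * o⁻¹) * o⁻¹⁻¹ = y := by group
      rwa [e] at this
  obtain ⟨α, hα, hαt⟩ := Cfsg.Agent.Lib.Coprime.Coset.exists_centralizer_mem_coset
    (A := O) (K := X) (N := (X : Subgroup G) ⊓ h.C) hXF hcop (Or.inr hXnil) inf_le_left hNA t₁ ht₁X
    (by
      intro a ha
      refine ⟨?_, ?_⟩
      · exact X.toSubgroup.mul_mem (X.toSubgroup.inv_mem ht₁X)
          ((Subgroup.mem_normalizer_iff.mp (hXF ha) _).mp ht₁X)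
      · have h1 : t₁⁻¹ * (a * t₁ * a⁻¹) = (t₁⁻¹ * a * t₁⁻¹⁻¹) * a⁻¹ := by group
        rw [h1]
        exact (h.C).mul_mem (hCn.conj_mem _ (hOC ha) _) ((h.C).inv_mem (hOC ha)))
  have hαX : α ∈ X := hα.1
  have hαC : α ∉ h.C := by
    intro hm
    apply ht₁C
    have h1 : t₁ = α * (t₁⁻¹ * α)⁻¹ := by group
    rw [h1]
    exact (h.C).mul_mem hm ((h.C).inv_mem hαt.2)
  have hαcomm : ∀ o ∈ O, o * α = α * o := by
    intro o ho
    exact (Subgroup.mem_centralizer_iff.mp hα.2 o ho)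
  have hαF : ∀ γ ∈ F, α • γ ∈ F := by
    intro γ hγ o ho
    rw [mem_normalizer_smul]
    have : α⁻¹ * o * α = o := by
      rw [mul_assoc, hαcomm o ho]; group
    rw [this]
    exact hγ ho
  -- parity
  have h1 := card_modEq_of_invariant (x := u) (two_of_ord hu.1) F huF
  have h2 := card_modEq_of_invariant (x := α) (two_of_mem hαX) F hαF
  have hc1 : Nat.card {γ : Sylow 2 G // γ ∈ F ∧ u • γ = γ} = 0 := by
    rw [Nat.card_eq_zero]
    left
    exact ⟨fun p => huFix p.1 p.2.1 p.2.2⟩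
  have hc2 : Nat.card {γ : Sylow 2 G // γ ∈ F ∧ α • γ = γ} = 1 := by
    rw [Nat.card_eq_one_iff_unique]
    refine ⟨⟨?_⟩, ⟨⟨X, hXF, Sylow.smul_eq_iff_mem_normalizer.mpr (X.le_normalizer hαX)⟩⟩⟩
    rintro ⟨γ, -, hγ⟩ ⟨δ, -, hδ⟩
    apply Subtype.ext
    have h3 : α ∈ γ := mem_of_mem_normalizer (two_of_mem hαX) (Sylow.smul_eq_iff_mem_normalizer.mp hγ)
    have h4 : α ∈ δ := mem_of_mem_normalizer (two_of_mem hαX) (Sylow.smul_eq_iff_mem_normalizer.mp hδ)
    exact h.uniq_of_not_C hαC h3 h4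
  rw [hc1] at h1
  rw [hc2] at h2
  have := h1.symm.trans h2
  simp [Nat.ModEq] at this

end Cfg

end Cfsg.Agent.Lib.Gross.CycInt
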