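import Cfsg.Agent.Lib.Gross.CycInt3

/-!
# Groups in which distinct Sylow `2`-subgroups meet in cyclic groups, IV: the remaining cases
-/

set_option autoImplicit false

namespace Cfsg.Agent.Lib.Gross.CycInt

open Subgroup
open scoped Pointwise

universe u

variable {G : Type u} [Group G] [Finite G]

/-- `z ∈ K` if two coprime powers of `z` lie in `K`. -/
theorem mem_of_coprime_pows (K : Subgroup G) {z : G} {a b : ℕ} (hab : a.Coprime b) (h1 : z ^ a ∈ K)
    (h2 : z ^ b ∈ K) : z ∈ K := by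
  have h3 := Nat.gcd_eq_gcd_ab a b
  rw [hab.gcd_eq_one] at h3
  have h4 : z = (z ^ a) ^ (Nat.gcdA a b) * (z ^ b) ^ (Nat.gcdB a b) := by
    rw [← zpow_natCast, ← zpow_natCast, ← zpow_mul, ← zpow_mul, ← zpow_add, ← h3]
    simp
  rw [h4]
  exact K.mul_mem (K.zpow_mem h1 _) (K.zpow_mem h2 _)

/-- The two-part of `z` lies outside `K` if `z` does, provided `K` contains the elements of odd order. -/
theorem exists_twoPart_not_mem (K : Subgroup G) (hK : ∀ g : G, Odd (orderOf g) → g ∈ K) {z : G}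
    (hz : z ∉ K) : ∃ m : ℕ, Odd m ∧ Two (z ^ m) ∧ z ^ m ∉ K := by
  obtain ⟨k, m, hm, hk⟩ := Nat.exists_eq_two_pow_mul_odd (orderOf_pos z).ne'
  refine ⟨m, hm, ⟨k, ?_⟩, fun hzm => hz ?_⟩
  · rw [← pow_mul, mul_comm, ← hk, pow_orderOf_eq_one]
  · have hodd : z ^ 2 ^ k ∈ K := by
      apply hK
      refine Odd.of_dvd_nat hm (orderOf_dvd_of_pow_eq_one ?_)
      rw [← pow_mul, ← hk, pow_orderOf_eq_one]
    exact mem_of_coprime_pows K (Nat.Coprime.pow_left k (Nat.coprime_two_left.mpr hm)) hodd hzm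

theorem exists_sylow_of_inverted {a y : G} (ha : orderOf a = 2) (hy : Two y)
    (hinv : a * y * a⁻¹ = y⁻¹) : ∃ S : Sylow 2 G, a ∈ S ∧ y ∈ S := by
  have hle : zpowers a ≤ normalizer ((zpowers y : Subgroup G) : Set G) := by
    rw [Subgroup.zpowers_le]
    exact mem_normalizer_of_inverted (sq_eq_one_of_ord ha) hinv
  have hp : IsPGroup 2 ((zpowers y ⊔ zpowers a : Subgroup G)) :=
    hy.isPGroup.to_sup_of_normal_left' (two_of_ord ha).isPGroup hle
  obtain ⟨S₁, hS₁⟩ := hp.exists_le_sylow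
  exact ⟨S₁, hS₁ ((le_sup_right : zpowers a ≤ _) (mem_zpowers a)),
    hS₁ ((le_sup_left : zpowers y ≤ _) (mem_zpowers y))⟩

namespace Cfg

variable {V : Subgroup G} {c : G} (h : Cfg V c)
include h

theorem c_mem_C : c ∈ h.C := by
  haveI := h.V_cyclic
  rw [Subgroup.mem_centralizer_iff]
  intro y hy
  have hcomm := (IsCyclic.isMulCommutative (α := V)).is_comm.comm ⟨y, hy⟩ ⟨c, h.cV⟩
  exact congrArg Subtype.val hcomm

/-- If `C` has a unique involution, `G` is a `2`-group. -/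
theorem isPGroup_of_unique (hO : ∀ N : Subgroup G, N.Normal → Odd (Nat.card N) → N = ⊥)
    (hU : ∀ j ∈ h.C, orderOf j = 2 → j = c ^ 2) : IsPGroup 2 G := by
  haveI hVn := h.nV
  haveI hCn : (h.C).Normal := inferInstance
  set C₀ : Subgroup G := h.C with hC₀
  set c₀ : C₀ := ⟨c, h.c_mem_C⟩ with hc₀
  have hcen : ∀ y : C₀, y * c₀ = c₀ * y := by
    intro y
    apply Subtype.ext
    exact Subgroup.mem_centralizer_iff.mp y.2 c h.cV |>.symm
  have hord₀ : orderOf c₀ = 4 := by
    rw [hc₀, Subgroup.orderOf_mk]; exact h.ord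
  obtain ⟨T⟩ : Nonempty (Sylow 2 C₀) := inferInstance
  have hzn : (zpowers c₀).Normal := by
    constructor
    intro y hy g
    obtain ⟨n, rfl⟩ := Subgroup.mem_zpowers_iff.mp hy
    have : g * c₀ ^ n * g⁻¹ = c₀ ^ n := by
      rw [← conj_zpow]
      congr 1
      rw [hcen g]; group
    rw [this]
    exact hy
  have hzp : IsPGroup 2 (zpowers c₀) := by
    refine Two.isPGroup ⟨2, ?_⟩
    rw [show 2 ^ 2 = 4 by norm_num, ← hord₀, pow_orderOf_eq_one]
  have hc₀T : c₀ ∈ T :=
    ((Cfsg.Agent.Lib.Basic.PCore.le_pCore hzn hzp).trans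
      (Cfsg.Agent.Lib.Basic.PCore.pCore_le_sylow T)) (mem_zpowers c₀)
  have huniq : Cfsg.Agent.Lib.PGroup.CyclicMax2.UniqueP 2 T := by
    intro y z hy hz hy1 hz1
    have key : ∀ w : T, w ^ 2 = 1 → w ≠ 1 → ((w : C₀) : G) = c ^ 2 := by
      intro w hw hw1
      refine hU _ (w : C₀).2 (orderOf_eq_prime ?_ ?_)
      · have := congrArg (fun x : T => ((x : C₀) : G)) hw
        simpa using this
      · intro e
        apply hw1
        exact Subtype.ext (Subtype.ext (by simpa using e))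
    have : y = z := Subtype.ext (Subtype.ext ((key y hy hy1).trans (key z hz hz1).symm))
    rw [this]
    exact mem_zpowers z
  have hTcyc : IsCyclic T := by
    rcases Cfsg.Agent.Lib.PGroup.CyclicMax2.cyclic_or_quaternion T.isPGroup' huniq with h1 | h1
    · exact h1
    · exfalso
      obtain ⟨-, u, b, n, hSC, -, -, -, hb, -⟩ := h1
      set c' : T := ⟨c₀, hc₀T⟩ with hc'
      have hcomm : ∀ y : T, y * c' = c' * y := by
        intro y
        apply Subtype.ext
        exact hcen y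
      have hm : c' ∈ zpowers u := hSC.cent c' (hcomm u).symm
      obtain ⟨k, hk⟩ := Subgroup.mem_zpowers_iff.mp hm
      have h2 : b * c' * b⁻¹ = c'⁻¹ := by
        rw [← hk, ← conj_zpow, hb, inv_zpow]
      have h3 : b * c' * b⁻¹ = c' := by rw [hcomm b]; group
      rw [h3] at h2
      have h4 : c' ^ 2 = 1 := by
        rw [pow_two]
        nth_rewrite 1 [h2]
        group
      have h5 : c ^ 2 = 1 := by
        have := congrArg (fun x : T => ((x : C₀) : G)) h4
        simpa [hc', hc₀] using this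
      exact h.v_ne_one h5
  have hmin : (Nat.card C₀).minFac = 2 := by
    rw [Nat.minFac_eq_two_iff]
    have : orderOf c₀ ∣ Nat.card C₀ := orderOf_dvd_natCard c₀
    rw [hord₀] at this
    exact Dvd.dvd.trans (by norm_num) this
  have hcompl := IsCyclic.isComplement' hmin hTcyc
  set K := (MonoidHom.transferSylow T (hTcyc.normalizer_le_centralizer hmin)).ker with hK
  have hKodd : Odd (Nat.card K) := by
    have h1 := hcompl.index_eq_card
    have h2 : ¬ 2 ∣ (T : Subgroup C₀).index := T.not_dvd_index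
    rw [h1] at h2
    exact Nat.odd_iff.mpr (by omega)
  have hKle : K ≤ Cfsg.pPrimeCore 2 C₀ :=
    Cfsg.Agent.Lib.Basic.PCore.le_pPrimeCore inferInstance (Nat.coprime_two_right.mpr hKodd)
  have hQ : ((Cfsg.pPrimeCore 2 C₀).map C₀.subtype) = ⊥ := by
    haveI : (Cfsg.pPrimeCore 2 C₀).Characteristic :=
      Cfsg.Agent.Lib.Solvable.PSeries.pPrimeCore_char 2 C₀
    refine hO _ (Cfsg.Agent.Lib.Basic.PCore.map_subtype_normal_of_characteristic _) ?_
    rw [Nat.card_congr ((Cfsg.pPrimeCore 2 C₀).equivMapOfInjective _ C₀.subtype_injective).symm.toEquiv]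
    exact Nat.coprime_two_right.mp (Cfsg.Agent.Lib.Solvable.PSeries.pPrimeCore_coprime 2)
  have hKbot : K = ⊥ := by
    rw [eq_bot_iff]
    intro y hy
    have h1 : (y : G) ∈ (Cfsg.pPrimeCore 2 C₀).map C₀.subtype := ⟨y, hKle hy, rfl⟩
    rw [hQ, Subgroup.mem_bot] at h1
    exact Subgroup.mem_bot.mpr (Subtype.ext h1)
  have hTtop : (T : Subgroup C₀) = ⊤ := by
    have h1 := hcompl.sup_eq_top
    rwa [hKbot, bot_sup_eq] at h1
  rw [IsPGroup.iff_orderOf]
  intro g
  obtain ⟨k, m, hm, hk⟩ := Nat.exists_eq_two_pow_mul_odd (orderOf_pos g).ne'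
  have hodd : Odd (orderOf (g ^ 2 ^ k)) := by
    refine Odd.of_dvd_nat hm (orderOf_dvd_of_pow_eq_one ?_)
    rw [← pow_mul, ← hk, pow_orderOf_eq_one]
  have hgC : g ^ 2 ^ k ∈ C₀ := h.odd_mem_C hodd
  have hgT : (⟨_, hgC⟩ : C₀) ∈ (T : Subgroup C₀) := by rw [hTtop]; trivial
  have h1 : (⟨_, hgC⟩ : C₀) = 1 := by
    refine eq_one_of_two_of_odd (two_of_mem hgT) (m := orderOf (g ^ 2 ^ k)) hodd ?_
    apply Subtype.ext
    simp [pow_orderOf_eq_one]
  have h2 : g ^ 2 ^ k = 1 := congrArg Subtype.val h1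
  obtain ⟨j, -, hj⟩ := (Nat.dvd_prime_pow Nat.prime_two).mp (orderOf_dvd_of_pow_eq_one h2)
  exact ⟨j, hj⟩

/-- An involution outside `C` forces `C` to have a unique involution. -/
theorem unique_of_outside {a : G} (ha : orderOf a = 2) (haC : a ∉ h.C) :
    ∀ j ∈ h.C, orderOf j = 2 → j = c ^ 2 := by
  haveI hVn := h.nV
  haveI hCn : (h.C).Normal := inferInstance
  intro j hj hjo
  -- every Sylow subgroup contains `j`
  have hall : ∀ Wy : Sylow 2 G, j ∈ Wy := by
    intro Wy
    obtain ⟨S₀, hS₀⟩ := (two_of_ord ha).exists_sylow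
    obtain ⟨x, hx⟩ : ∃ x : G, x • S₀ = Wy := MulAction.exists_smul_eq G S₀ Wy
    set a' : G := x * a * x⁻¹ with ha'
    have ha'W : a' ∈ Wy := by
      rw [← hx]; exact conj_mem_smul hS₀
    have ha'o : orderOf a' = 2 := by
      have : x * a * x⁻¹ = MulAut.conj x a := rfl
      rw [ha', this, MulEquiv.orderOf_eq]
      exact ha
    have ha'C : a' ∉ h.C := by
      intro hm
      apply haC
      have := hCn.conj_mem _ hm x⁻¹
      have e : x⁻¹ * a' * x⁻¹⁻¹ = a := by rw [ha']; group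
      rwa [e] at this
    have ha'a := sq_eq_one_of_ord ha'o
    have ha'i := inv_eq_of_ord ha'o
    have hjj := sq_eq_one_of_ord hjo
    have hji := inv_eq_of_ord hjo
    set z := a' * j with hz
    have hzC : z ∉ h.C := by
      intro hm
      apply ha'C
      have : a' = z * j⁻¹ := by rw [hz]; group
      rw [this]
      exact (h.C).mul_mem hm ((h.C).inv_mem hj)
    obtain ⟨m, hm, hy2, hyC⟩ := exists_twoPart_not_mem (h.C) (fun g hg => h.odd_mem_C hg) hzC
    have hzi : z⁻¹ = j * a' := by rw [hz, mul_inv_rev, ha'i, hji]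
    have hay : a' * z ^ m * a'⁻¹ = (z ^ m)⁻¹ := by
      have h1 : a' * z * a'⁻¹ = z⁻¹ := by
        rw [hzi, hz, ha'i]
        calc a' * (a' * j) * a' = (a' * a') * j * a' := by group
          _ = j * a' := by rw [ha'a, one_mul]
      rw [← conj_pow, h1, inv_pow]
    have hjy : j * z ^ m * j⁻¹ = (z ^ m)⁻¹ := by
      have h1 : j * z * j⁻¹ = z⁻¹ := by
        rw [hzi, hz, hji]
        calc j * (a' * j) * j = j * a' * (j * j) := by group
          _ = j * a' := by rw [hjj, mul_one]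
      rw [← conj_pow, h1, inv_pow]
    obtain ⟨S₁, h11, h12⟩ := exists_sylow_of_inverted ha'o hy2 hay
    obtain ⟨S₂, h21, h22⟩ := exists_sylow_of_inverted hjo hy2 hjy
    have e1 : S₁ = Wy := h.uniq_of_not_C ha'C h11 ha'W
    have e2 : S₂ = S₁ := h.uniq_of_not_C hyC h22 h12
    rw [← e1, ← e2]
    exact h21
  obtain ⟨S, T, hST⟩ := h.ne
  rcases h.eq_of_sq_inter hST (hall S) (hall T) (by rw [pow_two]; exact sq_eq_one_of_ord hjo) with e | e
  · rw [e] at hjo; simp at hjo
  · exact e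

/-- The Z*-theorem excludes Sylow `2`-subgroups with exactly three involutions. -/
theorem false_of_three
    (hZ : ∀ (X : Type u) [Group X] [Finite X] (P : Sylow 2 X) (w : X), orderOf w = 2 → w ∈ P →
      (∀ g : X, g * w * g⁻¹ ∈ P → g * w * g⁻¹ = w) →
      ∃ N : Subgroup X, N.Normal ∧ Odd (Nat.card N) ∧ ∀ g : X, w * g * w⁻¹ * g⁻¹ ∈ N)
    (hO : ∀ N : Subgroup G, N.Normal → Odd (Nat.card N) → N = ⊥)
    {X : Sylow 2 G} {a : G} (ha : Ord c a) (haX : a ∈ X)
    (h3 : ∀ t : G, Ord c t → t ∈ X → t = a ∨ t = a * c ^ 2) : False := by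
  set v : G := c ^ 2 with hv
  set K : Subgroup G := zpowers v with hK
  have hvc : ∀ g : G, g * v = v * g := h.v_comm
  have hvv : v * v = 1 := by rw [← pow_two]; exact h.v_sq
  have hKmem : ∀ y : G, y ∈ K ↔ y = 1 ∨ y = v := by
    intro y
    constructor
    · intro hy
      obtain ⟨n, rfl⟩ := Subgroup.mem_zpowers_iff.mp hy
      rcases Int.emod_two_eq_zero_or_one n with h0 | h1
      · left
        obtain ⟨k, rfl⟩ : (2 : ℤ) ∣ n := Int.dvd_of_emod_eq_zero h0
        rw [zpow_mul, zpow_two, hvv, one_zpow]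
      · right
        have : n = 2 * (n / 2) + 1 := by omega
        rw [this, zpow_add, zpow_mul, zpow_two, hvv, one_zpow, one_mul, zpow_one]
    · rintro (rfl | rfl)
      · exact K.one_mem
      · exact mem_zpowers _
  have hKcen : ∀ y ∈ K, ∀ g : G, g * y = y * g := by
    intro y hy g
    rcases (hKmem y).mp hy with rfl | rfl
    · simp
    · exact hvc g
  haveI hKn : K.Normal := by
    constructor
    intro y hy g
    rw [hKcen y hy g]
    simpa using hy
  have hKX : ∀ Y : Sylow 2 G, K ≤ Y := by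
    intro Y
    rw [hK, Subgroup.zpowers_le]
    exact h.v_mem Y
  set π := QuotientGroup.mk' K with hπ
  have hπsurj : Function.Surjective π := QuotientGroup.mk'_surjective K
  have hπeq : ∀ x y : G, π x = π y ↔ x⁻¹ * y ∈ K := fun x y => QuotientGroup.eq
  set X' : Sylow 2 (G ⧸ K) := X.mapSurjective hπsurj with hX'
  have hX'coe : (X' : Subgroup (G ⧸ K)) = (X : Subgroup G).map π := Sylow.coe_mapSurjective _ _
  have hmemX' : ∀ g : G, π g ∈ X' → g ∈ X := by
    intro g hg
    have hg' : π g ∈ (X : Subgroup G).map π := by rw [← hX'coe]; exact hg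
    obtain ⟨x, hx, hxg⟩ := hg'
    have h1 : x⁻¹ * g ∈ K := (hπeq x g).mp hxg
    have h2 := X.toSubgroup.mul_mem hx (hKX X h1)
    have h3 : x * (x⁻¹ * g) = g := by group
    rw [h3] at h2
    exact h2
  have haK : a ∉ K := by
    intro hm
    rcases (hKmem a).mp hm with e | e
    · rw [e] at ha; simpa using ha.1
    · exact ha.2 e
  have horda : orderOf (π a) = 2 := by
    refine orderOf_eq_prime ?_ ?_
    · rw [← map_pow, pow_two, sq_eq_one_of_ord ha.1, map_one]
    · intro e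
      exact haK ((QuotientGroup.eq_one_iff a).mp e)
  have hiso : ∀ g : G ⧸ K, g * π a * g⁻¹ ∈ X' → g * π a * g⁻¹ = π a := by
    intro g hg
    obtain ⟨g, rfl⟩ := hπsurj g
    have h1 : π (g * a * g⁻¹) ∈ X' := by simpa using hg
    have h2 := hmemX' _ h1
    have h4 : π (g * a * g⁻¹) = π a := by
      rcases h3 _ (h.ord_conj ha g) h2 with e | e
      · rw [e]
      · rw [e]
        refine ((hπeq a (a * v)).mpr ?_).symm
        have : a⁻¹ * (a * v) = v := by group
        rw [this]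
        exact mem_zpowers _
    simpa using h4
  obtain ⟨N, hNn, hNodd, hNc⟩ := hZ (G ⧸ K) X' (π a) horda ⟨a, haX, rfl⟩ hiso
  set N₁ : Subgroup G := N.comap π with hN₁
  haveI hN₁n : N₁.Normal := hNn.comap π
  have hKN₁ : K ≤ N₁ := by
    intro y hy
    show π y ∈ N
    have : π y = 1 := (QuotientGroup.eq_one_iff y).mpr hy
    rw [this]
    exact N.one_mem
  have h2N₁ : ∀ g ∈ N₁, Two g → g ∈ K := by
    intro g hg hg2
    have hg' : π g ∈ N := hg
    have hodd : Odd (orderOf (π g)) := orderOf_odd_of_mem hNodd hg'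
    have h2 : Two (π g) := by
      obtain ⟨k, hk⟩ := hg2
      exact ⟨k, by rw [← map_pow, hk, map_one]⟩
    have h3 : π g = 1 := eq_one_of_two_of_odd h2 hodd (pow_orderOf_eq_one _)
    exact (QuotientGroup.eq_one_iff g).mp h3
  have hKcyc : IsCyclic K := Subgroup.isCyclic_zpowers v
  have hKp : IsPGroup 2 K := Two.isPGroup ⟨1, by rw [pow_one]; exact h.v_sq⟩
  obtain ⟨W, -, hWodd, hW⟩ := exists_odd_complement hKN₁ (fun _ _ =>
    (Subgroup.normalizer_eq_top_iff.mpr hKn) ▸ Subgroup.mem_top _) hKcyc hKp h2N₁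
  -- the normal subgroup generated by the odd elements of `N₁` is trivial
  set E : Subgroup G := closure {g : G | g ∈ N₁ ∧ Odd (orderOf g)} with hE
  have hEle : E ≤ W := (closure_le _).mpr fun g hg => hW g hg.1 hg.2
  have hEn : E.Normal := by
    constructor
    intro y hy g
    induction hy using Subgroup.closure_induction with
    | mem y hy =>
      refine subset_closure ⟨hN₁n.conj_mem _ hy.1 g, ?_⟩
      have : g * y * g⁻¹ = MulAut.conj g y := rfl
      rw [this, MulEquiv.orderOf_eq]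
      exact hy.2
    | one => simp [E.one_mem]
    | mul x y _ _ hx hy =>
      have : g * (x * y) * g⁻¹ = (g * x * g⁻¹) * (g * y * g⁻¹) := by group
      rw [this]
      exact E.mul_mem hx hy
    | inv x _ hx =>
      have : g * x⁻¹ * g⁻¹ = (g * x * g⁻¹)⁻¹ := by group
      rw [this]
      exact E.inv_mem hx
  have hEbot : E = ⊥ := hO E hEn (Odd.of_dvd_nat hWodd (Subgroup.card_dvd_of_le hEle))
  have hoddtriv : ∀ g ∈ N₁, Odd (orderOf g) → g = 1 := by
    intro g hg hodd
    have : g ∈ E := subset_closure ⟨hg, hodd⟩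
    rwa [hEbot, Subgroup.mem_bot] at this
  have hN₁K : N₁ ≤ K := by
    intro g hg
    apply h2N₁ g hg
    obtain ⟨k, m, hm, hk⟩ := Nat.exists_eq_two_pow_mul_odd (orderOf_pos g).ne'
    refine ⟨k, hoddtriv _ (N₁.pow_mem hg _) ?_⟩
    refine Odd.of_dvd_nat hm (orderOf_dvd_of_pow_eq_one ?_)
    rw [← pow_mul, ← hk, pow_orderOf_eq_one]
  -- conjugates of `a` stay in `a K`
  have hconj : ∀ g : G, g * a * g⁻¹ = a ∨ g * a * g⁻¹ = a * v := by
    intro g
    have h1 : a * g * a⁻¹ * g⁻¹ ∈ N₁ := by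
      show π (a * g * a⁻¹ * g⁻¹) ∈ N
      simpa using hNc (π g)
    have h2 := hN₁K h1
    have hai := inv_eq_of_ord ha.1
    have haa := sq_eq_one_of_ord ha.1
    have h3 : (a * g * a⁻¹ * g⁻¹)⁻¹ ∈ K := K.inv_mem h2
    have e : g * a * g⁻¹ = (a * g * a⁻¹ * g⁻¹)⁻¹ * a := by
      have e' : (a * g * a⁻¹ * g⁻¹)⁻¹ * a = g * a * g⁻¹ * a⁻¹ * a := by group
      rw [e']
      group
    rcases (hKmem _).mp h3 with e1 | e1
    · left
      rw [e, e1, one_mul]
    · right
      rw [e, e1, hvc a]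
  -- `a` lies in every Sylow subgroup
  obtain ⟨S, T, hST⟩ := h.ne
  have hall : ∀ Y : Sylow 2 G, a ∈ Y := by
    intro Y
    obtain ⟨x, hx⟩ : ∃ x : G, x • X = Y := MulAction.exists_smul_eq G X Y
    rw [← hx, mem_smul]
    have hi : x⁻¹ * a * x = x⁻¹ * a * x⁻¹⁻¹ := by simp
    rw [hi]
    rcases hconj x⁻¹ with e | e
    · rw [e]; exact haX
    · rw [e]; exact X.toSubgroup.mul_mem haX (h.v_mem X)
  exact hST (h.uniq_of_inv ha.1 ha.2 (hall S) (hall T))

/-- The core contradiction. -/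
theorem false_core (hO : ∀ N : Subgroup G, N.Normal → Odd (Nat.card N) → N = ⊥)
    (hp : ¬ IsPGroup 2 G)
    (hZ : ∀ (X : Type u) [Group X] [Finite X] (P : Sylow 2 X) (w : X), orderOf w = 2 → w ∈ P →
      (∀ g : X, g * w * g⁻¹ ∈ P → g * w * g⁻¹ = w) →
      ∃ N : Subgroup X, N.Normal ∧ Odd (Nat.card N) ∧ ∀ g : X, w * g * w⁻¹ * g⁻¹ ∈ N)
    {g : G} (hg : g ∉ h.C) : False := by
  haveI hVn := h.nV
  have hU : ¬ ∀ j ∈ h.C, orderOf j = 2 → j = c ^ 2 := fun hU => hp (h.isPGroup_of_unique hO hU)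
  -- all involutions lie in `C`
  have hIC : ∀ u : G, orderOf u = 2 → u ∈ h.C := by
    intro u hu
    by_contra huC
    exact hU (h.unique_of_outside hu huC)
  -- a two-element outside `C`
  obtain ⟨m, -, hy2, hyC⟩ := exists_twoPart_not_mem (h.C) (fun g hg => h.odd_mem_C hg) hg
  obtain ⟨X₀, hX₀⟩ := hy2.exists_sylow
  -- ordinary involutions exist in every Sylow subgroup
  have hne : ∀ X : Sylow 2 G, ∃ a : G, Ord c a ∧ a ∈ X := by
    intro X
    by_contra hcon
    push Not at hcon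
    apply hU
    intro j _ hjo
    by_contra hjv
    obtain ⟨S₁, hS₁⟩ := (two_of_ord hjo).exists_sylow
    obtain ⟨x, hx⟩ : ∃ x : G, x • S₁ = X := MulAction.exists_smul_eq G S₁ X
    have : x * j * x⁻¹ ∈ X := by
      rw [← hx]; exact conj_mem_smul hS₁
    exact hcon _ (h.ord_conj ⟨hjo, hjv⟩ x) this
  have hi2 : ∀ (X : Sylow 2 G) (a : G), Ord c a → a ∈ X →
      ∃ t : G, Ord c t ∧ t ∈ X ∧ t ≠ a ∧ t ≠ a * c ^ 2 := by
    intro X a ha haX
    by_contra hcon
    push Not at hcon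
    refine h.false_of_three hZ hO ha haX ?_
    intro t ht htX
    by_cases e : t = a
    · exact Or.inl e
    · exact Or.inr (hcon t ht htX e)
  exact h.false_of_count hIC hne hi2 hyC X₀ hX₀

end Cfg

/-- Every normal `2`-subgroup is central. -/
theorem normal_two_central (hO : ∀ N : Subgroup G, N.Normal → Odd (Nat.card N) → N = ⊥)
    (hp : ¬ IsPGroup 2 G)
    (hC : ∀ S T : Sylow 2 G, S ≠ T → IsCyclic ↥((S : Subgroup G) ⊓ (T : Subgroup G)))
    (hne : ∃ S T : Sylow 2 G, S ≠ T)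
    (hZ : ∀ (X : Type u) [Group X] [Finite X] (P : Sylow 2 X) (w : X), orderOf w = 2 → w ∈ P →
      (∀ g : X, g * w * g⁻¹ ∈ P → g * w * g⁻¹ = w) →
      ∃ N : Subgroup X, N.Normal ∧ Odd (Nat.card N) ∧ ∀ g : X, w * g * w⁻¹ * g⁻¹ ∈ N)
    (V : Subgroup G) [hVn : V.Normal] (hV : IsPGroup 2 V) :
    IsCyclic V ∧ V ≤ Subgroup.center G := by
  have hle : ∀ S : Sylow 2 G, V ≤ S := fun S =>
    (Cfsg.Agent.Lib.Basic.PCore.le_pCore hVn hV).trans (Cfsg.Agent.Lib.Basic.PCore.pCore_le_sylow S)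
  obtain ⟨S, T, hST⟩ := hne
  haveI hR := hC S T hST
  have hVc : IsCyclic V :=
    isCyclic_of_injective (Subgroup.inclusion (le_inf (hle S) (hle T)))
      (Subgroup.inclusion_injective _)
  refine ⟨hVc, ?_⟩
  by_contra hcon
  obtain ⟨v, hv, hvc⟩ := SetLike.not_le_iff_exists.mp hcon
  rw [Subgroup.mem_center_iff] at hvc
  push Not at hvc
  obtain ⟨g, hg⟩ := hvc
  -- an element of order four
  obtain ⟨ρ, hρ⟩ := hVc.exists_ofOrder_eq_natCard
  obtain ⟨k, hk⟩ := IsPGroup.iff_card.mp hV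
  have hρo : orderOf (ρ : G) = 2 ^ k := by
    rw [← hk, ← hρ, Subgroup.orderOf_coe]
  have hk2 : 2 ≤ k := by
    by_contra hk2
    have hv2 : v ^ 2 = 1 := by
      have h1 : (⟨v, hv⟩ : V) ^ Nat.card V = 1 := pow_card_eq_one'
      have h2 : v ^ Nat.card V = 1 := by
        have h2' := congrArg Subtype.val h1
        rwa [SubgroupClass.coe_pow] at h2'
      have h3 : Nat.card V ∣ 2 := by
        rw [hk]
        interval_cases k <;> norm_num
      obtain ⟨q, hq⟩ := h3
      rw [hq, pow_mul, h2, one_pow]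
    have hv1 : v ≠ 1 := by
      rintro rfl
      apply hg
      simp
    have hvo : orderOf v = 2 := orderOf_eq_prime hv2 hv1
    set y := g * v * g⁻¹ with hy
    have hyV : y ∈ V := hVn.conj_mem v hv g
    have hy2 : y ^ 2 = 1 := by rw [hy, conj_pow, hv2]; group
    have hm : y ∈ zpowers v := by
      refine mem_zpowers_of_cyclic hVc hv hyV ?_
      rw [hvo, hy2]
    obtain ⟨n, hn⟩ := Subgroup.mem_zpowers_iff.mp hm
    have hv' : v * v = 1 := by rw [← pow_two]; exact hv2
    have hcase : y = 1 ∨ y = v := by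
      rcases Int.emod_two_eq_zero_or_one n with h0 | h1
      · left
        obtain ⟨k, rfl⟩ : (2 : ℤ) ∣ n := Int.dvd_of_emod_eq_zero h0
        rw [← hn, zpow_mul, zpow_two, hv', one_zpow]
      · right
        have : n = 2 * (n / 2) + 1 := by omega
        rw [← hn, this, zpow_add, zpow_mul, zpow_two, hv', one_zpow, one_mul, zpow_one]
    rcases hcase with e | e
    · apply hv1
      have : v = g⁻¹ * y * g := by rw [hy]; group
      rw [this, e]; group
    · apply hg
      calc g * v = y * g := by rw [hy]; group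
        _ = v * g := by rw [e]
  obtain ⟨j, rfl⟩ : ∃ j, k = j + 2 := ⟨k - 2, by omega⟩
  set c : G := (ρ : G) ^ 2 ^ j with hc
  have hco : orderOf c = 4 := by
    rw [hc, orderOf_pow_of_dvd (by positivity) (by rw [hρo]; exact pow_dvd_pow 2 (by omega)), hρo]
    rw [pow_add]
    simp
  have hcV : c ∈ V := V.pow_mem ρ.2 _
  have hcfg : Cfg V c := ⟨hVn, hV, hC, hcV, hco, ⟨S, T, hST⟩⟩
  have hgC : g ∉ hcfg.C := by
    intro hm
    exact hg (Subgroup.mem_centralizer_iff.mp hm v hv).symm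
  exact hcfg.false_core hO hp hZ hgC

end Cfsg.Agent.Lib.Gross.CycInt
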