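import Cfsg.Agent.Lib.Gross.CycInt4
import Cfsg.Agent.Lib.Components.Fitting
import Cfsg.Agent.Lib.Components.PComponent
import Cfsg.Prelude.Def_CaseTheorems

/-!
# Groups in which distinct Sylow `2`-subgroups meet in cyclic groups, V: the solvable radical
-/

set_option autoImplicit false

namespace Cfsg.Agent.Lib.Gross.CycInt

open Subgroup
open scoped Pointwise

universe u

section lifts

variable {G : Type u} [Group G] [Finite G] {Γ : Type u} [Group Γ] [Finite Γ]

/-- A Sylow `2`-subgroup of the preimage of a `2`-subgroup surjects. -/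
theorem exists_mem_sylow_of_map (π : G →* Γ) (hπ : Function.Surjective π) (W : Subgroup Γ)
    (hW : IsPGroup 2 W) (P : Sylow 2 (W.comap π)) {w : Γ} (hw : w ∈ W) :
    ∃ p : W.comap π, p ∈ P ∧ π p = w := by
  set φ : W.comap π →* W := π.subgroupComap W with hφ
  have hφs : Function.Surjective φ := π.subgroupComap_surjective_of_surjective W hπ
  set P' : Sylow 2 W := P.mapSurjective hφs with hP'
  have htop : (P' : Subgroup W) = ⊤ := by
    have h1 := P'.3 (Q := ⊤) (hW.to_subgroup ⊤) le_top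
    exact h1.symm
  have hm : (⟨w, hw⟩ : W) ∈ (P' : Subgroup W) := by rw [htop]; trivial
  rw [hP', Sylow.coe_mapSurjective] at hm
  obtain ⟨p, hp, hpw⟩ := hm
  exact ⟨p, hp, congrArg Subtype.val hpw⟩

/-- A `2`-subgroup `D` with image in `Sh` lies in a Sylow subgroup with image `Sh`. -/
theorem exists_sylow_lift (π : G →* Γ) (hπ : Function.Surjective π) (Sh : Sylow 2 Γ) (D : Subgroup G)
    (hD : IsPGroup 2 D) (hDS : D.map π ≤ Sh) :
    ∃ S : Sylow 2 G, D ≤ S ∧ S.mapSurjective hπ = Sh := by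
  set A : Subgroup G := (Sh : Subgroup Γ).comap π with hA
  have hDA : D ≤ A := fun x hx => hDS ⟨x, hx, rfl⟩
  have hD' : IsPGroup 2 (D.comap A.subtype) := hD.comap_subtype
  obtain ⟨P, hP⟩ := hD'.exists_le_sylow
  have hP₁ : IsPGroup 2 ((P : Subgroup A).map A.subtype) := P.isPGroup'.map _
  obtain ⟨S, hS⟩ := hP₁.exists_le_sylow
  refine ⟨S, ?_, ?_⟩
  · intro x hx
    exact hS ⟨⟨x, hDA hx⟩, hP hx, rfl⟩
  · have hle : (Sh : Subgroup Γ) ≤ (S.mapSurjective hπ : Subgroup Γ) := by
      intro s hs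
      obtain ⟨p, hp, hps⟩ := exists_mem_sylow_of_map π hπ (Sh : Subgroup Γ) Sh.isPGroup' P hs
      rw [Sylow.coe_mapSurjective]
      exact ⟨p, hS ⟨p, hp, rfl⟩, hps⟩
    have h1 := Sh.3 (Q := S.mapSurjective hπ) (S.mapSurjective hπ).isPGroup' hle
    exact Sylow.ext h1

/-- The hypothesis on intersections passes to homomorphic images. -/
theorem isCyclic_inf_of_surjective (π : G →* Γ) (hπ : Function.Surjective π)
    (hC : ∀ S T : Sylow 2 G, S ≠ T → IsCyclic ↥((S : Subgroup G) ⊓ (T : Subgroup G)))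
    (Sh Th : Sylow 2 Γ) (hne : Sh ≠ Th) : IsCyclic ↥((Sh : Subgroup Γ) ⊓ (Th : Subgroup Γ)) := by
  set W : Subgroup Γ := (Sh : Subgroup Γ) ⊓ (Th : Subgroup Γ) with hW
  have hWp : IsPGroup 2 W := Sh.isPGroup'.to_le inf_le_left
  obtain ⟨P⟩ : Nonempty (Sylow 2 (W.comap π)) := inferInstance
  set D : Subgroup G := (P : Subgroup (W.comap π)).map (W.comap π).subtype with hD
  have hDp : IsPGroup 2 D := P.isPGroup'.map _
  have hDW : D.map π ≤ W := by
    rintro _ ⟨_, ⟨p, -, rfl⟩, rfl⟩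
    exact p.2
  obtain ⟨S, hDS, hSS⟩ := exists_sylow_lift π hπ Sh D hDp (hDW.trans inf_le_left)
  obtain ⟨T, hDT, hTT⟩ := exists_sylow_lift π hπ Th D hDp (hDW.trans inf_le_right)
  have hST : S ≠ T := by
    rintro rfl
    exact hne (hSS.symm.trans hTT)
  haveI hcyc := hC S T hST
  have hDc : IsCyclic D :=
    isCyclic_of_injective (Subgroup.inclusion (le_inf hDS hDT)) (Subgroup.inclusion_injective _)
  have hmap : ∀ x : D, π x ∈ W := fun x => hDW ⟨x, x.2, rfl⟩
  set ψ : D →* W := (π.comp D.subtype).codRestrict W hmap with hψ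
  have hψs : Function.Surjective ψ := by
    rintro ⟨w, hw⟩
    obtain ⟨p, hp, hpw⟩ := exists_mem_sylow_of_map π hπ W hWp P hw
    refine ⟨⟨p, ⟨p, hp, rfl⟩⟩, ?_⟩
    apply Subtype.ext
    exact hpw
  exact isCyclic_of_surjective ψ hψs

end lifts

section radical

variable {G : Type u} [Group G] [Finite G]

/-- If `G` has no nontrivial normal subgroup of odd order and the hypothesis on intersections holds,
every solvable normal subgroup is a `2`-group. -/
theorem solvable_normal_isPGroup (hO : ∀ N : Subgroup G, N.Normal → Odd (Nat.card N) → N = ⊥)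
    (hC : ∀ S T : Sylow 2 G, S ≠ T → IsCyclic ↥((S : Subgroup G) ⊓ (T : Subgroup G)))
    (hne : ∃ S T : Sylow 2 G, S ≠ T)
    (N : Subgroup G) [hN : N.Normal] (hs : Group.IsSolvable N) : IsPGroup 2 N := by
  have hodd : ∀ p : ℕ, p.Prime → p ≠ 2 → pCore p N = ⊥ := by
    intro p hp hp2
    haveI := Fact.mk hp
    haveI := Cfsg.Agent.Lib.Basic.PCore.pCore_char p N
    have h1 : (pCore p N).map N.subtype = ⊥ := by
      refine hO _ (Cfsg.Agent.Lib.Basic.PCore.map_subtype_normal_of_characteristic (pCore p N)) ?_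
      rw [Nat.card_congr ((pCore p N).equivMapOfInjective _ N.subtype_injective).symm.toEquiv]
      obtain ⟨k, hk⟩ := IsPGroup.iff_card.mp (Cfsg.Agent.Lib.Basic.PCore.pCore_isPGroup p (G := N))
      rw [hk]
      exact Odd.pow (hp.odd_of_ne_two hp2)
    exact (Subgroup.map_eq_bot_iff_of_injective _ N.subtype_injective).mp h1
  have hF : fittingSubgroup N = pCore 2 N := by
    apply le_antisymm
    · rw [Cfsg.Agent.Lib.Basic.PCore.fittingSubgroup_eq_iSup_pCore]
      refine iSup_le ?_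
      rintro ⟨p, hp⟩
      by_cases hp2 : p = 2
      · subst hp2
        exact le_rfl
      · rw [hodd p (Nat.prime_of_mem_primeFactors hp) hp2]
        exact bot_le
    · exact Cfsg.Agent.Lib.Basic.PCore.pCore_le_fittingSubgroup 2
  haveI hFchar : (pCore 2 N).Characteristic := Cfsg.Agent.Lib.Basic.PCore.pCore_char 2 N
  set F₁ : Subgroup G := (pCore 2 N).map N.subtype with hF₁
  haveI hF₁n : F₁.Normal :=
    Cfsg.Agent.Lib.Basic.PCore.map_subtype_normal_of_characteristic (pCore 2 N)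
  have hFp : IsPGroup 2 (pCore 2 N) := Cfsg.Agent.Lib.Basic.PCore.pCore_isPGroup 2
  have hF₁p : IsPGroup 2 F₁ := hFp.map _
  have hle : ∀ S : Sylow 2 G, F₁ ≤ S := fun S =>
    (Cfsg.Agent.Lib.Basic.PCore.le_pCore hF₁n hF₁p).trans (Cfsg.Agent.Lib.Basic.PCore.pCore_le_sylow S)
  obtain ⟨S, T, hST⟩ := hne
  haveI hR := hC S T hST
  have hF₁c : IsCyclic F₁ :=
    isCyclic_of_injective (Subgroup.inclusion (le_inf (hle S) (hle T)))
      (Subgroup.inclusion_injective _)
  have hcen : Subgroup.centralizer (fittingSubgroup N : Set N) ≤ fittingSubgroup N :=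
    Cfsg.Agent.Lib.Components.Fitting.le_fitting_of_solvable_of_le_centralizer _ le_rfl
      Subgroup.le_normalizer
      (Group.isSolvable_of_isSolvable_injective (f := (Subgroup.centralizer
        (fittingSubgroup N : Set N)).subtype) (Subgroup.subtype_injective _))
  have hx : ∀ x : N, Odd (orderOf x) → x = 1 := by
    intro x hxo
    have hxo' : Odd (orderOf (x : G)) := by rwa [Subgroup.orderOf_coe]
    have h1 : (x : G) ∈ Subgroup.centralizer (F₁ : Set G) := by
      refine odd_mem_centralizer hF₁c hF₁p hxo' ?_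
      rw [Subgroup.normalizer_eq_top_iff.mpr hF₁n]
      trivial
    have h2 : x ∈ Subgroup.centralizer (fittingSubgroup N : Set N) := by
      rw [Subgroup.mem_centralizer_iff]
      intro y hy
      apply Subtype.ext
      rw [hF] at hy
      exact Subgroup.mem_centralizer_iff.mp h1 y ⟨y, hy, rfl⟩
    have h3 : x ∈ pCore 2 N := by
      rw [← hF]
      exact hcen h2
    have h4 : Two x := by
      obtain ⟨k, hk⟩ := hFp ⟨x, h3⟩
      refine ⟨k, ?_⟩
      have := congrArg Subtype.val hk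
      rwa [SubgroupClass.coe_pow] at this
    exact eq_one_of_two_of_odd h4 hxo (pow_orderOf_eq_one _)
  rw [IsPGroup.iff_orderOf]
  intro g
  obtain ⟨k, m, hm, hk⟩ := Nat.exists_eq_two_pow_mul_odd (orderOf_pos g).ne'
  have hodd' : Odd (orderOf (g ^ 2 ^ k)) := by
    refine Odd.of_dvd_nat hm (orderOf_dvd_of_pow_eq_one ?_)
    rw [← pow_mul, ← hk, pow_orderOf_eq_one]
  have h2 : g ^ 2 ^ k = 1 := hx _ hodd'
  obtain ⟨j, -, hj⟩ := (Nat.dvd_prime_pow Nat.prime_two).mp (orderOf_dvd_of_pow_eq_one h2)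
  exact ⟨j, hj⟩

/-- The main reduction, with the odd order theorem and the `Z*`-theorem as hypotheses. -/
theorem radical_main
    (hFT : ∀ (X : Type u) [Group X] [Finite X], Odd (Nat.card X) → Group.IsSolvable X)
    (hZ : ∀ (X : Type u) [Group X] [Finite X] (P : Sylow 2 X) (w : X), orderOf w = 2 → w ∈ P →
      (∀ g : X, g * w * g⁻¹ ∈ P → g * w * g⁻¹ = w) →
      ∃ N : Subgroup X, N.Normal ∧ Odd (Nat.card N) ∧ ∀ g : X, w * g * w⁻¹ * g⁻¹ ∈ N)
    (hns : ¬ Group.IsSolvable G)
    (hC : ∀ S T : Sylow 2 G, S ≠ T → IsCyclic ↥((S : Subgroup G) ⊓ (T : Subgroup G)))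
    (N : Subgroup G) [hNn : N.Normal] (hN : Group.IsSolvable ↥N) :
    IsCyclic ↥(N.map (QuotientGroup.mk' (Cfsg.oddCore G))) ∧
      IsPGroup 2 ↥(N.map (QuotientGroup.mk' (Cfsg.oddCore G))) ∧
      N.map (QuotientGroup.mk' (Cfsg.oddCore G)) ≤ Subgroup.center (G ⧸ Cfsg.oddCore G) := by
  set Q : Subgroup G := Cfsg.oddCore G with hQ
  set π := QuotientGroup.mk' Q with hπ
  have hπs : Function.Surjective π := QuotientGroup.mk'_surjective Q
  have hQodd : Odd (Nat.card Q) :=
    Nat.coprime_two_right.mp (Cfsg.Agent.Lib.Solvable.PSeries.pPrimeCore_coprime 2)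
  have hOΓ : ∀ M : Subgroup (G ⧸ Q), M.Normal → Odd (Nat.card M) → M = ⊥ := by
    intro M hM hMo
    have h1 := Cfsg.Agent.Lib.Basic.PCore.le_pPrimeCore (p := 2) hM (Nat.coprime_two_right.mpr hMo)
    have h0 : Cfsg.pPrimeCore 2 (G ⧸ Q) = ⊥ :=
      Cfsg.Agent.Lib.Components.PComponent.pPrimeCore_quotient_eq_bot 2
    rw [h0] at h1
    exact eq_bot_iff.mpr h1
  have hQs : Group.IsSolvable Q := hFT Q hQodd
  have hnsΓ : ¬ Group.IsSolvable (G ⧸ Q) := by
    intro hsΓ
    exact hns (Group.isSolvable_of_ker_le_range Q.subtype π (by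
      rw [hπ, QuotientGroup.ker_mk', Subgroup.range_subtype]))
  have hpΓ : ¬ IsPGroup 2 (G ⧸ Q) := by
    intro hp
    haveI := hp.isNilpotent
    exact hnsΓ inferInstance
  have hCΓ := isCyclic_inf_of_surjective π hπs hC
  have hneΓ : ∃ S T : Sylow 2 (G ⧸ Q), S ≠ T := by
    by_contra hcon
    push Not at hcon
    haveI hss : Subsingleton (Sylow 2 (G ⧸ Q)) := ⟨hcon⟩
    obtain ⟨P⟩ : Nonempty (Sylow 2 (G ⧸ Q)) := inferInstance
    haveI hPn : (P : Subgroup (G ⧸ Q)).Normal := P.normal_of_subsingleton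
    have hPs : Group.IsSolvable (P : Subgroup (G ⧸ Q)) := by
      haveI := P.isPGroup'.isNilpotent
      infer_instance
    have hoq : Odd (Nat.card ((G ⧸ Q) ⧸ (P : Subgroup (G ⧸ Q)))) := by
      have h1 : ¬ 2 ∣ (P : Subgroup (G ⧸ Q)).index := P.not_dvd_index
      rw [Subgroup.index_eq_card] at h1
      exact Nat.odd_iff.mpr (by omega)
    haveI hqs : Group.IsSolvable ((G ⧸ Q) ⧸ (P : Subgroup (G ⧸ Q))) := hFT _ hoq
    exact hnsΓ (Group.isSolvable_of_ker_le_range (P : Subgroup (G ⧸ Q)).subtype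
      (QuotientGroup.mk' (P : Subgroup (G ⧸ Q))) (by
        rw [QuotientGroup.ker_mk', Subgroup.range_subtype]))
  haveI hNΓn : (N.map π).Normal := hNn.map π hπs
  have hNΓs : Group.IsSolvable (N.map π) := by
    refine Group.isSolvable_of_surjective (f := π.subgroupMap N) ?_
    exact π.subgroupMap_surjective N
  have h2 := solvable_normal_isPGroup hOΓ hCΓ hneΓ (N.map π) hNΓs
  have h3 := normal_two_central hOΓ hpΓ hCΓ hneΓ hZ (N.map π) h2
  exact ⟨h3.1, h2, h3.2⟩

end radical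

end Cfsg.Agent.Lib.Gross.CycInt
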